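import Cfsg.Agent.Lib.helper22.Gagola4
import Cfsg.Agent.Lib.helper23.PRegChar
import Cfsg.Agent.Lib.helper23.DefectSylow
import Cfsg.Agent.Lib.helper23.CharMod

set_option autoImplicit false

namespace Cfsg.Agent.Lib.helper22

open Cfsg Cfsg.Agent.Lib.helper24 Cfsg.Agent.Lib.helper23
open scoped ComplexConjugate

universe u

variable {G : Type u} [Group G]

theorem sum_div_index_mem [Fintype G] (S : AddSubmonoid ℂ) (g : G → ℂ)
    (hcl : IsClassFunction G g) (hS : ∀ x, g x ∈ S) :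
    (∑ x : G, g x / ((Subgroup.centralizer ({x} : Set G)).index : ℂ)) ∈ S := by
  classical
  have := Fintype.ofFinite (ConjClasses G)
  rw [← Finset.sum_fiberwise (Finset.univ : Finset G) (fun x => ConjClasses.mk x)
    (fun x => g x / ((Subgroup.centralizer ({x} : Set G)).index : ℂ))]
  apply AddSubmonoid.sum_mem
  intro C _
  obtain ⟨x₀, rfl⟩ := ConjClasses.mk_surjective C
  have hfilter : Finset.univ.filter (fun x : G => ConjClasses.mk x = ConjClasses.mk x₀)
      = Finset.univ.filter (fun y : G => IsConj x₀ y) := by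
    ext y
    simp only [Finset.mem_filter, Finset.mem_univ, true_and]
    rw [ConjClasses.mk_eq_mk_iff_isConj]
    exact ⟨fun h => h.symm, fun h => h.symm⟩
  rw [hfilter]
  have hterm : ∀ y ∈ Finset.univ.filter (fun y : G => IsConj x₀ y),
      g y / ((Subgroup.centralizer ({y} : Set G)).index : ℂ)
        = g x₀ / ((Subgroup.centralizer ({x₀} : Set G)).index : ℂ) := by
    intro y hy
    rw [Finset.mem_filter] at hy
    obtain ⟨c, hc⟩ := isConj_iff.mp hy.2
    rw [← hc, hcl x₀ c, index_centralizer_conj]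
  rw [Finset.sum_congr rfl hterm, Finset.sum_const, card_isConj_eq_index x₀, nsmul_eq_mul]
  have hne : ((Subgroup.centralizer ({x₀} : Set G)).index : ℂ) ≠ 0 := by
    exact_mod_cast (Subgroup.index_ne_zero_of_finite (H := Subgroup.centralizer ({x₀} : Set G)))
  rw [mul_div_cancel₀ _ hne]
  exact hS x₀

noncomputable def pReg (p : ℕ) (θ : G → ℂ) : G → ℂ := fun x => if p ∣ orderOf x then 0 else θ x

noncomputable def mreg [Fintype G] (p : ℕ) (θ θ' : G → ℂ) : ℂ := classInner (pReg p θ) θ'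

theorem pReg_isClassFunction (p : ℕ) {θ : G → ℂ} (hθ : IsClassFunction G θ) :
    IsClassFunction G (pReg p θ) := by
  intro g h
  unfold pReg
  have ho : orderOf (h * g * h⁻¹) = orderOf g :=
    orderOf_injective (MulAut.conj h).toMonoidHom (MulAut.conj h).injective g
  rw [ho, hθ g h]

theorem mreg_eq [Fintype G] (p : ℕ) (θ θ' : G → ℂ) :
    mreg p θ θ' = (Nat.card G : ℂ)⁻¹ * ∑ x : G, if p ∣ orderOf x then 0 else θ x * conj (θ' x) := by
  unfold mreg classInner pReg
  congr 1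
  apply Finset.sum_congr rfl
  intro x _
  split_ifs
  · rw [zero_mul]
  · rfl

theorem mreg_conj [Fintype G] (p : ℕ) (θ θ' : G → ℂ) :
    mreg p θ' θ = conj (mreg p θ θ') := by
  rw [mreg_eq, mreg_eq, map_mul, map_inv₀, Complex.conj_natCast, map_sum]
  congr 1
  apply Finset.sum_congr rfl
  intro x _
  split_ifs
  · rw [map_zero]
  · rw [map_mul, Complex.conj_conj, mul_comm]

theorem mreg_int [Fintype G] (p : ℕ) [hp : Fact p.Prime] (θ θ' : IrrCharacter G) :
    ∃ n : ℤ, ((p ^ (Nat.card G).factorization p : ℕ) : ℂ) * mreg p θ.1 θ'.1 = n := by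
  classical
  obtain ⟨α, β, hα, hβ, heq⟩ := genChar_pRegular_mul p (isCharacter_irr θ)
  obtain ⟨n₁, hn₁⟩ := isCharacter_inner_irr_nat hα θ'
  obtain ⟨n₂, hn₂⟩ := isCharacter_inner_irr_nat hβ θ'
  refine ⟨(n₁ : ℤ) - n₂, ?_⟩
  have h1 : classInner (fun x : G => if p ∣ orderOf x then 0
      else ((p ^ (Nat.card G).factorization p : ℕ) : ℂ) * θ.1 x) θ'.1 = (n₁ : ℂ) - n₂ := by
    rw [heq, classInner_sub_left, hn₁, hn₂]
  have h2 : classInner (fun x : G => if p ∣ orderOf x then 0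
      else ((p ^ (Nat.card G).factorization p : ℕ) : ℂ) * θ.1 x) θ'.1
      = ((p ^ (Nat.card G).factorization p : ℕ) : ℂ) * mreg p θ.1 θ'.1 := by
    rw [mreg_eq]
    unfold classInner
    rw [mul_left_comm]
    congr 1
    rw [Finset.mul_sum]
    apply Finset.sum_congr rfl
    intro x _
    show (if p ∣ orderOf x then (0 : ℂ)
      else ((p ^ (Nat.card G).factorization p : ℕ) : ℂ) * θ.1 x) * conj (θ'.1 x) = _
    split_ifs
    · rw [zero_mul, mul_zero]
    · ring
  rw [← h2, h1]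
  push_cast
  ring

theorem mreg_scaled_eq [Fintype G] (p : ℕ) (θ θ' : IrrCharacter G) :
    (Nat.card G : ℂ) / θ.1 1 * mreg p θ.1 θ'.1
      = ∑ x : G, (if p ∣ orderOf x then 0 else centralChar θ.1 x * conj (θ'.1 x))
          / ((Subgroup.centralizer ({x} : Set G)).index : ℂ) := by
  have hG : (Nat.card G : ℂ) ≠ 0 := by exact_mod_cast (Nat.card_pos (α := G)).ne'
  have h1 : θ.1 1 ≠ 0 := irr_one_ne_zero θ
  rw [mreg_eq, Finset.mul_sum, Finset.mul_sum]
  apply Finset.sum_congr rfl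
  intro x _
  have hne : ((Subgroup.centralizer ({x} : Set G)).index : ℂ) ≠ 0 := by
    exact_mod_cast (Subgroup.index_ne_zero_of_finite (H := Subgroup.centralizer ({x} : Set G)))
  split_ifs
  · rw [mul_zero, mul_zero, zero_div]
  · unfold centralChar
    field_simp

theorem mreg_scaled_class [Fintype G] (p : ℕ) (θ θ' : IrrCharacter G) :
    IsClassFunction G (fun x : G => if p ∣ orderOf x then 0
      else centralChar θ.1 x * conj (θ'.1 x)) := by
  intro g h
  have ho : orderOf (h * g * h⁻¹) = orderOf g :=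
    orderOf_injective (MulAut.conj h).toMonoidHom (MulAut.conj h).injective g
  show (if p ∣ orderOf (h * g * h⁻¹) then (0 : ℂ)
    else centralChar θ.1 (h * g * h⁻¹) * conj (θ'.1 (h * g * h⁻¹))) = _
  rw [ho, centralChar_conj, isClassFunction_irr θ' g h]

theorem isIntegral_conj_irr [Finite G] (θ : IrrCharacter G) (x : G) :
    IsIntegral ℤ (conj (θ.1 x)) := by
  have h := isCharacter_isIntegral (isCharacter_conj (isCharacter_irr θ)) x
  exact h

theorem mreg_scaled_isIntegral [Fintype G] (p : ℕ) (θ θ' : IrrCharacter G) :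
    IsIntegral ℤ ((Nat.card G : ℂ) / θ.1 1 * mreg p θ.1 θ'.1) := by
  rw [mreg_scaled_eq]
  have h := sum_div_index_mem (integralClosure ℤ ℂ).toSubsemiring.toAddSubmonoid _
    (mreg_scaled_class p θ θ') (fun x => by
      show IsIntegral ℤ _
      split_ifs
      · exact isIntegral_zero
      · exact (centralChar_isIntegral θ.2 x).mul (isIntegral_conj_irr θ' x))
  exact h

theorem mreg_scaled_int [Fintype G] (p : ℕ) [hp : Fact p.Prime] (θ θ' : IrrCharacter G) :
    ∃ z : ℤ, (Nat.card G : ℂ) / θ.1 1 * mreg p θ.1 θ'.1 = z := by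
  obtain ⟨n, hn⟩ := mreg_int p θ θ'
  have hint := mreg_scaled_isIntegral p θ θ'
  have hd := charDegree_cast θ
  have hd0 : (charDegree θ.1 : ℂ) ≠ 0 := by
    rw [hd]
    exact irr_one_ne_zero θ
  have hpa : ((p ^ (Nat.card G).factorization p : ℕ) : ℂ) ≠ 0 := by
    exact_mod_cast (pow_pos hp.out.pos _).ne'
  have hm : mreg p θ.1 θ'.1 = (n : ℂ) / ((p ^ (Nat.card G).factorization p : ℕ) : ℂ) := by
    rw [← hn]
    field_simp
  have hval : (Nat.card G : ℂ) / θ.1 1 * mreg p θ.1 θ'.1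
      = (((Nat.card G : ℚ) / (charDegree θ.1 : ℚ) * ((n : ℚ)
          / ((p ^ (Nat.card G).factorization p : ℕ) : ℚ)) : ℚ) : ℂ) := by
    rw [hm, ← hd]
    push_cast
    ring
  rw [hval] at hint ⊢
  obtain ⟨z, hz⟩ := rat_of_isIntegral_complex hint
  refine ⟨z, ?_⟩
  rw [← hz]
  push_cast
  rfl

theorem mreg_block_congr [Fintype G] {p : ℕ} {M : Ideal AlgInt}
    (hM : IsPModular p M) (θ₁ θ₂ θ' : IrrCharacter G)
    (hsame : ∀ g : G, MemLocalIdeal M (centralChar θ₁.1 g - centralChar θ₂.1 g))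
    (z₁ z₂ : ℤ) (h1 : (Nat.card G : ℂ) / θ₁.1 1 * mreg p θ₁.1 θ'.1 = z₁)
    (h2 : (Nat.card G : ℂ) / θ₂.1 1 * mreg p θ₂.1 θ'.1 = z₂) : (p : ℤ) ∣ z₁ - z₂ := by
  have hMp := isPModular_isPrime hM
  let S : AddSubmonoid ℂ :=
    { carrier := {z | MemLocalIdeal M z}
      add_mem' := fun ha hb => memLocalIdeal_add hMp ha hb
      zero_mem' := memLocalIdeal_zero hMp.ne_top }
  have hcl : IsClassFunction G (pReg p (fun x : G =>
      (centralChar θ₁.1 x - centralChar θ₂.1 x) * conj (θ'.1 x))) := by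
    apply pReg_isClassFunction
    intro g h
    show (centralChar θ₁.1 (h * g * h⁻¹) - centralChar θ₂.1 (h * g * h⁻¹))
      * conj (θ'.1 (h * g * h⁻¹)) = _
    rw [centralChar_conj, centralChar_conj, isClassFunction_irr θ' g h]
  have hmem : MemLocalIdeal M ((z₁ : ℂ) - z₂) := by
    rw [← h1, ← h2, mreg_scaled_eq, mreg_scaled_eq, ← Finset.sum_sub_distrib]
    have h3 : ∀ x : G, (if p ∣ orderOf x then 0 else centralChar θ₁.1 x * conj (θ'.1 x))
          / ((Subgroup.centralizer ({x} : Set G)).index : ℂ)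
        - (if p ∣ orderOf x then 0 else centralChar θ₂.1 x * conj (θ'.1 x))
          / ((Subgroup.centralizer ({x} : Set G)).index : ℂ)
        = pReg p (fun x : G => (centralChar θ₁.1 x - centralChar θ₂.1 x) * conj (θ'.1 x)) x
          / ((Subgroup.centralizer ({x} : Set G)).index : ℂ) := by
      intro x
      unfold pReg
      split_ifs
      · ring
      · ring
    rw [Finset.sum_congr rfl (fun x _ => h3 x)]
    apply sum_div_index_mem S _ hcl
    intro x
    show MemLocalIdeal M _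
    unfold pReg
    split_ifs
    · exact memLocalIdeal_zero hMp.ne_top
    · exact memLocalIdeal_mul_right hMp (hsame x)
        (memLocalRing_of_isIntegral hMp.ne_top (isIntegral_conj_irr θ' x))
  have h4 : MemLocalIdeal M ((((z₁ - z₂ : ℤ)) : AlgInt) : ℂ) := by
    have e : ((((z₁ - z₂ : ℤ)) : AlgInt) : ℂ) = (z₁ : ℂ) - z₂ := by
      push_cast
      rfl
    rw [e]
    exact hmem
  exact (intCast_mem_iff hM (z₁ - z₂)).mp ((memLocalIdeal_algInt_iff hMp _).mp h4)

theorem pReg_expansion [Fintype G] [Fintype (IrrCharacter G)] (p : ℕ) (θ : IrrCharacter G)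
    (x : G) : pReg p θ.1 x = ∑ θ' : IrrCharacter G, mreg p θ.1 θ'.1 * θ'.1 x :=
  classFunction_expansion_apply (pReg_isClassFunction p (isClassFunction_irr θ)) x

theorem mreg_parseval [Fintype G] [Fintype (IrrCharacter G)] (p : ℕ) (θ : IrrCharacter G) :
    ∑ θ' : IrrCharacter G, mreg p θ.1 θ'.1 * conj (mreg p θ.1 θ'.1) = mreg p θ.1 θ.1 := by
  have h1 : mreg p θ.1 θ.1 = classInner (pReg p θ.1) (pReg p θ.1) := by
    unfold mreg classInner
    congr 1
    apply Finset.sum_congr rfl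
    intro x _
    unfold pReg
    split_ifs
    · rw [zero_mul, zero_mul]
    · rfl
  have h2 : pReg p θ.1 = ∑ θ' : IrrCharacter G, mreg p θ.1 θ'.1 • θ'.1 :=
    classFunction_expansion (pReg_isClassFunction p (isClassFunction_irr θ))
  have h3 : classInner (pReg p θ.1) (pReg p θ.1)
      = classInner (pReg p θ.1) (∑ θ' : IrrCharacter G, mreg p θ.1 θ'.1 • θ'.1) := by
    rw [← h2]
  rw [h1, h3, classInner_sum_right]
  apply Finset.sum_congr rfl
  intro θ' _
  rw [classInner_smul_right, mul_comm]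
  rfl

theorem card_dvd_degree_of_vanish [Finite G] (χ : IrrCharacter G) (H : Subgroup G)
    (hH : ∀ h ∈ H, h ≠ 1 → χ.1 h = 0) : Nat.card H ∣ charDegree χ.1 := by
  classical
  have := Fintype.ofFinite G
  have := Fintype.ofFinite H
  obtain ⟨k, hk⟩ := isCharacter_inner_irr_nat (isCharacter_restrict H (isCharacter_irr χ))
    (trivIrr H)
  have hsum : ∑ h : H, χ.1 h * conj ((trivIrr H).1 h) = χ.1 1 := by
    rw [Finset.sum_eq_single (1 : H)]
    · rw [trivIrr_apply, map_one, mul_one]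
      rfl
    · intro h _ hh1
      have h0 : χ.1 (h : G) = 0 := hH h h.2 (fun h1 => hh1 (Subtype.ext h1))
      rw [h0, zero_mul]
    · intro h
      exact absurd (Finset.mem_univ _) h
  unfold classInner at hk
  rw [hsum] at hk
  have hHpos : (Nat.card H : ℂ) ≠ 0 := by exact_mod_cast (Nat.card_pos (α := H)).ne'
  have h1 : χ.1 1 = (k : ℂ) * (Nat.card H : ℂ) := by
    rw [← hk]
    field_simp
  refine ⟨k, ?_⟩
  have h2 : ((charDegree χ.1 : ℕ) : ℂ) = ((Nat.card H * k : ℕ) : ℂ) := by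
    rw [charDegree_cast χ, h1]
    push_cast
    ring
  exact_mod_cast h2

theorem pow_dvd_degree_of_vanish [Finite G] (p : ℕ) [hp : Fact p.Prime] (χ : IrrCharacter G)
    (h : ∀ x : G, p ∣ orderOf x → χ.1 x = 0) :
    p ^ (Nat.card G).factorization p ∣ charDegree χ.1 := by
  have h1 := card_dvd_degree_of_vanish χ ((default : Sylow p G) : Subgroup G) (fun x hx hx1 => by
    apply h x
    obtain ⟨k, hk⟩ := (default : Sylow p G).isPGroup' ⟨x, hx⟩
    have hk' : x ^ p ^ k = 1 := congrArg Subtype.val hk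
    have h2 : orderOf x ∣ p ^ k := orderOf_dvd_of_pow_eq_one hk'
    obtain ⟨j, -, hj⟩ := (Nat.dvd_prime_pow hp.out).mp h2
    have hj0 : j ≠ 0 := by
      rintro rfl
      rw [pow_zero] at hj
      exact hx1 (orderOf_eq_one_iff.mp hj)
    rw [hj]
    exact dvd_pow_self p hj0)
  rwa [Sylow.card_eq_multiplicity] at h1

theorem block_degree_pow [Finite G] (p : ℕ) [hp : Fact p.Prime] (M : Ideal AlgInt)
    (hM : IsPModular p M) (χ ψ : IrrCharacter G)
    (hsame : ∀ g : G, MemLocalIdeal M (centralChar χ.1 g - centralChar ψ.1 g))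
    (hdiv : p ^ ((Nat.card G).factorization p - 1) ∣ charDegree χ.1) :
    p ^ ((Nat.card G).factorization p - 1) ∣ charDegree ψ.1 := by
  classical
  have := Fintype.ofFinite G
  have := Fintype.ofFinite (IrrCharacter G)
  by_contra hnot
  have hG0 : Nat.card G ≠ 0 := Nat.card_pos.ne'
  obtain ⟨Dχ, hDχ⟩ := charDegree_dvd_card χ
  obtain ⟨Dψ, hDψ⟩ := charDegree_dvd_card ψ
  have hdχ0 : charDegree χ.1 ≠ 0 := (charDegree_pos χ).ne'
  have hdψ0 : charDegree ψ.1 ≠ 0 := (charDegree_pos ψ).ne'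
  have hDχ0 : Dχ ≠ 0 := by
    rintro rfl
    rw [mul_zero] at hDχ
    exact hG0 hDχ
  have hDψ0 : Dψ ≠ 0 := by
    rintro rfl
    rw [mul_zero] at hDψ
    exact hG0 hDψ
  have hvχ : (Nat.card G).factorization p
      = (charDegree χ.1).factorization p + Dχ.factorization p := by
    conv_lhs => rw [hDχ]
    rw [Nat.factorization_mul hdχ0 hDχ0]
    rfl
  have hvψ : (Nat.card G).factorization p
      = (charDegree ψ.1).factorization p + Dψ.factorization p := by
    conv_lhs => rw [hDψ]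
    rw [Nat.factorization_mul hdψ0 hDψ0]
    rfl
  have h1χ : (Nat.card G).factorization p - 1 ≤ (charDegree χ.1).factorization p :=
    (hp.out.pow_dvd_iff_le_factorization hdχ0).mp hdiv
  have h1ψ : (charDegree ψ.1).factorization p < (Nat.card G).factorization p - 1 := by
    by_contra hge
    push Not at hge
    exact hnot ((hp.out.pow_dvd_iff_le_factorization hdψ0).mpr hge)
  have hDχle : Dχ.factorization p ≤ 1 := by omega
  have hDψge : 2 ≤ Dψ.factorization p := by omega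
  have hp2Dψ : p ^ 2 ∣ Dψ := (hp.out.pow_dvd_iff_le_factorization hDψ0).mpr hDψge
  have hnp2Dχ : ¬ p ^ 2 ∣ Dχ := by
    intro h
    have h2 := (hp.out.pow_dvd_iff_le_factorization hDχ0).mp h
    omega
  have hp0 : (p : ℂ) ≠ 0 := by exact_mod_cast hp.out.ne_zero
  have hppos : (0 : ℤ) < p := by exact_mod_cast hp.out.pos
  have hcχ : (Nat.card G : ℂ) / χ.1 1 = (Dχ : ℂ) := by
    have h1 : (charDegree χ.1 : ℂ) ≠ 0 := by exact_mod_cast hdχ0
    rw [← charDegree_cast χ, hDχ]
    push_cast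
    field_simp
  have hcψ : (Nat.card G : ℂ) / ψ.1 1 = (Dψ : ℂ) := by
    have h1 : (charDegree ψ.1 : ℂ) ≠ 0 := by exact_mod_cast hdψ0
    rw [← charDegree_cast ψ, hDψ]
    push_cast
    field_simp
  have hA : ∀ θ' : IrrCharacter G, ∃ A : ℤ, (p : ℂ) * mreg p χ.1 θ'.1 = A := by
    intro θ'
    obtain ⟨n, hn⟩ := mreg_int p χ θ'
    obtain ⟨z, hz⟩ := mreg_scaled_int p χ θ'
    rw [hcχ] at hz
    have hg : Nat.gcd Dχ (p ^ (Nat.card G).factorization p) ∣ p := by
      obtain ⟨j, -, hj⟩ := (Nat.dvd_prime_pow hp.out).mp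
        (Nat.gcd_dvd_right Dχ (p ^ (Nat.card G).factorization p))
      rw [hj]
      have hj1 : j ≤ 1 := by
        have h3 : p ^ j ∣ Dχ := hj ▸ Nat.gcd_dvd_left Dχ (p ^ (Nat.card G).factorization p)
        have h4 := (hp.out.pow_dvd_iff_le_factorization hDχ0).mp h3
        omega
      have h5 := pow_dvd_pow p hj1
      rwa [pow_one] at h5
    obtain ⟨t, ht⟩ := hg
    have hbez := Nat.gcd_eq_gcd_ab Dχ (p ^ (Nat.card G).factorization p)
    refine ⟨(t : ℤ) * (z * Nat.gcdA Dχ (p ^ (Nat.card G).factorization p)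
      + n * Nat.gcdB Dχ (p ^ (Nat.card G).factorization p)), ?_⟩
    have h4 : ((Nat.gcd Dχ (p ^ (Nat.card G).factorization p) : ℕ) : ℂ)
        = (Dχ : ℂ) * (Nat.gcdA Dχ (p ^ (Nat.card G).factorization p) : ℂ)
          + ((p ^ (Nat.card G).factorization p : ℕ) : ℂ)
            * (Nat.gcdB Dχ (p ^ (Nat.card G).factorization p) : ℂ) := by
      have h5 := congrArg (fun v : ℤ => (v : ℂ)) hbez
      push_cast at h5 ⊢
      exact h5
    have h5 : (p : ℂ) = ((Nat.gcd Dχ (p ^ (Nat.card G).factorization p) : ℕ) : ℂ) * (t : ℂ) := by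
      have h6 := congrArg (fun v : ℕ => (v : ℂ)) ht
      push_cast at h6 ⊢
      exact h6
    rw [h5, h4]
    have hn' := hn
    push_cast at hn' ⊢
    linear_combination (t : ℂ) * (Nat.gcdA Dχ (p ^ (Nat.card G).factorization p) : ℂ) * hz
      + (t : ℂ) * (Nat.gcdB Dχ (p ^ (Nat.card G).factorization p) : ℂ) * hn'
  choose A hA using hA
  have hmA : ∀ θ' : IrrCharacter G, mreg p χ.1 θ'.1 = (A θ' : ℂ) / p := by
    intro θ'
    rw [← hA θ']
    field_simp
  have hreal : ∀ θ' : IrrCharacter G, conj (mreg p χ.1 θ'.1) = mreg p χ.1 θ'.1 := by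
    intro θ'
    rw [hmA θ', map_div₀, map_intCast, map_natCast]
  have hpars : ∑ θ' : IrrCharacter G, A θ' ^ 2 = (p : ℤ) * A χ := by
    have h := mreg_parseval p χ
    have h6 : ∑ θ' : IrrCharacter G, ((A θ' : ℂ)) ^ 2 = (p : ℂ) * (A χ : ℂ) := by
      have h7 : ∀ θ' : IrrCharacter G, (A θ' : ℂ) ^ 2
          = (p : ℂ) ^ 2 * (mreg p χ.1 θ'.1 * conj (mreg p χ.1 θ'.1)) := by
        intro θ'
        rw [hreal θ', ← hA θ']
        ring
      rw [Finset.sum_congr rfl (fun θ' _ => h7 θ'), ← Finset.mul_sum, h, ← hA χ]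
      ring
    exact_mod_cast h6
  have hsplit : A χ ^ 2 + ∑ θ' ∈ Finset.univ.erase χ, A θ' ^ 2 = (p : ℤ) * A χ := by
    rw [← hpars]
    exact Finset.add_sum_erase Finset.univ (fun θ' => A θ' ^ 2) (Finset.mem_univ χ)
  have hnonneg : 0 ≤ ∑ θ' ∈ Finset.univ.erase χ, A θ' ^ 2 :=
    Finset.sum_nonneg (fun _ _ => sq_nonneg _)
  have hA0 : 0 ≤ A χ := by
    by_contra h
    push Not at h
    nlinarith [mul_pos (neg_pos.mpr h) hppos, sq_nonneg (A χ)]
  have hAp : A χ ≤ p := by
    by_contra h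
    push Not at h
    nlinarith [mul_pos (lt_trans hppos h) (sub_pos.mpr h)]
  have hAne : A χ ≠ 0 := by
    intro h0
    rw [h0] at hsplit
    have hs : ∑ θ' ∈ Finset.univ.erase χ, A θ' ^ 2 = 0 := by linarith
    have hall : ∀ θ' : IrrCharacter G, mreg p χ.1 θ'.1 = 0 := by
      intro θ'
      rw [hmA θ']
      by_cases hθ' : θ' = χ
      · rw [hθ', h0]
        simp
      · have h8 := (Finset.sum_eq_zero_iff_of_nonneg (fun _ _ => sq_nonneg _)).mp hs θ'
          (Finset.mem_erase.mpr ⟨hθ', Finset.mem_univ _⟩)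
        rw [pow_eq_zero_iff two_ne_zero] at h8
        rw [h8]
        simp
    have hexp := pReg_expansion p χ 1
    have hl : pReg p χ.1 1 = χ.1 1 := by
      unfold pReg
      rw [if_neg]
      rw [orderOf_one]
      exact hp.out.one_lt.ne' ∘ Nat.dvd_one.mp
    rw [hl, Finset.sum_eq_zero (fun θ' _ => by rw [hall θ', zero_mul])] at hexp
    exact irr_one_ne_zero χ hexp
  obtain ⟨zχχ, hzχχ⟩ := mreg_scaled_int p χ χ
  obtain ⟨zψχ, hzψχ⟩ := mreg_scaled_int p ψ χ
  have hcong := mreg_block_congr hM χ ψ χ hsame zχχ zψχ hzχχ hzψχ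
  rw [hcχ] at hzχχ
  rw [hcψ] at hzψχ
  have h8 : (p : ℤ) * zχχ = Dχ * A χ := by
    have h9 : (p : ℂ) * zχχ = Dχ * A χ := by
      rw [← hzχχ, ← hA χ]
      ring
    exact_mod_cast h9
  have hmψχ : mreg p ψ.1 χ.1 = mreg p χ.1 ψ.1 := by
    rw [mreg_conj p χ.1 ψ.1, hreal ψ]
  have h9 : (p : ℤ) * zψχ = Dψ * A ψ := by
    have h10 : (p : ℂ) * zψχ = Dψ * A ψ := by
      rw [← hzψχ, hmψχ, ← hA ψ]
      ring
    exact_mod_cast h10
  have hpz : (p : ℤ) ∣ zψχ := by
    obtain ⟨w, hw⟩ := hp2Dψ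
    have h10 : (p : ℤ) * zψχ = (p : ℤ) * ((p : ℤ) * w * A ψ) := by
      rw [h9, hw]
      push_cast
      ring
    have hz := mul_left_cancel₀ hppos.ne' h10
    exact ⟨w * A ψ, by rw [hz]; ring⟩
  have hpzχ : (p : ℤ) ∣ zχχ := by
    have h10 := dvd_add hcong hpz
    rwa [sub_add_cancel] at h10
  have hp2 : (p : ℤ) ^ 2 ∣ (Dχ : ℤ) * A χ := by
    rw [← h8, sq]
    exact mul_dvd_mul_left _ hpzχ
  have hprime : Prime (p : ℤ) := Nat.prime_iff_prime_int.mp hp.out
  have hpA : (p : ℤ) ∣ A χ := by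
    by_contra hndvd
    have hcop : IsCoprime ((p : ℤ) ^ 2) (A χ) :=
      (hprime.coprime_iff_not_dvd.mpr hndvd).pow_left
    have h10 : (p : ℤ) ^ 2 ∣ (Dχ : ℤ) := hcop.dvd_of_dvd_mul_right hp2
    apply hnp2Dχ
    exact_mod_cast h10
  have hAeq : A χ = p := by
    obtain ⟨k, hk⟩ := hpA
    have hk1 : k = 1 := by
      have hkpos : 0 < k := by
        by_contra hk0
        push Not at hk0
        have h10 : A χ ≤ 0 := by
          rw [hk]
          exact mul_nonpos_of_nonneg_of_nonpos hppos.le hk0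
        exact hAne (le_antisymm h10 hA0)
      have hkle : k ≤ 1 := by
        by_contra hk2
        push Not at hk2
        have h10 : (p : ℤ) * 2 ≤ p * k := mul_le_mul_of_nonneg_left (by omega) hppos.le
        rw [← hk] at h10
        linarith
      omega
    rw [hk, hk1, mul_one]
  have hzero : ∀ θ' : IrrCharacter G, θ' ≠ χ → A θ' = 0 := by
    have hs : ∑ θ' ∈ Finset.univ.erase χ, A θ' ^ 2 = 0 := by
      rw [hAeq] at hsplit
      nlinarith
    intro θ' hθ'
    have h10 := (Finset.sum_eq_zero_iff_of_nonneg (fun _ _ => sq_nonneg _)).mp hs θ'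
      (Finset.mem_erase.mpr ⟨hθ', Finset.mem_univ _⟩)
    rwa [pow_eq_zero_iff two_ne_zero] at h10
  have hvan : ∀ x : G, p ∣ orderOf x → χ.1 x = 0 := by
    intro x hx
    have hexp := pReg_expansion p χ x
    have hl : pReg p χ.1 x = 0 := by
      unfold pReg
      rw [if_pos hx]
    have hm1 : mreg p χ.1 χ.1 = 1 := by
      rw [hmA χ, hAeq]
      push_cast
      field_simp
    rw [hl, Finset.sum_eq_single χ, hm1, one_mul] at hexp
    · exact hexp.symm
    · intro θ' _ hθ'
      rw [hmA θ', hzero θ' hθ']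
      simp
    · intro h
      exact absurd (Finset.mem_univ _) h
  have hpa := pow_dvd_degree_of_vanish p χ hvan
  have hfull : (Nat.card G).factorization p ≤ (charDegree χ.1).factorization p :=
    (hp.out.pow_dvd_iff_le_factorization hdχ0).mp hpa
  rw [hAeq] at hp2
  have h11 : (p : ℤ) ∣ (Dχ : ℤ) := by
    have h10 : (p : ℤ) * p ∣ p * (Dχ : ℤ) := by
      rw [← sq, mul_comm (p : ℤ) (Dχ : ℤ)]
      exact hp2
    exact (mul_dvd_mul_iff_left hppos.ne').mp h10
  have hpD : p ∣ Dχ := by exact_mod_cast h11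
  have h12 := hp.out.factorization_pos_of_dvd hDχ0 hpD
  omega

end Cfsg.Agent.Lib.helper22
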