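import Cfsg.Agent.Lib.helper24.CharCodeg4
import Cfsg.Agent.Lib.helper24.Garrison1
import Cfsg.Agent.Lib.helper24.CharMGroup
import Cfsg.Agent.Lib.helper24.CharLin

set_option autoImplicit false

namespace Cfsg.Agent.Lib.helper22.Coh

open Cfsg
open Cfsg.Agent.Lib.helper24
open scoped ComplexConjugate

universe u

theorem deg_le_of_constituent {G : Type u} [Group G] [Fintype G] {F : G → ℂ}
    (hF : IsCharacter G F) (θ : IrrCharacter G) (h : classInner F θ.1 ≠ 0) :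
    ∃ m : ℕ, F 1 = m ∧ charDegree θ.1 ≤ m := by
  classical
  haveI := Fintype.ofFinite (IrrCharacter G)
  choose n hn using fun ψ : IrrCharacter G => isCharacter_inner_irr_nat hF ψ
  have h1 := classFunction_expansion_apply (isCharacter_conj_class hF) (1 : G)
  have h2 : F 1 = ((∑ ψ : IrrCharacter G, n ψ * charDegree ψ.1 : ℕ) : ℂ) := by
    rw [h1]
    push_cast
    exact Finset.sum_congr rfl (fun ψ _ => by rw [hn ψ, charDegree_cast])
  refine ⟨_, h2, ?_⟩
  have hθ : n θ ≠ 0 := by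
    intro h0
    apply h
    rw [hn θ, h0]
    simp
  calc charDegree θ.1 ≤ n θ * charDegree θ.1 :=
        Nat.le_mul_of_pos_left _ (Nat.pos_of_ne_zero hθ)
    _ ≤ ∑ ψ : IrrCharacter G, n ψ * charDegree ψ.1 :=
        Finset.single_le_sum (f := fun ψ : IrrCharacter G => n ψ * charDegree ψ.1)
          (fun _ _ => Nat.zero_le _) (Finset.mem_univ θ)

theorem deg_sq_bound {T : Type u} [Group T] [Fintype T] (θ : IrrCharacter T)
    (C D : Subgroup T) (hDC : D ≤ C)
    (hcomm : ∀ d ∈ D, ∀ c ∈ C, θ.1 (d * c * d⁻¹ * c⁻¹) = θ.1 1) :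
    (charDegree θ.1) ^ 2 * Nat.card D ≤ C.index ^ 2 * Nat.card C := by
  classical
  haveI : Fintype C := Fintype.ofFinite C
  have hres : IsCharacter C (fun c : C => θ.1 c) :=
    isCharacter_restrict C (isCharacter_of_isIrrCharacter θ.2)
  have hres1 : (fun c : C => θ.1 c) 1 ≠ 0 := irr_one_ne_zero θ
  obtain ⟨φ, hφ⟩ := exists_constituent hres hres1
  have hker : ∀ d c : C, (d : T) ∈ D → φ.1 (d * c * d⁻¹ * c⁻¹) = φ.1 1 := by
    intro d c hd
    apply constituent_ker_of_character hres φ hφ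
    show θ.1 ((d * c * d⁻¹ * c⁻¹ : C) : T) = θ.1 ((1 : C) : T)
    simp only [Subgroup.coe_mul, Subgroup.coe_inv, Subgroup.coe_one]
    exact hcomm d hd c c.2
  obtain ⟨ψ, hψ⟩ := exists_irrInfl_eq (irrKer φ) φ (fun n hn => (mem_irrKer φ n).1 hn)
  have hnorm : ∀ d : C, (d : T) ∈ D → ‖φ.1 d‖ = ‖φ.1 1‖ := by
    intro d hd
    rw [← hψ, irrInfl_apply, irrInfl_apply, QuotientGroup.mk_one]
    apply norm_irr_central ψ
    rw [Subgroup.mem_center_iff]
    intro g
    obtain ⟨c, rfl⟩ := QuotientGroup.mk_surjective g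
    rw [← QuotientGroup.mk_mul, ← QuotientGroup.mk_mul, QuotientGroup.eq, mem_irrKer]
    have h1 := hker d⁻¹ c⁻¹ (by rw [Subgroup.coe_inv]; exact D.inv_mem hd)
    have e1 : (c * d)⁻¹ * (d * c) = d⁻¹ * c⁻¹ * d⁻¹⁻¹ * c⁻¹⁻¹ := by group
    rw [e1]
    exact h1
  have hsum := sum_norm_sq_eq_card φ
  have h1 : ∑ t ∈ Finset.univ.filter (fun t : C => (t : T) ∈ D), ‖φ.1 t‖ ^ 2
      ≤ ∑ t : C, ‖φ.1 t‖ ^ 2 :=
    Finset.sum_le_sum_of_subset_of_nonneg (Finset.filter_subset _ _)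
      (fun _ _ _ => sq_nonneg _)
  have hcardD : (Finset.univ.filter (fun t : C => (t : T) ∈ D)).card = Nat.card D := by
    rw [← Fintype.card_subtype, ← Nat.card_eq_fintype_card]
    exact Nat.card_congr (Subgroup.subgroupOfEquivOfLe hDC).toEquiv
  have h2 : ∑ t ∈ Finset.univ.filter (fun t : C => (t : T) ∈ D), ‖φ.1 t‖ ^ 2
      = (Nat.card D : ℝ) * ‖φ.1 1‖ ^ 2 := by
    rw [Finset.sum_congr rfl (fun t ht => by
      rw [hnorm t (Finset.mem_filter.mp ht).2]), Finset.sum_const, nsmul_eq_mul, hcardD]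
  have hφnorm : ‖φ.1 1‖ = (charDegree φ.1 : ℝ) := by
    rw [← charDegree_cast φ]
    simp
  have h3 : (Nat.card D : ℝ) * (charDegree φ.1 : ℝ) ^ 2 ≤ (Nat.card C : ℝ) := by
    rw [← hφnorm, ← h2, ← hsum]
    exact h1
  have hind : IsCharacter T (indFun C φ.1) :=
    isCharacter_indFun C (isCharacter_of_isIrrCharacter φ.2)
  have hne : classInner (indFun C φ.1) θ.1 ≠ 0 := by
    rw [frobenius_reciprocity C φ.1 (isClassFunction_irr θ), classInner_conj_symm]
    intro h0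
    apply hφ
    have := congrArg (starRingEnd ℂ) h0
    rwa [Complex.conj_conj, map_zero] at this
  obtain ⟨m, hm, hle⟩ := deg_le_of_constituent hind θ hne
  rw [indFun_one, ← charDegree_cast φ] at hm
  have hm' : m = C.index * charDegree φ.1 := by
    have : ((C.index * charDegree φ.1 : ℕ) : ℂ) = (m : ℂ) := by
      push_cast; exact hm
    exact (Nat.cast_injective this).symm
  rw [hm'] at hle
  have h4 : ((charDegree θ.1) ^ 2 * Nat.card D : ℝ) ≤ (C.index ^ 2 * Nat.card C : ℝ) := by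
    have hle' : (charDegree θ.1 : ℝ) ≤ (C.index : ℝ) * (charDegree φ.1 : ℝ) := by
      exact_mod_cast hle
    have h5 : (charDegree θ.1 : ℝ) ^ 2 ≤ ((C.index : ℝ) * (charDegree φ.1 : ℝ)) ^ 2 :=
      pow_le_pow_left₀ (Nat.cast_nonneg _) hle' 2
    calc ((charDegree θ.1 : ℝ)) ^ 2 * (Nat.card D : ℝ)
        ≤ ((C.index : ℝ) * (charDegree φ.1 : ℝ)) ^ 2 * (Nat.card D : ℝ) :=
          mul_le_mul_of_nonneg_right h5 (Nat.cast_nonneg _)
      _ = (C.index : ℝ) ^ 2 * ((Nat.card D : ℝ) * (charDegree φ.1 : ℝ) ^ 2) := by ring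
      _ ≤ (C.index : ℝ) ^ 2 * (Nat.card C : ℝ) :=
          mul_le_mul_of_nonneg_left h3 (sq_nonneg _)
  exact_mod_cast h4

end Cfsg.Agent.Lib.helper22.Coh
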