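import Cfsg.Agent.Lib.helper22.CohA
import Cfsg.Prelude.Def_OddOrderChar

set_option autoImplicit false

namespace Cfsg.Agent.Lib.helper22.Coh

open Cfsg
open Cfsg.Agent.Lib.helper24
open scoped ComplexConjugate

universe u v

theorem inner_ind_triv {L : Type u} [Group L] [Fintype L] (K : Subgroup L) [hK : K.Normal]
    [Fintype K] (θ : IrrCharacter K) (hθ : θ.1 ≠ fun _ => 1) :
    classInner (indFun K (fun _ : K => (1 : ℂ))) (indFun K θ.1) = 0 := by
  classical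
  rw [classInner_indFun_normal, Finset.sum_eq_zero, mul_zero]
  intro g _
  rw [classInner_irr_fun isIrrCharacter_trivial
    (Cfsg.Agent.Lib.helper24.conjFun_isIrr K θ.2 g), if_neg]
  intro heq
  apply hθ
  funext k
  have hmem : g⁻¹ * (k : L) * g ∈ K := by
    have := hK.conj_mem k k.2 g⁻¹
    rwa [inv_inv] at this
  have h1 := congrFun heq ⟨g⁻¹ * (k : L) * g, hmem⟩
  rw [Cfsg.Agent.Lib.helper24.conjFun_apply] at h1
  have h2 : (1 : ℂ) = θ.1 ⟨g * (g⁻¹ * (k : L) * g) * g⁻¹, hK.conj_mem _ hmem g⟩ := h1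
  rw [h2]
  refine congrArg θ.1 (Subtype.ext ?_)
  show (k : L) = g * (g⁻¹ * (k : L) * g) * g⁻¹
  group

theorem fiber_mul_norm {L : Type u} [Group L] [Fintype L] (K : Subgroup L) [hK : K.Normal]
    [Fintype K] [Fintype (IrrCharacter K)]
    (horth : ∀ θ θ' : IrrCharacter K, θ.1 ≠ (fun _ => 1) → θ'.1 ≠ (fun _ => 1) →
      indFun K θ.1 ≠ indFun K θ'.1 → classInner (indFun K θ.1) (indFun K θ'.1) = 0)
    (θ : IrrCharacter K) (hθ : θ.1 ≠ fun _ => 1) (n : ℕ)
    (hn : classInner (indFun K θ.1) (indFun K θ.1) = n)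
    [DecidablePred (fun θ' : IrrCharacter K =>
      θ'.1 ≠ (fun _ => 1) ∧ indFun K θ'.1 = indFun K θ.1)] :
    (Finset.univ.filter (fun θ' : IrrCharacter K =>
      θ'.1 ≠ (fun _ => 1) ∧ indFun K θ'.1 = indFun K θ.1)).card * n = K.index := by
  obtain ⟨φ, hφdef⟩ : ∃ φ, φ = indFun K θ.1 := ⟨_, rfl⟩
  have hφcl : IsClassFunction L φ := by rw [hφdef]; exact indFun_isClassFunction K θ.1
  have hres : IsClassFunction K (fun k : K => φ k) := by
    intro k h
    show φ ((h * k * h⁻¹ : K) : L) = φ k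
    simp only [Subgroup.coe_mul, Subgroup.coe_inv]
    exact hφcl k h
  have h1 := classFunction_expansion_apply hres (1 : K)
  have hcoef : ∀ θ' : IrrCharacter K, classInner (fun k : K => φ k) θ'.1 =
      if (θ'.1 ≠ (fun _ => 1) ∧ indFun K θ'.1 = indFun K θ.1) then (n : ℂ) else 0 := by
    intro θ'
    rw [classInner_conj_symm, ← frobenius_reciprocity K θ'.1 hφcl]
    split_ifs with hc
    · rw [hc.2, hφdef, hn, Complex.conj_natCast]
    · by_cases ht : θ'.1 = fun _ => 1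
      · rw [ht, hφdef, inner_ind_triv K θ hθ, map_zero]
      · have hne : indFun K θ'.1 ≠ indFun K θ.1 := fun he => hc ⟨ht, he⟩
        rw [hφdef, horth θ' θ ht hθ hne, map_zero]
  have hidx : (K.index : ℂ) ≠ 0 := Nat.cast_ne_zero.2 Subgroup.index_ne_zero_of_finite
  have hφ1 : φ 1 = (K.index : ℂ) * θ.1 1 := by rw [hφdef, indFun_one]
  have h3 : ∀ θ' : IrrCharacter K, indFun K θ'.1 = indFun K θ.1 → θ'.1 1 = θ.1 1 := by
    intro θ' he
    have := congrFun he 1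
    rw [indFun_one, indFun_one] at this
    exact mul_left_cancel₀ hidx this
  have h2 : φ 1 = ((Finset.univ.filter (fun θ' : IrrCharacter K =>
      θ'.1 ≠ (fun _ => 1) ∧ indFun K θ'.1 = indFun K θ.1)).card : ℂ) * ((n : ℂ) * θ.1 1) := by
    have h4 : φ ((1 : K) : L) = ∑ χ : IrrCharacter K,
        classInner (fun k : K => φ k) χ.1 * χ.1 1 := h1
    rw [Subgroup.coe_one] at h4
    rw [h4, Finset.sum_congr rfl (fun θ' _ => by rw [hcoef θ', ite_mul, zero_mul]),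
      ← Finset.sum_filter, Finset.sum_congr rfl (fun θ' hθ' => by
        rw [h3 θ' (Finset.mem_filter.1 hθ').2.2]), Finset.sum_const, nsmul_eq_mul]
  rw [hφ1] at h2
  have h5 : ((Finset.univ.filter (fun θ' : IrrCharacter K =>
      θ'.1 ≠ (fun _ => 1) ∧ indFun K θ'.1 = indFun K θ.1)).card * n : ℂ) = (K.index : ℂ) := by
    have hθ1 : θ.1 1 ≠ 0 := irr_one_ne_zero θ
    apply mul_right_cancel₀ hθ1
    rw [h2]; ring
  exact_mod_cast h5

theorem subset_coherent {L : Type u} [Group L] [Fintype L] {G : Type v} [Group G] [Fintype G]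
    {S₁ S₂ : Set (L → ℂ)} {τ : (L → ℂ) → (G → ℂ)} (h : IsCoherent S₁ {1}ᶜ τ)
    (hsub : S₂ ⊆ S₁) (hne : ∃ α ∈ zspanOn S₂ {1}ᶜ, α ≠ 0) : IsCoherent S₂ {1}ᶜ τ := by
  obtain ⟨-, τ₁, hτ₁, hagree⟩ := h
  have hz : zspan S₂ ⊆ zspan S₁ := fun α hα => Submodule.span_mono hsub hα
  refine ⟨hne, τ₁, ⟨fun α hα β hβ => hτ₁.1 α (hz hα) β (hz hβ),
    fun α hα n => hτ₁.2.1 α (hz hα) n,
    fun α hα β hβ => hτ₁.2.2.1 α (hz hα) β (hz hβ), fun α hα => hτ₁.2.2.2 α (hz hα)⟩, ?_⟩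
  intro α hα
  exact hagree α ⟨hz hα.1, hα.2⟩

theorem exists_linear {K : Type u} [Group K] [Finite K] (hsolv : Group.IsSolvable K)
    (N : Subgroup K) [N.Normal] (hN : N ≠ ⊤) :
    ∃ lam : K →* ℂˣ, (∃ k, lam k ≠ 1) ∧ ∀ a ∈ N, lam a = 1 := by
  haveI : Nontrivial (K ⧸ N) := by
    rw [← Finite.one_lt_card_iff_nontrivial, ← Subgroup.index_eq_card]
    have h0 : N.index ≠ 0 := Subgroup.index_ne_zero_of_finite
    have h1 : N.index ≠ 1 := fun h => hN (Subgroup.index_eq_one.1 h)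
    omega
  have hlt := Group.IsSolvable.commutator_lt_top_of_nontrivial (G := K ⧸ N)
  obtain ⟨q, -, hq⟩ := SetLike.exists_of_lt hlt
  have hq1 : Abelianization.of q ≠ 1 := by
    intro h
    exact hq ((QuotientGroup.eq_one_iff q).1 h)
  haveI : Finite (Abelianization (K ⧸ N)) := by
    unfold Abelianization
    infer_instance
  haveI hne : NeZero (Monoid.exponent (Abelianization (K ⧸ N))) :=
    ⟨Monoid.exponent_ne_zero_of_finite⟩
  obtain ⟨φ, hφ⟩ := CommGroup.exists_apply_ne_one_of_hasEnoughRootsOfUnity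
    (Abelianization (K ⧸ N)) ℂ hq1
  refine ⟨(φ.comp Abelianization.of).comp (QuotientGroup.mk' N), ?_, ?_⟩
  · obtain ⟨k, rfl⟩ := QuotientGroup.mk_surjective q
    exact ⟨k, hφ⟩
  · intro a ha
    show φ (Abelianization.of (QuotientGroup.mk a)) = 1
    rw [(QuotientGroup.eq_one_iff a).2 ha, map_one, map_one]

end Cfsg.Agent.Lib.helper22.Coh
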