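import Cfsg.Agent.Lib.helper22.CohB
import Cfsg.Agent.S1516

set_option autoImplicit false

namespace Cfsg.Agent.Lib.helper22.Coh

open Cfsg
open Cfsg.Agent.Lib.helper24
open scoped ComplexConjugate

universe u v

section main

variable {L : Type u} [Group L] [Fintype L]

theorem mem_inducedIrrAbove (K N : Subgroup L) (φ : L → ℂ) :
    φ ∈ inducedIrrAbove K N ↔ ∃ θ : IrrCharacter K, θ.1 ≠ (fun _ => 1) ∧
      (∀ a : K, (a : L) ∈ N → θ.1 a = θ.1 1) ∧ φ = indFun K θ.1 := by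
  constructor
  · rintro ⟨θ, hθ, h1, h2, h3⟩
    exact ⟨⟨θ, hθ⟩, h1, h2, h3⟩
  · rintro ⟨θ, h1, h2, h3⟩
    exact ⟨θ.1, θ.2, h1, h2, h3⟩

theorem ind_mem_bot (K : Subgroup L) (θ : IrrCharacter K) (hθ : θ.1 ≠ fun _ => 1) :
    indFun K θ.1 ∈ inducedIrrAbove K ⊥ := by
  refine (mem_inducedIrrAbove K ⊥ _).2 ⟨θ, hθ, ?_, rfl⟩
  intro a ha
  rw [Subgroup.mem_bot] at ha
  have : a = 1 := Subtype.ext ha
  rw [this]

theorem inducedIrrAbove_sub_bot (K N : Subgroup L) :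
    inducedIrrAbove K N ⊆ inducedIrrAbove K ⊥ := by
  intro φ hφ
  obtain ⟨θ, h1, -, rfl⟩ := (mem_inducedIrrAbove K N φ).1 hφ
  exact ind_mem_bot K θ h1

theorem conj_mem_inducedIrrAbove (K N : Subgroup L) {φ : L → ℂ}
    (h : φ ∈ inducedIrrAbove K N) : Cfsg.conjFun φ ∈ inducedIrrAbove K N := by
  haveI : Fintype K := Fintype.ofFinite K
  obtain ⟨θ, h1, h2, rfl⟩ := (mem_inducedIrrAbove K N φ).1 h
  refine (mem_inducedIrrAbove K N _).2 ⟨irrConj θ, ?_, ?_, ?_⟩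
  · intro hc
    apply h1
    funext k
    have h3 : (starRingEnd ℂ) (θ.1 k) = 1 := congrFun hc k
    have := congrArg (starRingEnd ℂ) h3
    rwa [Complex.conj_conj, map_one] at this
  · intro a ha
    show (starRingEnd ℂ) (θ.1 a) = (starRingEnd ℂ) (θ.1 1)
    rw [h2 a ha]
  · exact indFun_conj K θ.1

theorem exists_linear_irr (K N : Subgroup L) [K.Normal] [N.Normal]
    (hsolv : Group.IsSolvable K) (hNK : N < K) :
    ∃ θ : IrrCharacter K, θ.1 ≠ (fun _ => 1) ∧ (∀ a : K, (a : L) ∈ N → θ.1 a = θ.1 1) ∧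
      charDegree θ.1 = 1 := by
  have hNne : N.subgroupOf K ≠ ⊤ := by
    intro h
    rw [Subgroup.subgroupOf_eq_top] at h
    exact (not_le_of_gt hNK) h
  obtain ⟨lam, ⟨k₀, hk₀⟩, hlamN⟩ := exists_linear hsolv (N.subgroupOf K) hNne
  refine ⟨⟨fun k => (lam k : ℂ), isIrrCharacter_of_hom lam⟩, ?_, ?_, ?_⟩
  · intro h
    have h1 : (lam k₀ : ℂ) = 1 := congrFun h k₀
    exact hk₀ (Units.ext h1)
  · intro a ha
    show (lam a : ℂ) = (lam 1 : ℂ)
    rw [hlamN a (Subgroup.mem_subgroupOf.2 ha), map_one]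
  · have h1 := charDegree_cast (⟨fun k => (lam k : ℂ), isIrrCharacter_of_hom lam⟩ :
      IrrCharacter K)
    have h2 : ((lam 1 : ℂˣ) : ℂ) = 1 := by rw [map_one]; rfl
    have h3 : (charDegree (fun k : K => (lam k : ℂ)) : ℂ) = 1 := by rw [← h2]; exact h1
    exact_mod_cast h3

end main

end Cfsg.Agent.Lib.helper22.Coh
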