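import Cfsg.Agent.Lib.helper22.CohC

set_option autoImplicit false

namespace Cfsg.Agent.Lib.helper22.Coh

open Cfsg
open Cfsg.Agent.Lib.helper24
open scoped ComplexConjugate

universe u v

section main

variable {L : Type u} [Group L] [Fintype L]

theorem deg_ind {G : Type v} [Group G] [Fintype G] (K : Subgroup L)
    (d : (L → ℂ) → ℕ) (hd : ∀ φ ∈ inducedIrrAbove K ⊥, φ 1 = (d φ : ℂ))
    (θ : IrrCharacter K) (hθ : θ.1 ≠ fun _ => 1) :
    d (indFun K θ.1) = K.index * charDegree θ.1 := by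
  have h1 := hd _ (ind_mem_bot K θ hθ)
  rw [indFun_one, ← charDegree_cast θ] at h1
  have h2 : ((K.index * charDegree θ.1 : ℕ) : ℂ) = (d (indFun K θ.1) : ℂ) := by
    push_cast; exact h1
  exact (Nat.cast_injective h2).symm

open Classical in
theorem sum_lower_bound {G : Type v} [Group G] [Fintype G] (K : Subgroup L) [hK : K.Normal]
    [Fintype K] [Fintype (IrrCharacter K)]
    (τ : (L → ℂ) → (G → ℂ)) (R : (L → ℂ) → Finset (G → ℂ))
    (hS : IsCoherenceSystem (inducedIrrAbove K ⊥) τ R) (d n : (L → ℂ) → ℕ)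
    (hd : ∀ φ ∈ inducedIrrAbove K ⊥, φ 1 = (d φ : ℂ))
    (hn : ∀ φ ∈ inducedIrrAbove K ⊥, classInner φ φ = (n φ : ℂ))
    (A : Subgroup L) [A.Normal] :
    (K.index : ℝ) * ((A.relIndex K : ℝ) - 1) ≤
      ∑ φ ∈ (Finset.univ.filter (fun θ : IrrCharacter K => θ.1 ≠ (fun _ => 1) ∧
        ∀ a : K, (a : L) ∈ A → θ.1 a = θ.1 1)).image (fun θ => indFun K θ.1),
        ((d φ : ℝ) ^ 2 / (n φ : ℝ)) := by
  obtain ⟨T, hTdef⟩ : ∃ T : Finset (IrrCharacter K), T = Finset.univ.filter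
      (fun θ : IrrCharacter K => θ.1 ≠ (fun _ => 1) ∧
        ∀ a : K, (a : L) ∈ A → θ.1 a = θ.1 1) := ⟨_, rfl⟩
  have hTmem : ∀ θ, θ ∈ T ↔ θ.1 ≠ (fun _ => 1) ∧ ∀ a : K, (a : L) ∈ A → θ.1 a = θ.1 1 := by
    intro θ
    rw [hTdef, Finset.mem_filter]
    exact ⟨fun h => h.2, fun h => ⟨Finset.mem_univ _, h⟩⟩
  rw [← hTdef]
  have hidx : K.index ≠ 0 := Subgroup.index_ne_zero_of_finite
  have hsumT : (∑ θ ∈ T, (charDegree θ.1 : ℝ) ^ 2) = (A.relIndex K : ℝ) - 1 := by
    have h_infl := sum_sq_charDegree_infl (A.subgroupOf K)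
    obtain ⟨triv, htriv⟩ : ∃ triv : IrrCharacter K,
        triv = ⟨fun _ => 1, isIrrCharacter_trivial⟩ := ⟨_, rfl⟩
    have hF : Finset.univ.filter (fun χ : IrrCharacter K => A.subgroupOf K ≤ irrKer χ)
        = insert triv T := by
      ext χ
      rw [Finset.mem_filter, Finset.mem_insert, hTmem]
      constructor
      · rintro ⟨-, hle⟩
        by_cases h1 : χ.1 = fun _ => 1
        · left; rw [htriv]; exact Subtype.ext h1
        · right
          exact ⟨h1, fun a ha => (mem_irrKer χ a).1 (hle (Subgroup.mem_subgroupOf.2 ha))⟩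
      · rintro (h | ⟨-, h⟩)
        · refine ⟨Finset.mem_univ _, fun a _ => ?_⟩
          rw [mem_irrKer, h, htriv]
        · refine ⟨Finset.mem_univ _, fun a ha => ?_⟩
          rw [mem_irrKer]
          exact h a (Subgroup.mem_subgroupOf.1 ha)
    have hnot : triv ∉ T := by
      rw [hTmem, htriv]
      intro h
      exact h.1 rfl
    rw [hF, Finset.sum_insert hnot] at h_infl
    have htd : charDegree triv.1 = 1 := by
      have h1 := charDegree_cast triv
      have h2 : triv.1 1 = 1 := by rw [htriv]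
      rw [h2] at h1
      exact_mod_cast h1
    have h' : A.relIndex K = 1 + ∑ θ ∈ T, charDegree θ.1 ^ 2 := by
      rw [Subgroup.relIndex, ← h_infl, htd, one_pow]
    have h'' : (A.relIndex K : ℝ) = 1 + ∑ θ ∈ T, (charDegree θ.1 : ℝ) ^ 2 := by
      rw [h']; push_cast; rfl
    linarith
  have horth : ∀ θ θ' : IrrCharacter K, θ.1 ≠ (fun _ => 1) → θ'.1 ≠ (fun _ => 1) →
      indFun K θ.1 ≠ indFun K θ'.1 → classInner (indFun K θ.1) (indFun K θ'.1) = 0 :=
    fun θ θ' h h' hne => hS.orthogonal _ (ind_mem_bot K θ h) _ (ind_mem_bot K θ' h') hne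
  have hterm : ∀ φ ∈ T.image (fun θ => indFun K θ.1),
      ∑ θ' ∈ T.filter (fun θ' => indFun K θ'.1 = φ),
        (K.index : ℝ) * (charDegree θ'.1 : ℝ) ^ 2 ≤ (d φ : ℝ) ^ 2 / (n φ : ℝ) := by
    intro φ hφ
    obtain ⟨θ, hθT, rfl⟩ := Finset.mem_image.1 hφ
    have hθ1 := ((hTmem θ).1 hθT).1
    have hnφ := hn _ (ind_mem_bot K θ hθ1)
    have hfib := fiber_mul_norm K horth θ hθ1 (n (indFun K θ.1)) hnφ
    have hcle : (T.filter (fun θ' => indFun K θ'.1 = indFun K θ.1)).card ≤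
        (Finset.univ.filter (fun θ' : IrrCharacter K =>
          θ'.1 ≠ (fun _ => 1) ∧ indFun K θ'.1 = indFun K θ.1)).card := by
      apply Finset.card_le_card
      intro θ' hθ'
      rw [Finset.mem_filter] at hθ' ⊢
      exact ⟨Finset.mem_univ _, ((hTmem θ').1 hθ'.1).1, hθ'.2⟩
    have hdegeq : ∀ θ' ∈ T.filter (fun θ' => indFun K θ'.1 = indFun K θ.1),
        charDegree θ'.1 = charDegree θ.1 := by
      intro θ' hθ'
      rw [Finset.mem_filter] at hθ'
      have h1 := deg_ind (G := G) K d hd θ' ((hTmem θ').1 hθ'.1).1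
      have h2 := deg_ind (G := G) K d hd θ hθ1
      rw [hθ'.2, h2] at h1
      exact (Nat.eq_of_mul_eq_mul_left (Nat.pos_of_ne_zero hidx) h1).symm
    rw [Finset.sum_congr rfl (fun θ' hθ' => by rw [hdegeq θ' hθ']), Finset.sum_const,
      nsmul_eq_mul, deg_ind (G := G) K d hd θ hθ1]
    have hn0 : (n (indFun K θ.1) : ℝ) ≠ 0 := by
      intro h0
      have h0' : n (indFun K θ.1) = 0 := by exact_mod_cast h0
      rw [h0', mul_zero] at hfib
      exact hidx hfib.symm
    have hK' : (K.index : ℝ) = ((Finset.univ.filter (fun θ' : IrrCharacter K =>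
          θ'.1 ≠ (fun _ => 1) ∧ indFun K θ'.1 = indFun K θ.1)).card : ℝ)
          * (n (indFun K θ.1) : ℝ) := by
      exact_mod_cast hfib.symm
    have e : (((K.index * charDegree θ.1 : ℕ) : ℝ)) ^ 2 / (n (indFun K θ.1) : ℝ)
        = ((Finset.univ.filter (fun θ' : IrrCharacter K =>
          θ'.1 ≠ (fun _ => 1) ∧ indFun K θ'.1 = indFun K θ.1)).card : ℝ)
          * ((K.index : ℝ) * (charDegree θ.1 : ℝ) ^ 2) := by
      push_cast
      rw [div_eq_iff hn0]
      conv_lhs => rw [hK']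
      conv_rhs => rw [hK']
      ring
    rw [e]
    apply mul_le_mul_of_nonneg_right
    · exact_mod_cast hcle
    · positivity
  calc (K.index : ℝ) * ((A.relIndex K : ℝ) - 1)
      = ∑ θ ∈ T, (K.index : ℝ) * (charDegree θ.1 : ℝ) ^ 2 := by
        rw [← hsumT, Finset.mul_sum]
    _ = ∑ φ ∈ T.image (fun θ => indFun K θ.1),
          ∑ θ' ∈ T.filter (fun θ' => indFun K θ'.1 = φ),
            (K.index : ℝ) * (charDegree θ'.1 : ℝ) ^ 2 :=
        (Finset.sum_fiberwise_of_maps_to (fun θ hθ => Finset.mem_image_of_mem _ hθ) _).symm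
    _ ≤ _ := Finset.sum_le_sum hterm

end main

end Cfsg.Agent.Lib.helper22.Coh
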