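import Cfsg.Agent.Lib.helper22.CohD

set_option autoImplicit false

namespace Cfsg.Agent.Lib.helper22.Coh

open Cfsg
open Cfsg.Agent.Lib.helper24
open scoped ComplexConjugate

universe u v

section main

variable {L : Type u} [Group L] [Fintype L]

theorem deg_bound_rel (K : Subgroup L) [Fintype K] (B C D : Subgroup L)
    (hDC : D ≤ C) (hCK : C ≤ K) (hcent : ∀ x ∈ D, ∀ y ∈ C, x * y * x⁻¹ * y⁻¹ ∈ B)
    (θ : IrrCharacter K) (hθB : ∀ a : K, (a : L) ∈ B → θ.1 a = θ.1 1) :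
    (charDegree θ.1) ^ 2 ≤ (C.relIndex K) ^ 2 * D.relIndex C := by
  have h1 := deg_sq_bound θ (C.subgroupOf K) (D.subgroupOf K)
    (fun x hx => Subgroup.mem_subgroupOf.2 (hDC (Subgroup.mem_subgroupOf.1 hx)))
    (by
      intro d hd c hc
      apply hθB
      simp only [Subgroup.coe_mul, Subgroup.coe_inv]
      exact hcent _ (Subgroup.mem_subgroupOf.1 hd) _ (Subgroup.mem_subgroupOf.1 hc))
  have hcD : Nat.card (D.subgroupOf K) = Nat.card D :=
    Nat.card_congr (Subgroup.subgroupOfEquivOfLe (hDC.trans hCK)).toEquiv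
  have hcC : Nat.card (C.subgroupOf K) = Nat.card C :=
    Nat.card_congr (Subgroup.subgroupOfEquivOfLe hCK).toEquiv
  have hcDC : Nat.card (D.subgroupOf C) = Nat.card D :=
    Nat.card_congr (Subgroup.subgroupOfEquivOfLe hDC).toEquiv
  have hCD : Nat.card C = Nat.card D * D.relIndex C := by
    rw [← hcDC]
    exact (Subgroup.card_mul_index (D.subgroupOf C)).symm
  rw [hcD, hcC, hCD] at h1
  have hDpos : 0 < Nat.card D := Nat.card_pos
  have h2 : (charDegree θ.1) ^ 2 * Nat.card D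
      ≤ ((C.relIndex K) ^ 2 * D.relIndex C) * Nat.card D := by
    calc (charDegree θ.1) ^ 2 * Nat.card D
        ≤ (C.subgroupOf K).index ^ 2 * (Nat.card D * D.relIndex C) := h1
      _ = ((C.relIndex K) ^ 2 * D.relIndex C) * Nat.card D := by
          have e1 : (C.subgroupOf K).index = C.relIndex K := rfl
          rw [e1]; ring
  exact Nat.le_of_mul_le_mul_right h2 hDpos

theorem coherent_descent {G : Type v} [Group G] [Fintype G] (K : Subgroup L) [hK : K.Normal]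
    (hsolv : Group.IsSolvable K) (τ : (L → ℂ) → (G → ℂ)) (R : (L → ℂ) → Finset (G → ℂ))
    (hS : IsCoherenceSystem (inducedIrrAbove K ⊥) τ R) (A B C D : Subgroup L) [A.Normal]
    [B.Normal] [C.Normal] [D.Normal] (hAK : A < K) (hBK : B < K) (hDC : D ≤ C)
    (hCK : C ≤ K) (hcent : ∀ x ∈ D, ∀ y ∈ C, x * y * x⁻¹ * y⁻¹ ∈ B)
    (hA : IsCoherent (inducedIrrAbove K A) {1}ᶜ τ)
    (hlt : 4 * C.index ^ 2 * D.relIndex C < (A.relIndex K - 1) ^ 2) :
    IsCoherent (inducedIrrAbove K B) {1}ᶜ τ := by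
  classical
  haveI : Fintype K := Fintype.ofFinite K
  haveI : Fintype (IrrCharacter K) := Fintype.ofFinite _
  have hchar : ∀ φ ∈ inducedIrrAbove K ⊥, IsCharacter L φ := hS.isCharacter
  have hdex : ∀ φ : L → ℂ, ∃ m : ℕ, φ ∈ inducedIrrAbove K ⊥ → φ 1 = (m : ℂ) := by
    intro φ
    by_cases h : φ ∈ inducedIrrAbove K ⊥
    · obtain ⟨m, hm⟩ := isCharacter_one (hchar φ h)
      exact ⟨m, fun _ => hm⟩
    · exact ⟨0, fun h' => absurd h' h⟩
  choose d hd using hdex
  have hnex : ∀ φ : L → ℂ, ∃ m : ℕ, φ ∈ inducedIrrAbove K ⊥ → classInner φ φ = (m : ℂ) := by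
    intro φ
    by_cases h : φ ∈ inducedIrrAbove K ⊥
    · obtain ⟨m, hm⟩ := isCharacter_inner_nat (hchar φ h) (hchar φ h)
      exact ⟨m, fun _ => hm⟩
    · exact ⟨0, fun h' => absurd h' h⟩
  choose n hn using hnex
  have hidx : K.index ≠ 0 := Subgroup.index_ne_zero_of_finite
  obtain ⟨θ₁, hθ₁ne, hθ₁A, hθ₁deg⟩ := exists_linear_irr K A hsolv hAK
  obtain ⟨θ₂, hθ₂ne, hθ₂B, -⟩ := exists_linear_irr K B hsolv hBK
  obtain ⟨SA, hSAdef⟩ : ∃ SA : Finset (L → ℂ), SA = (Finset.univ.filter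
      (fun θ : IrrCharacter K => θ.1 ≠ (fun _ => 1) ∧
        ∀ a : K, (a : L) ∈ A → θ.1 a = θ.1 1)).image (fun θ => indFun K θ.1) := ⟨_, rfl⟩
  obtain ⟨SB, hSBdef⟩ : ∃ SB : Finset (L → ℂ), SB = (Finset.univ.filter
      (fun θ : IrrCharacter K => θ.1 ≠ (fun _ => 1) ∧
        ∀ a : K, (a : L) ∈ B → θ.1 a = θ.1 1)).image (fun θ => indFun K θ.1) := ⟨_, rfl⟩
  have hSAmem : ∀ φ, φ ∈ SA ↔ φ ∈ inducedIrrAbove K A := by
    intro φ
    rw [hSAdef, Finset.mem_image, mem_inducedIrrAbove]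
    constructor
    · rintro ⟨θ, hθ, rfl⟩
      exact ⟨θ, (Finset.mem_filter.1 hθ).2.1, (Finset.mem_filter.1 hθ).2.2, rfl⟩
    · rintro ⟨θ, h1, h2, rfl⟩
      exact ⟨θ, Finset.mem_filter.2 ⟨Finset.mem_univ _, h1, h2⟩, rfl⟩
  have hSBmem : ∀ φ, φ ∈ SB ↔ φ ∈ inducedIrrAbove K B := by
    intro φ
    rw [hSBdef, Finset.mem_image, mem_inducedIrrAbove]
    constructor
    · rintro ⟨θ, hθ, rfl⟩
      exact ⟨θ, (Finset.mem_filter.1 hθ).2.1, (Finset.mem_filter.1 hθ).2.2, rfl⟩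
    · rintro ⟨θ, h1, h2, rfl⟩
      exact ⟨θ, Finset.mem_filter.2 ⟨Finset.mem_univ _, h1, h2⟩, rfl⟩
  have hsumA : (K.index : ℝ) * ((A.relIndex K : ℝ) - 1) ≤
      ∑ φ ∈ SA, ((d φ : ℝ) ^ 2 / (n φ : ℝ)) := by
    rw [hSAdef]
    exact sum_lower_bound K τ R hS d n hd hn A
  have hχ₁A : indFun K θ₁.1 ∈ inducedIrrAbove K A :=
    (mem_inducedIrrAbove K A _).2 ⟨θ₁, hθ₁ne, hθ₁A, rfl⟩
  have hdχ₁ : d (indFun K θ₁.1) = K.index := by
    rw [deg_ind (G := G) K d hd θ₁ hθ₁ne, hθ₁deg, mul_one]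
  have hneB : ∃ α ∈ zspanOn (inducedIrrAbove K B) {1}ᶜ, α ≠ 0 := by
    have hψ₀ : indFun K θ₂.1 ∈ inducedIrrAbove K B :=
      (mem_inducedIrrAbove K B _).2 ⟨θ₂, hθ₂ne, hθ₂B, rfl⟩
    have hψ₀S := inducedIrrAbove_sub_bot K B hψ₀
    refine ⟨indFun K θ₂.1 - Cfsg.conjFun (indFun K θ₂.1), ⟨?_, ?_⟩, ?_⟩
    · exact Submodule.sub_mem _ (Submodule.subset_span hψ₀)
        (Submodule.subset_span (conj_mem_inducedIrrAbove K B hψ₀))
    · intro x hx
      have hx1 : x = 1 := by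
        by_contra hne
        exact hx hne
      rw [hx1]
      show indFun K θ₂.1 1 - starRingEnd ℂ (indFun K θ₂.1 1) = 0
      rw [hd _ hψ₀S, map_natCast, sub_self]
    · exact sub_ne_zero.2 (hS.conj_ne _ hψ₀S).symm
  have hr1 : 1 ≤ A.relIndex K := Nat.pos_of_ne_zero (by
    rw [Subgroup.relIndex]; exact Subgroup.index_ne_zero_of_finite)
  have key : ∀ m : ℕ, ∀ S₁ : Finset (L → ℂ), (SB \ S₁).card = m → (∀ φ ∈ SA, φ ∈ S₁) →
      (∀ φ ∈ S₁, φ ∈ inducedIrrAbove K ⊥) → (∀ φ ∈ S₁, Cfsg.conjFun φ ∈ S₁) →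
      IsCoherent (↑S₁ : Set (L → ℂ)) {1}ᶜ τ → IsCoherent (inducedIrrAbove K B) {1}ᶜ τ := by
    intro m
    induction m using Nat.strong_induction_on with
    | _ m ih =>
    intro S₁ hm hAS hS₁S hS₁c hcoh
    by_cases hsub : SB ⊆ S₁
    · refine subset_coherent hcoh ?_ hneB
      intro φ hφ
      exact Finset.mem_coe.2 (hsub ((hSBmem φ).2 hφ))
    · obtain ⟨ψ, hψB, hψS₁⟩ := Finset.not_subset.1 hsub
      have hψB' := (hSBmem ψ).1 hψB
      have hψS := inducedIrrAbove_sub_bot K B hψB'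
      obtain ⟨θ, hθne, hθB, hψdef⟩ := (mem_inducedIrrAbove K B ψ).1 hψB'
      have hψc : Cfsg.conjFun ψ ∉ S₁ := by
        intro h
        have := hS₁c _ h
        have e : Cfsg.conjFun (Cfsg.conjFun ψ) = ψ := by
          funext x
          show starRingEnd ℂ (starRingEnd ℂ (ψ x)) = ψ x
          rw [Complex.conj_conj]
        rw [e] at this
        exact hψS₁ this
      have hχ₁S₁ : indFun K θ₁.1 ∈ S₁ := hAS _ ((hSAmem _).2 hχ₁A)
      have hdψ : d ψ = K.index * charDegree θ.1 := by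
        rw [hψdef]; exact deg_ind (G := G) K d hd θ hθne
      have hdvd : d (indFun K θ₁.1) ∣ d ψ := by
        rw [hdχ₁, hdψ]; exact dvd_mul_right _ _
      have hdegb := deg_bound_rel K B C D hDC hCK hcent θ hθB
      have hCidx : C.index = C.relIndex K * K.index := (Subgroup.relIndex_mul_index hCK).symm
      have hnat : 2 * K.index * charDegree θ.1 < A.relIndex K - 1 := by
        apply lt_of_pow_lt_pow_left₀ 2 (Nat.zero_le _)
        calc (2 * K.index * charDegree θ.1) ^ 2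
            = 4 * K.index ^ 2 * (charDegree θ.1) ^ 2 := by ring
          _ ≤ 4 * K.index ^ 2 * ((C.relIndex K) ^ 2 * D.relIndex C) :=
              Nat.mul_le_mul_left _ hdegb
          _ = 4 * C.index ^ 2 * D.relIndex C := by rw [hCidx]; ring
          _ < (A.relIndex K - 1) ^ 2 := hlt
      have hineq : (2 * (d ψ : ℝ) * (d (indFun K θ₁.1) : ℝ)) <
          ∑ φ ∈ S₁, ((d φ : ℝ) ^ 2 / (n φ : ℝ)) := by
        have h1 : ∑ φ ∈ SA, ((d φ : ℝ) ^ 2 / (n φ : ℝ)) ≤
            ∑ φ ∈ S₁, ((d φ : ℝ) ^ 2 / (n φ : ℝ)) :=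
          Finset.sum_le_sum_of_subset_of_nonneg (fun φ hφ => hAS φ hφ)
            (fun _ _ _ => by positivity)
        have h2 : ((2 * K.index * charDegree θ.1 : ℕ) : ℝ) + 1 ≤ ((A.relIndex K - 1 : ℕ) : ℝ) := by
          exact_mod_cast hnat
        rw [Nat.cast_sub hr1] at h2
        push_cast at h2
        have hKpos : (0 : ℝ) < (K.index : ℝ) := by
          exact_mod_cast Nat.pos_of_ne_zero hidx
        rw [hdψ, hdχ₁]
        push_cast
        nlinarith [hsumA, h1, h2, hKpos]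
      have hnew := Cfsg.Agent.S1516.result (inducedIrrAbove K ⊥) τ R hS d n hd hn S₁
        (fun φ hφ => hS₁S φ (Finset.mem_coe.1 hφ)) hS₁c hcoh ψ hψS hψS₁ hψc
        (indFun K θ₁.1) hχ₁S₁ hdvd (by exact_mod_cast hineq)
      have hcoe : (↑(insert ψ (insert (Cfsg.conjFun ψ) S₁)) : Set (L → ℂ))
          = ↑S₁ ∪ {ψ, Cfsg.conjFun ψ} := by
        ext x
        simp only [Finset.coe_insert, Set.mem_insert_iff, Finset.mem_coe, Set.mem_union,
          Set.mem_singleton_iff]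
        tauto
      rw [← hcoe] at hnew
      have hlt' : (SB \ insert ψ (insert (Cfsg.conjFun ψ) S₁)).card < m := by
        rw [← hm]
        apply Finset.card_lt_card
        rw [Finset.ssubset_iff_of_subset]
        · refine ⟨ψ, Finset.mem_sdiff.2 ⟨hψB, hψS₁⟩, ?_⟩
          intro h
          exact (Finset.mem_sdiff.1 h).2 (Finset.mem_insert_self _ _)
        · intro x hx
          rw [Finset.mem_sdiff] at hx ⊢
          exact ⟨hx.1, fun h => hx.2 (Finset.mem_insert_of_mem (Finset.mem_insert_of_mem h))⟩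
      refine ih _ hlt' (insert ψ (insert (Cfsg.conjFun ψ) S₁)) rfl ?_ ?_ ?_ hnew
      · intro φ hφ
        exact Finset.mem_insert_of_mem (Finset.mem_insert_of_mem (hAS φ hφ))
      · intro φ hφ
        rw [Finset.mem_insert, Finset.mem_insert] at hφ
        rcases hφ with rfl | rfl | hφ
        · exact hψS
        · exact hS.conj_mem _ hψS
        · exact hS₁S φ hφ
      · intro φ hφ
        rw [Finset.mem_insert, Finset.mem_insert] at hφ
        rcases hφ with rfl | rfl | hφ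
        · exact Finset.mem_insert_of_mem (Finset.mem_insert_self _ _)
        · have e : Cfsg.conjFun (Cfsg.conjFun ψ) = ψ := by
            funext x
            show starRingEnd ℂ (starRingEnd ℂ (ψ x)) = ψ x
            rw [Complex.conj_conj]
          rw [e]
          exact Finset.mem_insert_self _ _
        · exact Finset.mem_insert_of_mem (Finset.mem_insert_of_mem (hS₁c φ hφ))
  have hcohA : IsCoherent (↑SA : Set (L → ℂ)) {1}ᶜ τ := by
    have e : (↑SA : Set (L → ℂ)) = inducedIrrAbove K A := by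
      ext φ
      rw [Finset.mem_coe, hSAmem]
    rw [e]; exact hA
  refine key _ SA rfl (fun φ hφ => hφ) ?_ ?_ hcohA
  · intro φ hφ
    exact inducedIrrAbove_sub_bot K A ((hSAmem φ).1 hφ)
  · intro φ hφ
    exact (hSAmem _).2 (conj_mem_inducedIrrAbove K A ((hSAmem φ).1 hφ))

end main

end Cfsg.Agent.Lib.helper22.Coh
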