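import Cfsg.Agent.Lib.helper22.CohE

set_option autoImplicit false

namespace Cfsg.Agent.Lib.helper22.Coh

open Cfsg
open Cfsg.Agent.Lib.helper24
open scoped ComplexConjugate
open scoped commutatorElement

universe u v

section nil

variable {L : Type u} [Group L] [Fintype L]

theorem lcs_le_of_nilpotent_quot (H M : Subgroup L) [(M.subgroupOf H).Normal]
    (hnil : Group.IsNilpotent (↥H ⧸ M.subgroupOf H)) : ∃ c, H.lowerCentralSeries c ≤ M := by
  obtain ⟨c, hc⟩ := Subgroup.nilpotent_iff_lowerCentralSeries.mp hnil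
  refine ⟨c, ?_⟩
  have h1 : ((⊤ : Subgroup H).lowerCentralSeries c).map
      (QuotientGroup.mk' (M.subgroupOf H)) = ⊥ := by
    rw [Subgroup.map_lowerCentralSeries, ← MonoidHom.range_eq_map,
      MonoidHom.range_eq_top.2 (QuotientGroup.mk'_surjective _)]
    exact hc
  have h2 : (⊤ : Subgroup H).lowerCentralSeries c ≤ M.subgroupOf H := by
    intro x hx
    have h3 : QuotientGroup.mk' (M.subgroupOf H) x ∈ (⊥ : Subgroup (↥H ⧸ M.subgroupOf H)) := by
      rw [← h1]; exact Subgroup.mem_map_of_mem _ hx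
    rw [Subgroup.mem_bot] at h3
    exact (QuotientGroup.eq_one_iff x).1 h3
  rw [← Subgroup.top_subtype_lowerCentralSeries]
  rintro _ ⟨x, hx, rfl⟩
  exact Subgroup.mem_subgroupOf.1 (h2 hx)

theorem le_lcs_sup (H₁ H B : Subgroup L) [hBn : B.Normal] (hH₁H : H₁ ≤ H)
    (h : H₁ ≤ ⁅H₁, H⁆ ⊔ B) : ∀ i : ℕ, H₁ ≤ H.lowerCentralSeries i ⊔ B := by
  intro i
  induction i with
  | zero => exact hH₁H.trans le_sup_left
  | succ i ih =>
    refine h.trans (sup_le ?_ le_sup_right)
    rw [Subgroup.commutator_le]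
    intro x hx y hy
    have hx' := ih hx
    rw [Subgroup.mem_sup_of_normal_right] at hx'
    obtain ⟨g, hg, b, hb, rfl⟩ := hx'
    have e : ⁅g * b, y⁆ = (g * (b * (y * b⁻¹ * y⁻¹)) * g⁻¹) * ⁅g, y⁆ := by
      simp only [commutatorElement_def]; group
    rw [e]
    refine Subgroup.mul_mem _ (Subgroup.mem_sup_right ?_) (Subgroup.mem_sup_left ?_)
    · exact hBn.conj_mem _ (B.mul_mem hb (hBn.conj_mem _ (B.inv_mem hb) y)) g
    · rw [Subgroup.lowerCentralSeries_succ]; exact Subgroup.commutator_mem_commutator hg hy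

theorem nil_arith (h k l m : ℕ) (hk : 1 ≤ k) (hbig : 4 * l ^ 2 + 1 < h) (hm : h * k = m + 1) :
    4 * (k * l) ^ 2 * h < m ^ 2 := by
  have hbig' : 4 * l ^ 2 + 2 ≤ h := hbig
  have e1 : k * k * h * (4 * l ^ 2 + 2) ≤ k * k * h * h := Nat.mul_le_mul_left _ hbig'
  have e2 : 2 * h * k ≤ 2 * h * k * k := Nat.le_mul_of_pos_right _ hk
  have e3 : (m + 1) ^ 2 = h * k * (h * k) := by rw [← hm]; ring
  nlinarith [e1, e2, e3]

theorem coherent_nil_descent {G : Type v} [Group G] [Fintype G] (K : Subgroup L) [hK : K.Normal]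
    (hsolv : Group.IsSolvable K) (τ : (L → ℂ) → (G → ℂ)) (R : (L → ℂ) → Finset (G → ℂ))
    (hS : IsCoherenceSystem (inducedIrrAbove K ⊥) τ R) (M H : Subgroup L) [M.Normal] [H.Normal]
    (hHK : H ≤ K) (c : ℕ) (hc : H.lowerCentralSeries c ≤ M) :
    ∀ n : ℕ, ∀ H₁ : Subgroup L, H₁.Normal → Nat.card H₁ = n → M ≤ H₁ → H₁ ≤ H →
      IsCoherent (inducedIrrAbove K H₁) {1}ᶜ τ → 4 * K.index ^ 2 + 1 < H₁.relIndex H →
      IsCoherent (inducedIrrAbove K M) {1}ᶜ τ := by
  intro n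
  induction n using Nat.strong_induction_on with
  | _ n ih =>
    intro H₁ hH₁n hcard hMH₁ hH₁H hcoh hbig
    haveI := hH₁n
    by_cases hle : H₁ ≤ M
    · have hEq : H₁ = M := le_antisymm hle hMH₁
      rw [← hEq]; exact hcoh
    haveI : Nonempty {B : Subgroup L // B.Normal ∧ M ≤ B ∧ B < H₁} :=
      ⟨⟨M, inferInstance, le_rfl, lt_of_le_not_ge hMH₁ hle⟩⟩
    obtain ⟨⟨B, hBn, hMB, hBH₁⟩, hBmax⟩ := Finite.exists_max
      (fun B : {B : Subgroup L // B.Normal ∧ M ≤ B ∧ B < H₁} => Nat.card B.1)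
    haveI := hBn
    have hcomm : ⁅H₁, H⁆ ≤ B := by
      by_contra hnot
      have hNle : ⁅H₁, H⁆ ⊔ B ≤ H₁ := sup_le (Subgroup.commutator_le_left H₁ H) hBH₁.le
      have hNeq : ⁅H₁, H⁆ ⊔ B = H₁ := by
        by_contra hne
        have hlt : ⁅H₁, H⁆ ⊔ B < H₁ := lt_of_le_of_ne hNle hne
        have h1 : Nat.card (⁅H₁, H⁆ ⊔ B : Subgroup L) ≤ Nat.card B :=
          hBmax ⟨⁅H₁, H⁆ ⊔ B, inferInstance, hMB.trans le_sup_right, hlt⟩
        have h2 : B = ⁅H₁, H⁆ ⊔ B := Subgroup.eq_of_le_of_card_ge le_sup_right h1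
        apply hnot
        rw [h2]
        exact le_sup_left
      have hall := le_lcs_sup H₁ H B hH₁H hNeq.ge c
      have hH₁B : H₁ ≤ B := hall.trans (sup_le (hc.trans hMB) le_rfl)
      exact absurd hH₁B (not_le_of_gt hBH₁)
    have hk0 : H.relIndex K ≠ 0 := Subgroup.index_ne_zero_of_finite (H := H.subgroupOf K)
    have hk : 1 ≤ H.relIndex K := Nat.one_le_iff_ne_zero.2 hk0
    have hh0 : H₁.relIndex H ≠ 0 := Subgroup.index_ne_zero_of_finite (H := H₁.subgroupOf H)
    have hcohB : IsCoherent (inducedIrrAbove K B) {1}ᶜ τ := by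
      have hH₁K : H₁ ≤ K := hH₁H.trans hHK
      have hH₁ltK : H₁ < K := by
        refine lt_of_le_of_ne hH₁K ?_
        intro hEq
        have hHH₁ : H ≤ H₁ := by rw [hEq]; exact hHK
        have h1 : H₁.relIndex H = 1 := Subgroup.relIndex_eq_one.2 hHH₁
        rw [h1] at hbig
        omega
      refine coherent_descent K hsolv τ R hS H₁ B H H₁ hH₁ltK
        (lt_of_lt_of_le hBH₁ hH₁K) hH₁H hHK ?_ hcoh ?_
      · intro x hx y hy
        have h3 := hcomm (Subgroup.commutator_mem_commutator hx hy)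
        rwa [commutatorElement_def] at h3
      · have e1 : H.relIndex K * K.index = H.index := Subgroup.relIndex_mul_index hHK
        have e2 : H₁.relIndex H * H.relIndex K = H₁.relIndex K :=
          Subgroup.relIndex_mul_relIndex H₁ H K hH₁H hHK
        have hpos : 1 ≤ H₁.relIndex H * H.relIndex K :=
          Nat.one_le_iff_ne_zero.2 (Nat.mul_ne_zero hh0 hk0)
        obtain ⟨m, hm⟩ : ∃ m, H₁.relIndex H * H.relIndex K = m + 1 :=
          ⟨H₁.relIndex H * H.relIndex K - 1, by omega⟩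
        rw [← e1, ← e2, hm, Nat.add_sub_cancel]
        exact nil_arith _ _ _ _ hk hbig hm
    have hcardB : Nat.card B < n := by
      rw [← hcard]
      by_contra hge
      push Not at hge
      exact hBH₁.ne (Subgroup.eq_of_le_of_card_ge hBH₁.le hge)
    have hbigB : 4 * K.index ^ 2 + 1 < B.relIndex H := by
      have e3 : B.relIndex H₁ * H₁.relIndex H = B.relIndex H :=
        Subgroup.relIndex_mul_relIndex B H₁ H hBH₁.le hH₁H
      have hb0 : B.relIndex H₁ ≠ 0 := Subgroup.index_ne_zero_of_finite (H := B.subgroupOf H₁)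
      have hle2 : H₁.relIndex H ≤ B.relIndex H := by
        rw [← e3]
        exact Nat.le_mul_of_pos_left _ (Nat.pos_of_ne_zero hb0)
      omega
    exact ih (Nat.card B) hcardB B hBn rfl hMB (hBH₁.le.trans hH₁H) hcohB hbigB

end nil

end Cfsg.Agent.Lib.helper22.Coh
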