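import Cfsg.Agent.Lib.helper22.CohF
import Cfsg.Agent.Lib.helper22.CohG
import Cfsg.Agent.S1517

set_option autoImplicit false

namespace Cfsg.Agent.Lib.helper22.Coh

open Cfsg
open Cfsg.Agent.Lib.helper24
open scoped ComplexConjugate
open scoped commutatorElement

universe u v

section frobq

variable {L : Type u} [Group L] [Fintype L]

theorem sub_system {G : Type v} [Group G] [Fintype G] (K : Subgroup L) [hK : K.Normal]
    (hsolv : Group.IsSolvable K) (τ : (L → ℂ) → (G → ℂ)) (R : (L → ℂ) → Finset (G → ℂ))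
    (hS : IsCoherenceSystem (inducedIrrAbove K ⊥) τ R) (N : Subgroup L) [N.Normal]
    (hNK : N < K) : IsCoherenceSystem (inducedIrrAbove K N) τ R := by
  have hsub := inducedIrrAbove_sub_bot K N
  have hz : zspanOn (inducedIrrAbove K N) {1}ᶜ ⊆ zspanOn (inducedIrrAbove K ⊥) {1}ᶜ :=
    fun α hα => ⟨Submodule.span_mono hsub hα.1, hα.2⟩
  obtain ⟨θ, hθne, hθN, -⟩ := exists_linear_irr K N hsolv hNK
  refine ⟨⟨indFun K θ.1, (mem_inducedIrrAbove K N _).2 ⟨θ, hθne, hθN, rfl⟩⟩,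
    fun χ hχ => hS.isCharacter χ (hsub hχ),
    fun χ hχ => conj_mem_inducedIrrAbove K N hχ,
    fun χ hχ => hS.conj_ne χ (hsub hχ),
    ⟨fun α hα β hβ => hS.isometry.1 α (hz hα) β (hz hβ),
      fun α hα n => hS.isometry.2.1 α (hz hα) n,
      fun α hα β hβ => hS.isometry.2.2.1 α (hz hα) β (hz hβ),
      fun α hα => hS.isometry.2.2.2 α (hz hα)⟩,
    fun α hα => hS.map_one α (hz hα),
    fun χ hχ φ hφ => hS.orthogonal χ (hsub hχ) φ (hsub hφ),
    fun χ hχ => hS.orthonormal χ (hsub hχ),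
    fun χ hχ => hS.virtual χ (hsub hχ),
    fun χ hχ => hS.sum_eq χ (hsub hχ),
    fun χ hχ φ hφ => hS.disjoint χ (hsub hχ) φ (hsub hφ)⟩

theorem coherent_abelian_quot {G : Type v} [Group G] [Fintype G] (K : Subgroup L) [hK : K.Normal]
    (hsolv : Group.IsSolvable K) (τ : (L → ℂ) → (G → ℂ)) (R : (L → ℂ) → Finset (G → ℂ))
    (hS : IsCoherenceSystem (inducedIrrAbove K ⊥) τ R) (N : Subgroup L) [N.Normal]
    (hNK : N < K) (hcomm : ⁅K, K⁆ ≤ N) : IsCoherent (inducedIrrAbove K N) {1}ᶜ τ := by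
  haveI : Fintype K := Fintype.ofFinite K
  refine Cfsg.Agent.S1517.result (inducedIrrAbove K N) τ R (sub_system K hsolv τ R hS N hNK) ?_
  have hdeg : ∀ φ ∈ inducedIrrAbove K N, φ 1 = (K.index : ℂ) := by
    intro φ hφ
    obtain ⟨θ, -, hθN, rfl⟩ := (mem_inducedIrrAbove K N φ).1 hφ
    have h1 := deg_bound_rel K N K K le_rfl le_rfl (by
      intro x hx y hy
      have := hcomm (Subgroup.commutator_mem_commutator hx hy)
      rwa [commutatorElement_def] at this) θ hθN
    rw [Subgroup.relIndex_self, one_pow, one_mul] at h1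
    have h2 : 0 < charDegree θ.1 := charDegree_pos θ
    have h3 : charDegree θ.1 = 1 := by nlinarith
    rw [indFun_one, ← charDegree_cast θ, h3]
    simp
  intro φ hφ ψ hψ
  rw [hdeg φ hφ, hdeg ψ hψ]

theorem coherent_frobenius_quot {G : Type v} [Group G] [Fintype G] (K : Subgroup L)
    [hK : K.Normal] (hsolv : Group.IsSolvable K) (τ : (L → ℂ) → (G → ℂ))
    (R : (L → ℂ) → Finset (G → ℂ)) (hS : IsCoherenceSystem (inducedIrrAbove K ⊥) τ R)
    (hodd : Odd (Nat.card L)) (M : Subgroup L) [M.Normal] (hMK : M ≤ K)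
    (c : ℕ) (hc : K.lowerCentralSeries c ≤ M) (H₁ : Subgroup L) (hH₁ : H₁ = ⁅K, K⁆ ⊔ M)
    (hH₁K : H₁ < K)
    (hfrob : ∀ k ∈ K, k ∉ H₁ → ∀ x : L, x * k * x⁻¹ * k⁻¹ ∈ H₁ → x ∈ K)
    (hgood : (∃ N : Subgroup L, N.Normal ∧ H₁ < N ∧ N < K) ∨
      4 * K.index ^ 2 + 1 < H₁.relIndex K ∨ (¬ ∃ p m : ℕ, p.Prime ∧ M.relIndex K = p ^ m) ∨
      ⁅K, K⁆ ≤ M ∨ (∃ p m : ℕ, p.Prime ∧ M.relIndex K = p ^ m ∧ K.index ∣ p - 1)) :
    IsCoherent (inducedIrrAbove K M) {1}ᶜ τ := by
  haveI hH₁n : H₁.Normal := by rw [hH₁]; infer_instance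
  have hKH : ⁅K, K⁆ ≤ H₁ := by rw [hH₁]; exact le_sup_left
  have hMH : M ≤ H₁ := by rw [hH₁]; exact le_sup_right
  have hcohH₁ : IsCoherent (inducedIrrAbove K H₁) {1}ᶜ τ :=
    coherent_abelian_quot K hsolv τ R hS H₁ hH₁K hKH
  by_cases hbig : 4 * K.index ^ 2 + 1 < H₁.relIndex K
  · exact coherent_nil_descent K hsolv τ R hS M K le_rfl c hc _ H₁ hH₁n rfl hMH hH₁K.le
      hcohH₁ hbig
  have hab_case : ⁅K, K⁆ ≤ M → IsCoherent (inducedIrrAbove K M) {1}ᶜ τ := by
    intro h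
    have hEq : H₁ = M := by rw [hH₁]; exact sup_eq_right.2 h
    rw [← hEq]; exact hcohH₁
  obtain ⟨π, hπ⟩ : ∃ π : L →* L ⧸ H₁, π = QuotientGroup.mk' H₁ := ⟨_, rfl⟩
  have hπs : Function.Surjective π := by rw [hπ]; exact QuotientGroup.mk'_surjective H₁
  have hker : π.ker = H₁ := by rw [hπ]; exact QuotientGroup.ker_mk' H₁
  haveI : (K.map π).Normal := hK.map π hπs
  have habQ : ∀ a ∈ K.map π, ∀ b ∈ K.map π, a * b = b * a := by
    rintro _ ⟨k, hk, rfl⟩ _ ⟨k', hk', rfl⟩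
    rw [← map_mul, ← map_mul]
    have h1 : k * k' = ⁅k, k'⁆ * (k' * k) := by simp only [commutatorElement_def]; group
    have h2 : π ⁅k, k'⁆ = 1 := by
      rw [← MonoidHom.mem_ker, hker]; exact hKH (Subgroup.commutator_mem_commutator hk hk')
    rw [h1, map_mul, h2, one_mul]
  have hfrQ : ∀ c ∈ K.map π, c ≠ 1 → ∀ g, g * c = c * g → g ∈ K.map π := by
    rintro _ ⟨k, hk, rfl⟩ hne g hg
    obtain ⟨x, rfl⟩ := hπs g
    refine ⟨x, ?_, rfl⟩
    apply hfrob k hk
    · intro hkH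
      apply hne
      rw [← MonoidHom.mem_ker, hker]; exact hkH
    · rw [← hker, MonoidHom.mem_ker, map_mul, map_mul, map_mul, hg, map_inv, map_inv]
      group
  have hidx : (K.map π).index = K.index :=
    Subgroup.index_map_eq K hπs (by rw [hker]; exact hH₁K.le)
  have hcardQ : ∀ N : Subgroup L, H₁ ≤ N → Nat.card (N.map π) = H₁.relIndex N := by
    intro N hN
    have h1 : Nat.card (N.map π) * (N.map π).index = Nat.card (L ⧸ H₁) :=
      Subgroup.card_mul_index _
    have h2 : (N.map π).index = N.index := Subgroup.index_map_eq N hπs (by rw [hker]; exact hN)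
    have h3 : H₁.relIndex N * N.index = H₁.index := Subgroup.relIndex_mul_index hN
    have h4 : Nat.card (L ⧸ H₁) = H₁.index := (Subgroup.index_eq_card H₁).symm
    have h5 : N.index ≠ 0 := Subgroup.index_ne_zero_of_finite
    rw [h2, h4, ← h3] at h1
    exact Nat.eq_of_mul_eq_mul_right (Nat.pos_of_ne_zero h5) h1
  have hoddQ : Odd (Nat.card (L ⧸ H₁)) := by
    rw [← Subgroup.index_eq_card]; exact Odd.of_dvd_nat hodd (Subgroup.index_dvd_card H₁)
  have hKb1 : K.map π ≠ ⊥ := by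
    intro h
    rw [Subgroup.map_eq_bot_iff, hker] at h
    exact absurd h (not_le_of_gt hH₁K)
  have hsmall : Nat.card (K.map π) ≤ 4 * (K.map π).index ^ 2 + 1 := by
    rw [hcardQ K hH₁K.le, hidx]; omega
  have hrel : H₁.relIndex K = (⁅K, K⁆ ⊔ M).relIndex K := by rw [hH₁]
  rcases hgood with ⟨N, hNn, hlt1, hlt2⟩ | h2 | h3 | h4 | ⟨p, m, hp, hpm, hdvd⟩
  · exfalso
    haveI := hNn
    haveI : (N.map π).Normal := hNn.map π hπs
    have hb := frob_bound hoddQ (K.map π) (N.map π) (Subgroup.map_mono hlt2.le) habQ hfrQ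
      (by
        intro h
        rw [Subgroup.map_eq_bot_iff, hker] at h
        exact absurd h (not_le_of_gt hlt1))
      (by
        intro h
        have h1 : K.map π ≤ N.map π := h.ge
        rw [Subgroup.map_le_map_iff, hker, sup_eq_left.2 hlt1.le] at h1
        exact absurd h1 (not_le_of_gt hlt2))
    omega
  · exact absurd h2 hbig
  · exfalso
    apply h3
    obtain ⟨p, a, hp, hpa⟩ := frob_prime_pow hoddQ (K.map π) habQ hfrQ hKb1 hsmall
    rw [hcardQ K hH₁K.le, hrel] at hpa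
    obtain ⟨m, hm⟩ := pgroup_step K M hMK c hc p a hp hpa
    exact ⟨p, m, hp, hm⟩
  · exact hab_case h4
  · apply hab_case
    have hq1 : H₁.relIndex K ≠ 1 := by
      intro h1
      rw [Subgroup.relIndex_eq_one] at h1
      exact absurd h1 (not_le_of_gt hH₁K)
    have hqd : H₁.relIndex K ∣ p ^ m := by
      rw [← hpm]
      exact Subgroup.relIndex_dvd_of_le_left K hMH
    obtain ⟨a, -, ha⟩ := (Nat.dvd_prime_pow hp).1 hqd
    have he : Odd K.index := Odd.of_dvd_nat hodd (Subgroup.index_dvd_card K)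
    have hpodd : Odd p := by
      have h1 : p ∣ H₁.relIndex K := by
        rw [ha]
        refine dvd_pow_self p ?_
        intro h0
        rw [h0, pow_zero] at ha
        exact hq1 ha
      have h2 : H₁.relIndex K ∣ Nat.card L :=
        (Subgroup.index_dvd_card (H₁.subgroupOf K)).trans (Subgroup.card_subgroup_dvd_card K)
      exact Odd.of_dvd_nat hodd (h1.trans h2)
    have hp3 : 1 < p := hp.one_lt
    have hle : 2 * K.index + 1 ≤ p := odd_mod_lb _ _ he hpodd hp3 hdvd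
    have hlt : H₁.relIndex K < p ^ 2 := by
      have h1 : H₁.relIndex K ≤ 4 * K.index ^ 2 + 1 := by omega
      nlinarith
    have ha1 : a = 1 := by
      rw [ha] at hlt hq1
      have h2 : a < 2 := (Nat.pow_lt_pow_iff_right hp3).1 hlt
      have h0 : a ≠ 0 := by
        intro h0
        rw [h0, pow_zero] at hq1
        exact hq1 rfl
      omega
    rw [ha1, pow_one, hrel] at ha
    exact abelian_step K M hMK c hc p hp ha

end frobq

end Cfsg.Agent.Lib.helper22.Coh
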