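import Cfsg.Agent.Lib.helper22.CohH

set_option autoImplicit false

namespace Cfsg.Agent.Lib.helper22.Coh

open Cfsg
open Cfsg.Agent.Lib.helper24
open scoped ComplexConjugate

universe u v

section chain

variable {L : Type u} [Group L] [Fintype L] {G : Type v} [Group G] [Fintype G]

theorem sub_system' {S T : Set (L → ℂ)} {τ : (L → ℂ) → (G → ℂ)}
    {R : (L → ℂ) → Finset (G → ℂ)} (hS : IsCoherenceSystem S τ R) (hTS : T ⊆ S)
    (hne : T.Nonempty) (hc : ∀ φ ∈ T, Cfsg.conjFun φ ∈ T) : IsCoherenceSystem T τ R := by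
  have hz : zspanOn T {1}ᶜ ⊆ zspanOn S {1}ᶜ :=
    fun α hα => ⟨Submodule.span_mono hTS hα.1, hα.2⟩
  exact ⟨hne, fun χ hχ => hS.isCharacter χ (hTS hχ), hc, fun χ hχ => hS.conj_ne χ (hTS hχ),
    ⟨fun α hα β hβ => hS.isometry.1 α (hz hα) β (hz hβ),
      fun α hα n => hS.isometry.2.1 α (hz hα) n,
      fun α hα β hβ => hS.isometry.2.2.1 α (hz hα) β (hz hβ),
      fun α hα => hS.isometry.2.2.2 α (hz hα)⟩,
    fun α hα => hS.map_one α (hz hα),
    fun χ hχ φ hφ => hS.orthogonal χ (hTS hχ) φ (hTS hφ),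
    fun χ hχ => hS.orthonormal χ (hTS hχ),
    fun χ hχ => hS.virtual χ (hTS hχ),
    fun χ hχ => hS.sum_eq χ (hTS hχ),
    fun χ hχ φ hφ => hS.disjoint χ (hTS hχ) φ (hTS hφ)⟩

theorem conj_conj_fun (φ : L → ℂ) : Cfsg.conjFun (Cfsg.conjFun φ) = φ := by
  funext x
  show starRingEnd ℂ (starRingEnd ℂ (φ x)) = φ x
  rw [Complex.conj_conj]

theorem chain_coherent (S : Set (L → ℂ)) (τ : (L → ℂ) → (G → ℂ))
    (R : (L → ℂ) → Finset (G → ℂ)) (hS : IsCoherenceSystem S τ R)
    (d n : (L → ℂ) → ℕ) (hd : ∀ φ ∈ S, φ 1 = (d φ : ℂ))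
    (hn : ∀ φ ∈ S, classInner φ φ = (n φ : ℂ))
    (X : Finset (L → ℂ)) (hXS : ↑X ⊆ S) (hXc : ∀ φ ∈ X, Cfsg.conjFun φ ∈ X)
    (hXne : X.Nonempty)
    (hstep : ∀ ψ ∈ X, ∀ φ₀ ∈ X, d φ₀ < d ψ → ∃ χ₁ ∈ X, d χ₁ < d ψ ∧ d χ₁ ∣ d ψ ∧
        (2 * (d ψ : ℝ) * (d χ₁ : ℝ)) <
          ∑ φ ∈ X.filter (fun φ => d φ < d ψ), ((d φ : ℝ) ^ 2 / (n φ : ℝ))) :
    IsCoherent (↑X : Set (L → ℂ)) {1}ᶜ τ := by
  classical
  have hdc : ∀ φ ∈ X, d (Cfsg.conjFun φ) = d φ := by
    intro φ hφ
    have h1 := hd _ (hXS (Finset.mem_coe.2 (hXc φ hφ)))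
    have h2 := hd _ (hXS (Finset.mem_coe.2 hφ))
    have h3 : Cfsg.conjFun φ 1 = starRingEnd ℂ (φ 1) := rfl
    rw [h3, h2, map_natCast] at h1
    exact_mod_cast h1.symm
  have main : ∀ D : ℕ, (X.filter (fun φ => d φ ≤ D)).Nonempty →
      IsCoherent (↑(X.filter (fun φ => d φ ≤ D)) : Set (L → ℂ)) {1}ᶜ τ := by
    intro D
    induction D using Nat.strong_induction_on with
    | _ D ih =>
    intro hne
    by_cases hY' : (X.filter (fun φ => d φ < D)).Nonempty
    · obtain ⟨φ₀, hφ₀⟩ := hY'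
      have hφ₀X := (Finset.mem_filter.1 hφ₀).1
      have hφ₀D := (Finset.mem_filter.1 hφ₀).2
      have hD1 : D - 1 < D := by omega
      have hfe : X.filter (fun φ => d φ < D) = X.filter (fun φ => d φ ≤ D - 1) := by
        apply Finset.filter_congr
        intro φ _
        omega
      have hcoh' : IsCoherent (↑(X.filter (fun φ => d φ < D)) : Set (L → ℂ)) {1}ᶜ τ := by
        rw [hfe]
        apply ih (D - 1) hD1
        rw [← hfe]
        exact ⟨φ₀, hφ₀⟩
      have key : ∀ m : ℕ, ∀ S₁ : Finset (L → ℂ),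
          (X.filter (fun φ => d φ ≤ D) \ S₁).card = m →
          X.filter (fun φ => d φ < D) ⊆ S₁ → S₁ ⊆ X.filter (fun φ => d φ ≤ D) →
          (∀ φ ∈ S₁, Cfsg.conjFun φ ∈ S₁) → IsCoherent (↑S₁ : Set (L → ℂ)) {1}ᶜ τ →
          IsCoherent (↑(X.filter (fun φ => d φ ≤ D)) : Set (L → ℂ)) {1}ᶜ τ := by
        intro m
        induction m using Nat.strong_induction_on with
        | _ m ihm =>
        intro S₁ hm hY'S hS₁Y hS₁c hcoh
        by_cases hsub : X.filter (fun φ => d φ ≤ D) ⊆ S₁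
        · have hEq : S₁ = X.filter (fun φ => d φ ≤ D) := Finset.Subset.antisymm hS₁Y hsub
          rw [← hEq]; exact hcoh
        · obtain ⟨ψ, hψY, hψS₁⟩ := Finset.not_subset.1 hsub
          have hψX := (Finset.mem_filter.1 hψY).1
          have hψD : d ψ = D := by
            have h1 := (Finset.mem_filter.1 hψY).2
            have h2 : ¬ d ψ < D := fun h => hψS₁ (hY'S (Finset.mem_filter.2 ⟨hψX, h⟩))
            omega
          have hψS : ψ ∈ S := hXS (Finset.mem_coe.2 hψX)
          have hψc : Cfsg.conjFun ψ ∉ S₁ := by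
            intro h
            have := hS₁c _ h
            rw [conj_conj_fun] at this
            exact hψS₁ this
          obtain ⟨χ₁, hχ₁X, hχ₁lt, hχ₁dvd, hχ₁ineq⟩ :=
            hstep ψ hψX φ₀ hφ₀X (by rw [hψD]; exact hφ₀D)
          have hχ₁S₁ : χ₁ ∈ S₁ :=
            hY'S (Finset.mem_filter.2 ⟨hχ₁X, by rw [← hψD]; exact hχ₁lt⟩)
          have hsum_le : ∑ φ ∈ X.filter (fun φ => d φ < d ψ), ((d φ : ℝ) ^ 2 / (n φ : ℝ)) ≤
              ∑ φ ∈ S₁, ((d φ : ℝ) ^ 2 / (n φ : ℝ)) := by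
            rw [hψD]
            exact Finset.sum_le_sum_of_subset_of_nonneg hY'S (fun _ _ _ => by positivity)
          have hineq : (2 * (d ψ : ℝ) * (d χ₁ : ℝ)) <
              ∑ φ ∈ S₁, ((d φ : ℝ) ^ 2 / (n φ : ℝ)) := lt_of_lt_of_le hχ₁ineq hsum_le
          have hnew := Cfsg.Agent.S1516.result S τ R hS d n hd hn S₁
            (fun φ hφ => hXS (Finset.mem_coe.2
              (Finset.mem_filter.1 (hS₁Y (Finset.mem_coe.1 hφ))).1))
            hS₁c hcoh ψ hψS hψS₁ hψc χ₁ hχ₁S₁ hχ₁dvd (by exact_mod_cast hineq)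
          have hcoe : (↑(insert ψ (insert (Cfsg.conjFun ψ) S₁)) : Set (L → ℂ))
              = ↑S₁ ∪ {ψ, Cfsg.conjFun ψ} := by
            ext x
            simp only [Finset.coe_insert, Set.mem_insert_iff, Finset.mem_coe, Set.mem_union,
              Set.mem_singleton_iff]
            tauto
          rw [← hcoe] at hnew
          have hψcY : Cfsg.conjFun ψ ∈ X.filter (fun φ => d φ ≤ D) :=
            Finset.mem_filter.2 ⟨hXc ψ hψX, by rw [hdc ψ hψX, hψD]⟩
          have hlt' : (X.filter (fun φ => d φ ≤ D) \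
              insert ψ (insert (Cfsg.conjFun ψ) S₁)).card < m := by
            rw [← hm]
            apply Finset.card_lt_card
            rw [Finset.ssubset_iff_of_subset]
            · refine ⟨ψ, Finset.mem_sdiff.2 ⟨hψY, hψS₁⟩, ?_⟩
              intro h
              exact (Finset.mem_sdiff.1 h).2 (Finset.mem_insert_self _ _)
            · intro x hx
              rw [Finset.mem_sdiff] at hx ⊢
              exact ⟨hx.1, fun h => hx.2
                (Finset.mem_insert_of_mem (Finset.mem_insert_of_mem h))⟩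
          refine ihm _ hlt' (insert ψ (insert (Cfsg.conjFun ψ) S₁)) rfl ?_ ?_ ?_ hnew
          · intro φ hφ
            exact Finset.mem_insert_of_mem (Finset.mem_insert_of_mem (hY'S hφ))
          · intro φ hφ
            rcases Finset.mem_insert.1 hφ with rfl | hφ
            · exact hψY
            rcases Finset.mem_insert.1 hφ with rfl | hφ
            · exact hψcY
            · exact hS₁Y hφ
          · intro φ hφ
            rcases Finset.mem_insert.1 hφ with rfl | hφ
            · exact Finset.mem_insert_of_mem (Finset.mem_insert_self _ _)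
            rcases Finset.mem_insert.1 hφ with rfl | hφ
            · rw [conj_conj_fun]; exact Finset.mem_insert_self _ _
            · exact Finset.mem_insert_of_mem (Finset.mem_insert_of_mem (hS₁c φ hφ))
      exact key _ (X.filter (fun φ => d φ < D)) rfl (Finset.Subset.refl _)
        (fun φ hφ => Finset.mem_filter.2
          ⟨(Finset.mem_filter.1 hφ).1, (Finset.mem_filter.1 hφ).2.le⟩)
        (fun φ hφ => Finset.mem_filter.2 ⟨hXc φ (Finset.mem_filter.1 hφ).1, by
          rw [hdc φ (Finset.mem_filter.1 hφ).1]; exact (Finset.mem_filter.1 hφ).2⟩)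
        hcoh'
    · rw [Finset.not_nonempty_iff_eq_empty] at hY'
      have hdeg : ∀ φ ∈ X.filter (fun φ => d φ ≤ D), d φ = D := by
        intro φ hφ
        have h1 := (Finset.mem_filter.1 hφ).2
        have h2 : ¬ d φ < D := by
          intro h
          have h3 : φ ∈ X.filter (fun φ => d φ < D) :=
            Finset.mem_filter.2 ⟨(Finset.mem_filter.1 hφ).1, h⟩
          rw [hY'] at h3
          exact absurd h3 (Finset.notMem_empty _)
        omega
      have hsubS : (↑(X.filter (fun φ => d φ ≤ D)) : Set (L → ℂ)) ⊆ S :=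
        fun φ hφ => hXS (Finset.mem_coe.2 (Finset.mem_filter.1 (Finset.mem_coe.1 hφ)).1)
      refine Cfsg.Agent.S1517.result _ τ R
        (sub_system' hS hsubS (Finset.coe_nonempty.2 hne) ?_) ?_
      · intro φ hφ
        have hφ' := Finset.mem_coe.1 hφ
        exact Finset.mem_coe.2 (Finset.mem_filter.2 ⟨hXc φ (Finset.mem_filter.1 hφ').1, by
          rw [hdc φ (Finset.mem_filter.1 hφ').1]; exact (Finset.mem_filter.1 hφ').2⟩)
      · intro φ hφ ψ hψ
        rw [hd φ (hsubS hφ), hd ψ (hsubS hψ), hdeg φ (Finset.mem_coe.1 hφ),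
          hdeg ψ (Finset.mem_coe.1 hψ)]
  have hfin : X.filter (fun φ => d φ ≤ X.sup d) = X :=
    Finset.filter_true_of_mem (fun φ hφ => Finset.le_sup hφ)
  have hres := main (X.sup d) (by rw [hfin]; exact hXne)
  rwa [hfin] at hres

end chain

end Cfsg.Agent.Lib.helper22.Coh
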