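import Cfsg.Agent.Lib.helper22.CohI

set_option autoImplicit false

namespace Cfsg.Agent.Lib.helper22.Coh

open Cfsg
open Cfsg.Agent.Lib.helper24
open scoped ComplexConjugate
open scoped commutatorElement

universe u v

section sixsix

variable {L : Type u} [Group L] [Fintype L]

theorem ind_sum_eq (K Z : Subgroup L) [hK : K.Normal] (hZK : Z ≤ K) (θ : K → ℂ)
    (z : L) (hz : z ∈ Z) :
    indFun K θ z = (Nat.card K : ℂ)⁻¹ *
      ∑ g : L, θ ⟨g * z * g⁻¹, hK.conj_mem z (hZK hz) g⟩ := by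
  have h1 := indFun_apply_normal K θ ⟨z, hZK hz⟩
  exact h1

theorem ind_triv_on (K Z : Subgroup L) [hK : K.Normal] [hZ : Z.Normal] (hZK : Z ≤ K)
    (θ : K → ℂ) (hθ : ∀ a : K, (a : L) ∈ Z → θ a = θ 1) (z : L) (hz : z ∈ Z) :
    indFun K θ z = indFun K θ 1 := by
  rw [ind_sum_eq K Z hZK θ z hz, ind_sum_eq K Z hZK θ 1 Z.one_mem]
  congr 1
  apply Finset.sum_congr rfl
  intro g _
  rw [hθ ⟨g * z * g⁻¹, hK.conj_mem z (hZK hz) g⟩ (hZ.conj_mem z hz g),
    hθ ⟨g * 1 * g⁻¹, hK.conj_mem 1 (hZK Z.one_mem) g⟩ (hZ.conj_mem 1 Z.one_mem g)]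

theorem ind_ker (K Z : Subgroup L) [hK : K.Normal] [hZ : Z.Normal] (hZK : Z ≤ K)
    (θ : K → ℂ) (hθ : IsCharacter K θ) (z : L) (hz : z ∈ Z)
    (h : indFun K θ z = indFun K θ 1) : θ ⟨z, hZK hz⟩ = θ 1 := by
  rw [ind_sum_eq K Z hZK θ z hz, ind_sum_eq K Z hZK θ 1 Z.one_mem] at h
  have hne : (Nat.card K : ℂ)⁻¹ ≠ 0 := inv_ne_zero (NeZero.ne _)
  have h1 := mul_left_cancel₀ hne h
  have e1 : ∀ g : L, θ ⟨g * 1 * g⁻¹, hK.conj_mem 1 (hZK Z.one_mem) g⟩ = θ 1 := by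
    intro g
    congr 1
    apply Subtype.ext
    simp
  rw [Finset.sum_congr rfl (fun g _ => e1 g)] at h1
  have h2 := congrArg Complex.re h1
  rw [Complex.re_sum, Complex.re_sum] at h2
  have hle : ∀ g ∈ (Finset.univ : Finset L),
      (θ ⟨g * z * g⁻¹, hK.conj_mem z (hZK hz) g⟩).re ≤ (θ 1).re := by
    intro g _
    exact (Complex.re_le_norm _).trans (isCharacter_norm_le hθ _)
  have h3 := (Finset.sum_eq_sum_iff_of_le hle).1 h2 1 (Finset.mem_univ _)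
  have e2 : (⟨1 * z * 1⁻¹, hK.conj_mem z (hZK hz) 1⟩ : K) = ⟨z, hZK hz⟩ := by
    apply Subtype.ext
    simp
  rw [e2] at h3
  have h4 : ‖θ ⟨z, hZK hz⟩‖ ≤ (θ ⟨z, hZK hz⟩).re := by
    rw [h3]; exact isCharacter_norm_le hθ _
  have h5 : (θ ⟨z, hZK hz⟩).re = ‖θ ⟨z, hZK hz⟩‖ := le_antisymm (Complex.re_le_norm _) h4
  have h6 : (θ ⟨z, hZK hz⟩).im = 0 := by
    have h := Complex.sq_norm (θ ⟨z, hZK hz⟩)
    rw [Complex.normSq_apply, ← h5] at h
    have h' : (θ ⟨z, hZK hz⟩).im * (θ ⟨z, hZK hz⟩).im = 0 := by nlinarith [h]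
    exact mul_self_eq_zero.1 h'
  obtain ⟨n, hn⟩ := isCharacter_one hθ
  apply Complex.ext
  · exact h3
  · rw [h6, hn]
    simp

theorem part_a (K : Subgroup L) [hK : K.Normal] (Z : Subgroup L) [hZ : Z.Normal] (hZK : Z ≤ K)
    (hirr : ∀ χ ∈ inducedIrrAbove K ⊥ \ inducedIrrAbove K Z, IsIrrCharacter L χ) :
    inducedIrrAbove K ⊥ \ inducedIrrAbove K Z =
      {χ | IsIrrCharacter L χ ∧ ∃ z ∈ Z, χ z ≠ χ 1} := by
  classical
  haveI : Fintype K := Fintype.ofFinite K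
  haveI : Fintype (IrrCharacter K) := Fintype.ofFinite _
  ext χ
  constructor
  · rintro ⟨hχS, hχZ⟩
    refine ⟨hirr χ ⟨hχS, hχZ⟩, ?_⟩
    by_contra hno
    push Not at hno
    obtain ⟨θ, hθne, -, rfl⟩ := (mem_inducedIrrAbove K ⊥ χ).1 hχS
    apply hχZ
    refine (mem_inducedIrrAbove K Z _).2 ⟨θ, hθne, ?_, rfl⟩
    intro a ha
    exact ind_ker K Z hZK θ.1 (isCharacter_of_isIrrCharacter θ.2) (a : L) ha (hno _ ha)
  · rintro ⟨hχirr, z₀, hz₀, hne⟩
    have hχchar := isCharacter_of_isIrrCharacter hχirr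
    have hres : IsCharacter K (fun k : K => χ k) := isCharacter_restrict K hχchar
    have hex : ∃ θ : IrrCharacter K, classInner (fun k : K => χ k) θ.1 ≠ 0 ∧
        θ.1 ⟨z₀, hZK hz₀⟩ ≠ θ.1 1 := by
      by_contra hno
      push Not at hno
      apply hne
      have h1 := classFunction_expansion_apply (isCharacter_conj_class hres)
        (⟨z₀, hZK hz₀⟩ : K)
      have h2 := classFunction_expansion_apply (isCharacter_conj_class hres) (1 : K)
      have h3 : χ z₀ = ∑ θ : IrrCharacter K,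
          classInner (fun k : K => χ k) θ.1 * θ.1 ⟨z₀, hZK hz₀⟩ := h1
      have h4 : χ 1 = ∑ θ : IrrCharacter K, classInner (fun k : K => χ k) θ.1 * θ.1 1 := h2
      rw [h3, h4]
      apply Finset.sum_congr rfl
      intro θ _
      by_cases h0 : classInner (fun k : K => χ k) θ.1 = 0
      · rw [h0, zero_mul, zero_mul]
      · rw [hno θ h0]
    obtain ⟨θ, hθin, hθz⟩ := hex
    have hθne : θ.1 ≠ fun _ => 1 := by
      intro h
      apply hθz
      rw [h]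
    have hφS : indFun K θ.1 ∈ inducedIrrAbove K ⊥ := ind_mem_bot K θ hθne
    have hφZ : indFun K θ.1 ∉ inducedIrrAbove K Z := by
      intro hmem
      obtain ⟨θ', -, hθ'Z, hEq⟩ := (mem_inducedIrrAbove K Z _).1 hmem
      apply hθz
      apply ind_ker K Z hZK θ.1 (isCharacter_of_isIrrCharacter θ.2) z₀ hz₀
      rw [hEq]
      exact ind_triv_on K Z hZK θ'.1 hθ'Z z₀ hz₀
    have hφirr := hirr _ ⟨hφS, hφZ⟩
    have hrec := frobenius_reciprocity K θ.1 (isCharacter_conj_class hχchar)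
    have hne2 : classInner (indFun K θ.1) χ ≠ 0 := by
      rw [hrec, classInner_conj_symm]
      intro h0
      apply hθin
      have := congrArg (starRingEnd ℂ) h0
      rwa [Complex.conj_conj, map_zero] at this
    have hEq : indFun K θ.1 = χ := by
      by_contra hneq
      apply hne2
      rw [classInner_irr_fun hφirr hχirr, if_neg hneq]
    rw [← hEq]
    exact ⟨hφS, hφZ⟩

theorem pg_arith {ι : Type*} (e p : ℕ) (hp : p.Prime) (h3 : 3 ≤ p) (hcop : Nat.Coprime e p)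
    (he : 0 < e) (X : Finset ι) (b dd : ι → ℕ) (hdd : ∀ φ ∈ X, dd φ = e * p ^ b φ) (A q : ℕ)
    (hsum : ∑ φ ∈ X, dd φ ^ 2 = e * A * q) (hA : ∀ φ ∈ X, p ^ (2 * b φ) ∣ A)
    (ψ : ι) (hψ : ψ ∈ X) (φ₀ : ι) (hφ₀ : φ₀ ∈ X) (hlt : dd φ₀ < dd ψ) :
    dd φ₀ ∣ dd ψ ∧ 2 * dd ψ * dd φ₀ < ∑ φ ∈ X.filter (fun φ => dd φ < dd ψ), dd φ ^ 2 := by
  classical
  have hpp : 0 < p := hp.pos
  have hb : b φ₀ < b ψ := by
    rw [hdd φ₀ hφ₀, hdd ψ hψ] at hlt
    have h1 := Nat.lt_of_mul_lt_mul_left hlt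
    exact (Nat.pow_lt_pow_iff_right hp.one_lt).1 h1
  have hdvd : dd φ₀ ∣ dd ψ := by
    rw [hdd φ₀ hφ₀, hdd ψ hψ]
    exact Nat.mul_dvd_mul_left _ (pow_dvd_pow p hb.le)
  refine ⟨hdvd, ?_⟩
  obtain ⟨D, hD⟩ : ∃ D, D = dd ψ := ⟨_, rfl⟩
  have hDe : D = e * p ^ b ψ := by rw [hD, hdd ψ hψ]
  have hsplit := Finset.sum_filter_add_sum_filter_not X (fun φ => dd φ < dd ψ)
    (fun φ => dd φ ^ 2)
  have hge : D ^ 2 ∣ ∑ φ ∈ X.filter (fun φ => ¬ dd φ < dd ψ), dd φ ^ 2 := by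
    apply Finset.dvd_sum
    intro φ hφ
    obtain ⟨hφX, hφge⟩ := Finset.mem_filter.1 hφ
    apply pow_dvd_pow_of_dvd
    rw [hDe, hdd φ hφX]
    apply Nat.mul_dvd_mul_left
    apply pow_dvd_pow
    by_contra hbb
    push Not at hbb
    apply hφge
    rw [hdd φ hφX, hdd ψ hψ]
    exact Nat.mul_lt_mul_of_pos_left (Nat.pow_lt_pow_right hp.one_lt hbb) he
  have hN : D ^ 2 ∣ e * A * q := by
    have h1 : e ^ 2 ∣ ∑ φ ∈ X, dd φ ^ 2 := by
      apply Finset.dvd_sum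
      intro φ hφ
      rw [hdd φ hφ, mul_pow]
      exact dvd_mul_right _ _
    rw [hsum] at h1
    have h2 : e ∣ A * q := by
      have h2' : e * e ∣ e * (A * q) := by rw [← sq, ← mul_assoc]; exact h1
      exact Nat.dvd_of_mul_dvd_mul_left he h2'
    obtain ⟨A', hA'⟩ := hA ψ hψ
    rw [hA', mul_assoc] at h2
    have h4 : e ∣ A' * q := (Nat.Coprime.pow_right _ hcop).dvd_of_dvd_mul_left h2
    obtain ⟨r, hr⟩ := h4
    refine ⟨r, ?_⟩
    rw [hDe, hA']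
    calc e * (p ^ (2 * b ψ) * A') * q = e * p ^ (2 * b ψ) * (A' * q) := by ring
      _ = e * p ^ (2 * b ψ) * (e * r) := by rw [hr]
      _ = (e * p ^ b ψ) ^ 2 * r := by ring
  rw [hsum] at hsplit
  have hlt_dvd : D ^ 2 ∣ ∑ φ ∈ X.filter (fun φ => dd φ < dd ψ), dd φ ^ 2 := by
    rw [← hsplit] at hN
    exact (Nat.dvd_add_left hge).1 hN
  have hd0 : 0 < dd φ₀ := by
    rw [hdd φ₀ hφ₀]; exact Nat.mul_pos he (pow_pos hpp _)
  have hpos : 0 < ∑ φ ∈ X.filter (fun φ => dd φ < dd ψ), dd φ ^ 2 := by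
    have hmem : φ₀ ∈ X.filter (fun φ => dd φ < dd ψ) := Finset.mem_filter.2 ⟨hφ₀, hlt⟩
    have h1 : dd φ₀ ^ 2 ≤ ∑ φ ∈ X.filter (fun φ => dd φ < dd ψ), dd φ ^ 2 :=
      Finset.single_le_sum (f := fun φ => dd φ ^ 2) (fun _ _ => Nat.zero_le _) hmem
    have h2 : 0 < dd φ₀ ^ 2 := pow_pos hd0 2
    omega
  have hle : D ^ 2 ≤ ∑ φ ∈ X.filter (fun φ => dd φ < dd ψ), dd φ ^ 2 :=
    Nat.le_of_dvd hpos hlt_dvd
  have h3d : 3 * dd φ₀ ≤ D := by
    rw [hDe, hdd φ₀ hφ₀]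
    have h1 : p ^ (b φ₀ + 1) ≤ p ^ b ψ := Nat.pow_le_pow_right hpp hb
    rw [pow_succ] at h1
    have h2 : 0 < p ^ b φ₀ := pow_pos hpp _
    calc 3 * (e * p ^ b φ₀) = e * (p ^ b φ₀ * 3) := by ring
      _ ≤ e * (p ^ b φ₀ * p) := Nat.mul_le_mul_left _ (Nat.mul_le_mul_left _ h3)
      _ ≤ e * p ^ b ψ := Nat.mul_le_mul_left _ h1
  have hDpos : 0 < D := by omega
  have h5 : D * (3 * dd φ₀) ≤ D * D := Nat.mul_le_mul_left D h3d
  have h6 : 0 < D * dd φ₀ := Nat.mul_pos hDpos hd0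
  rw [← hD] at hle ⊢
  nlinarith [h5, h6, hle]

theorem sum_sq_off (Z : Subgroup L) [Z.Normal] [Fintype (IrrCharacter L)]
    [DecidablePred (fun χ : IrrCharacter L => ∃ z ∈ Z, χ.1 z ≠ χ.1 1)] :
    ∑ χ ∈ Finset.univ.filter (fun χ : IrrCharacter L => ∃ z ∈ Z, χ.1 z ≠ χ.1 1),
      charDegree χ.1 ^ 2 + Z.index = Nat.card L := by
  classical
  have h1 := sum_sq_charDegree (G := L)
  have h2 := sum_sq_charDegree_infl (G := L) Z
  have h3 := Finset.sum_filter_add_sum_filter_not (Finset.univ : Finset (IrrCharacter L))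
    (fun χ => Z ≤ irrKer χ) (fun χ => charDegree χ.1 ^ 2)
  have hf : Finset.univ.filter (fun χ : IrrCharacter L => ¬ Z ≤ irrKer χ) =
      Finset.univ.filter (fun χ : IrrCharacter L => ∃ z ∈ Z, χ.1 z ≠ χ.1 1) := by
    ext χ
    simp only [Finset.mem_filter, Finset.mem_univ, true_and]
    constructor
    · intro h
      by_contra hno
      push Not at hno
      exact h (fun z hz => (mem_irrKer χ z).2 (hno z hz))
    · rintro ⟨z, hz, hne⟩ h
      exact hne ((mem_irrKer χ z).1 (h hz))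
  rw [hf, h2, h1] at h3
  omega

theorem exists_nontriv_on (Z : Subgroup L) [Z.Normal] (hZ1 : Z ≠ ⊥) :
    ∃ χ : IrrCharacter L, ∃ z ∈ Z, χ.1 z ≠ χ.1 1 := by
  classical
  haveI : Fintype (IrrCharacter L) := Fintype.ofFinite _
  by_contra hno
  push Not at hno
  have h := sum_sq_off Z
  rw [Finset.filter_false_of_mem (by
    intro χ _ hex
    obtain ⟨z, hz, hne⟩ := hex
    exact hne (hno χ z hz)), Finset.sum_empty, zero_add] at h
  have h2 := Subgroup.card_mul_index Z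
  rw [h] at h2
  have hpos : 0 < Nat.card L := Nat.card_pos
  have h3 : Nat.card Z = 1 := Nat.eq_of_mul_eq_mul_right hpos (by rw [one_mul]; exact h2)
  exact hZ1 (Subgroup.card_eq_one.1 h3)

theorem frob_index_dvd (K H₁ : Subgroup L) [hK : K.Normal] [H₁.Normal] (hH₁K : H₁ ≤ K)
    (hKH : ⁅K, K⁆ ≤ H₁)
    (hfrob : ∀ k ∈ K, k ∉ H₁ → ∀ x : L, x * k * x⁻¹ * k⁻¹ ∈ H₁ → x ∈ K) :
    K.index ∣ H₁.relIndex K - 1 := by
  obtain ⟨π, hπ⟩ : ∃ π : L →* L ⧸ H₁, π = QuotientGroup.mk' H₁ := ⟨_, rfl⟩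
  have hπs : Function.Surjective π := by rw [hπ]; exact QuotientGroup.mk'_surjective H₁
  have hker : π.ker = H₁ := by rw [hπ]; exact QuotientGroup.ker_mk' H₁
  haveI : (K.map π).Normal := hK.map π hπs
  have habQ : ∀ a ∈ K.map π, ∀ b ∈ K.map π, a * b = b * a := by
    rintro _ ⟨k, hk, rfl⟩ _ ⟨k', hk', rfl⟩
    rw [← map_mul, ← map_mul]
    have h1 : k * k' = ⁅k, k'⁆ * (k' * k) := by simp only [commutatorElement_def]; group
    have h2 : π ⁅k, k'⁆ = 1 := by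
      rw [← MonoidHom.mem_ker, hker]; exact hKH (Subgroup.commutator_mem_commutator hk hk')
    rw [h1, map_mul, h2, one_mul]
  have hfrQ : ∀ c ∈ K.map π, c ≠ 1 → ∀ g, g * c = c * g → g ∈ K.map π := by
    rintro _ ⟨k, hk, rfl⟩ hne g hg
    obtain ⟨x, rfl⟩ := hπs g
    refine ⟨x, ?_, rfl⟩
    apply hfrob k hk
    · intro hkH
      apply hne
      rw [← MonoidHom.mem_ker, hker]; exact hkH
    · rw [← hker, MonoidHom.mem_ker, map_mul, map_mul, map_mul, hg, map_inv, map_inv]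
      group
  have hidx : (K.map π).index = K.index :=
    Subgroup.index_map_eq K hπs (by rw [hker]; exact hH₁K)
  have hcardQ : Nat.card (K.map π) = H₁.relIndex K := by
    have h1 : Nat.card (K.map π) * (K.map π).index = Nat.card (L ⧸ H₁) :=
      Subgroup.card_mul_index _
    have h3 : H₁.relIndex K * K.index = H₁.index := Subgroup.relIndex_mul_index hH₁K
    have h4 : Nat.card (L ⧸ H₁) = H₁.index := (Subgroup.index_eq_card H₁).symm
    have h5 : K.index ≠ 0 := Subgroup.index_ne_zero_of_finite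
    rw [hidx, h4, ← h3] at h1
    exact Nat.eq_of_mul_eq_mul_right (Nat.pos_of_ne_zero h5) h1
  have hres := frob_dvd (K.map π) (K.map π) le_rfl habQ hfrQ
  rwa [hidx, hcardQ] at hres

theorem coherent_pgroup_case {G : Type v} [Group G] [Fintype G] (K : Subgroup L)
    [hK : K.Normal] (τ : (L → ℂ) → (G → ℂ)) (R : (L → ℂ) → Finset (G → ℂ))
    (hS : IsCoherenceSystem (inducedIrrAbove K ⊥) τ R)
    (Z : Subgroup L) [hZ : Z.Normal] (hZ1 : Z ≠ ⊥) (hZK : Z ≤ K)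
    (hZc : ∀ z ∈ Z, ∀ k ∈ K, z * k = k * z)
    (hirr : ∀ χ ∈ inducedIrrAbove K ⊥ \ inducedIrrAbove K Z, IsIrrCharacter L χ)
    (p m : ℕ) (hp : p.Prime) (h3 : 3 ≤ p) (hcard : Nat.card K = p ^ m)
    (hcop : Nat.Coprime K.index p) :
    IsCoherent (inducedIrrAbove K ⊥ \ inducedIrrAbove K Z) {1}ᶜ τ := by
  classical
  haveI : Fintype K := Fintype.ofFinite K
  haveI : Fintype (IrrCharacter K) := Fintype.ofFinite _
  haveI : Fintype (IrrCharacter L) := Fintype.ofFinite _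
  have hXeq := part_a K Z hZK hirr
  have hchar : ∀ φ ∈ inducedIrrAbove K ⊥, IsCharacter L φ := hS.isCharacter
  have hdex : ∀ φ : L → ℂ, ∃ m : ℕ, φ ∈ inducedIrrAbove K ⊥ → φ 1 = (m : ℂ) := by
    intro φ
    by_cases h : φ ∈ inducedIrrAbove K ⊥
    · obtain ⟨m, hm⟩ := isCharacter_one (hchar φ h)
      exact ⟨m, fun _ => hm⟩
    · exact ⟨0, fun h' => absurd h' h⟩
  choose d hd using hdex
  have hnex : ∀ φ : L → ℂ, ∃ m : ℕ, φ ∈ inducedIrrAbove K ⊥ → classInner φ φ = (m : ℂ) := by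
    intro φ
    by_cases h : φ ∈ inducedIrrAbove K ⊥
    · obtain ⟨m, hm⟩ := isCharacter_inner_nat (hchar φ h) (hchar φ h)
      exact ⟨m, fun _ => hm⟩
    · exact ⟨0, fun h' => absurd h' h⟩
  choose n hn using hnex
  obtain ⟨XF, hXFdef⟩ : ∃ XF : Finset (L → ℂ), XF = (Finset.univ.filter
      (fun χ : IrrCharacter L => ∃ z ∈ Z, χ.1 z ≠ χ.1 1)).image (fun χ => χ.1) := ⟨_, rfl⟩
  have hXFmem : ∀ φ, φ ∈ XF ↔ φ ∈ inducedIrrAbove K ⊥ \ inducedIrrAbove K Z := by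
    intro φ
    rw [hXeq, hXFdef, Finset.mem_image]
    constructor
    · rintro ⟨χ, hχ, rfl⟩
      exact ⟨χ.2, (Finset.mem_filter.1 hχ).2⟩
    · rintro ⟨h1, h2⟩
      exact ⟨⟨φ, h1⟩, Finset.mem_filter.2 ⟨Finset.mem_univ _, h2⟩, rfl⟩
  have hcoe : (↑XF : Set (L → ℂ)) = inducedIrrAbove K ⊥ \ inducedIrrAbove K Z := by
    ext φ
    rw [Finset.mem_coe]
    exact hXFmem φ
  rw [← hcoe]
  have hXS : (↑XF : Set (L → ℂ)) ⊆ inducedIrrAbove K ⊥ := by
    rw [hcoe]; exact Set.sdiff_subset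
  have hXc : ∀ φ ∈ XF, Cfsg.conjFun φ ∈ XF := by
    intro φ hφ
    rw [hXFmem] at hφ ⊢
    refine ⟨conj_mem_inducedIrrAbove K ⊥ hφ.1, fun h => hφ.2 ?_⟩
    have h' := conj_mem_inducedIrrAbove K Z h
    rwa [conj_conj_fun] at h'
  have hXne : XF.Nonempty := by
    obtain ⟨χ, hχ⟩ := exists_nontriv_on Z hZ1
    refine ⟨χ.1, ?_⟩
    rw [hXFdef]
    exact Finset.mem_image_of_mem _ (Finset.mem_filter.2 ⟨Finset.mem_univ _, hχ⟩)
  have hirrX : ∀ φ ∈ XF, IsIrrCharacter L φ := fun φ hφ => hirr φ ((hXFmem φ).1 hφ)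
  have hn1 : ∀ φ ∈ XF, n φ = 1 := by
    intro φ hφ
    have h1 := hn φ (hXS (Finset.mem_coe.2 hφ))
    rw [isIrrCharacter_inner_self (hirrX φ hφ)] at h1
    exact_mod_cast h1.symm
  have hZdvd : Nat.card Z ∣ p ^ m := by
    rw [← hcard]; exact Subgroup.card_dvd_of_le hZK
  obtain ⟨j, hjm, hj⟩ := (Nat.dvd_prime_pow hp).1 hZdvd
  have hbex : ∀ φ : L → ℂ, ∃ b : ℕ, φ ∈ XF →
      d φ = K.index * p ^ b ∧ p ^ (2 * b) ∣ p ^ (m - j) := by
    intro φ
    by_cases hφ : φ ∈ XF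
    · have hφ' := (hXFmem φ).1 hφ
      obtain ⟨θ, hθne, -, rfl⟩ := (mem_inducedIrrAbove K ⊥ φ).1 hφ'.1
      obtain ⟨dθ, hdθ1, hdθ2⟩ := irr_degree_dvd_card θ
      have hdθ : charDegree θ.1 = dθ := by
        have h1 := charDegree_cast θ
        rw [hdθ1] at h1
        exact_mod_cast h1
      rw [hcard] at hdθ2
      obtain ⟨b, -, hb⟩ := (Nat.dvd_prime_pow hp).1 hdθ2
      refine ⟨b, fun _ => ⟨?_, ?_⟩⟩
      · rw [deg_ind (G := G) K d hd θ hθne, hdθ, hb]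
      · have hbound := deg_sq_bound θ ⊤ (Z.subgroupOf K) le_top (by
          intro dd hdd c _
          have h1 : dd * c * dd⁻¹ * c⁻¹ = 1 := by
            apply Subtype.ext
            simp only [Subgroup.coe_mul, Subgroup.coe_inv, Subgroup.coe_one]
            rw [hZc _ (Subgroup.mem_subgroupOf.1 hdd) _ c.2]
            group
          rw [h1])
        rw [Subgroup.index_top, one_pow, one_mul, Subgroup.card_top, hcard, hdθ, hb,
          Nat.card_congr (Subgroup.subgroupOfEquivOfLe hZK).toEquiv, hj, ← pow_mul,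
          ← pow_add] at hbound
        have hle : b * 2 + j ≤ m := (Nat.pow_le_pow_iff_right hp.one_lt).1 hbound
        apply pow_dvd_pow
        omega
    · exact ⟨0, fun h => absurd h hφ⟩
  choose b hb using hbex
  have hepos : 0 < K.index := Nat.pos_of_ne_zero Subgroup.index_ne_zero_of_finite
  have hsum : ∑ φ ∈ XF, d φ ^ 2 = K.index * p ^ (m - j) * (p ^ j - 1) := by
    have h1 : ∑ φ ∈ XF, d φ ^ 2 = ∑ χ ∈ Finset.univ.filter
        (fun χ : IrrCharacter L => ∃ z ∈ Z, χ.1 z ≠ χ.1 1), charDegree χ.1 ^ 2 := by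
      rw [hXFdef, Finset.sum_image (fun a _ b _ hab => Subtype.ext hab)]
      apply Finset.sum_congr rfl
      intro χ hχ
      have hmem : χ.1 ∈ XF := by
        rw [hXFdef]; exact Finset.mem_image_of_mem _ hχ
      have h2 := hd χ.1 (hXS (Finset.mem_coe.2 hmem))
      rw [← charDegree_cast χ] at h2
      have h3 : charDegree χ.1 = d χ.1 := by exact_mod_cast h2
      rw [h3]
    have h2 := sum_sq_off Z
    rw [← h1] at h2
    have h3 : Nat.card K * K.index = Nat.card L := Subgroup.card_mul_index K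
    have h4 : Nat.card Z * Z.index = Nat.card L := Subgroup.card_mul_index Z
    rw [hcard] at h3
    rw [hj, ← h3] at h4
    have h5 : p ^ m = p ^ j * p ^ (m - j) := by
      rw [← pow_add]; congr 1; omega
    have h6 : Z.index = p ^ (m - j) * K.index := by
      rw [h5, mul_assoc] at h4
      exact Nat.eq_of_mul_eq_mul_left (pow_pos hp.pos j) h4
    have h7 : 1 ≤ p ^ j := Nat.one_le_pow _ _ hp.pos
    obtain ⟨t, ht⟩ : ∃ t, p ^ j = t + 1 := ⟨p ^ j - 1, by omega⟩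
    rw [ht, Nat.add_sub_cancel]
    rw [← h3, h5, ht, h6] at h2
    nlinarith [h2]
  apply chain_coherent (inducedIrrAbove K ⊥) τ R hS d n hd hn XF hXS hXc hXne
  intro ψ hψ φ₀ hφ₀ hlt
  obtain ⟨hdvd, hineq⟩ := pg_arith K.index p hp h3 hcop hepos XF b d
    (fun φ hφ => (hb φ hφ).1) (p ^ (m - j)) (p ^ j - 1) hsum (fun φ hφ => (hb φ hφ).2)
    ψ hψ φ₀ hφ₀ hlt
  refine ⟨φ₀, hφ₀, hlt, hdvd, ?_⟩
  have hcast : ∑ φ ∈ XF.filter (fun φ => d φ < d ψ), ((d φ : ℝ) ^ 2 / (n φ : ℝ)) =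
      ((∑ φ ∈ XF.filter (fun φ => d φ < d ψ), d φ ^ 2 : ℕ) : ℝ) := by
    push_cast
    apply Finset.sum_congr rfl
    intro φ hφ
    rw [hn1 φ (Finset.mem_filter.1 hφ).1]
    simp
  rw [hcast]
  exact_mod_cast hineq

theorem coherent_off_center {G : Type v} [Group G] [Fintype G] (K : Subgroup L)
    [hK : K.Normal] (hsolv : Group.IsSolvable K) (τ : (L → ℂ) → (G → ℂ))
    (R : (L → ℂ) → Finset (G → ℂ)) (hS : IsCoherenceSystem (inducedIrrAbove K ⊥) τ R)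
    (hodd : Odd (Nat.card L)) (hnil : Group.IsNilpotent K) (hH₁K : ⁅K, K⁆ < K)
    (hfrob : ∀ k ∈ K, k ∉ ⁅K, K⁆ → ∀ x : L, x * k * x⁻¹ * k⁻¹ ∈ ⁅K, K⁆ → x ∈ K)
    (Z : Subgroup L) [Z.Normal] (hZ1 : Z ≠ ⊥) (hZK : Z ≤ K)
    (hZc : ∀ z ∈ Z, ∀ k ∈ K, z * k = k * z)
    (hirr : ∀ χ ∈ inducedIrrAbove K ⊥ \ inducedIrrAbove K Z, IsIrrCharacter L χ) :
    IsCoherent (inducedIrrAbove K ⊥ \ inducedIrrAbove K Z) {1}ᶜ τ := by
  classical
  obtain ⟨c, hc⟩ := (Subgroup.isNilpotent_iff_lowerCentralSeries K).1 hnil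
  by_cases hpp : ∃ p m : ℕ, p.Prime ∧ (⊥ : Subgroup L).relIndex K = p ^ m
  · obtain ⟨p, m, hp, hpm⟩ := hpp
    rw [Subgroup.relIndex_bot_left] at hpm
    have hK1 : K ≠ ⊥ := by
      intro h
      rw [h] at hH₁K
      exact not_lt_bot hH₁K
    have hcardK : 1 < Nat.card K := (Subgroup.one_lt_card_iff_ne_bot K).2 hK1
    have hm0 : m ≠ 0 := by
      intro h0
      rw [h0, pow_zero] at hpm
      omega
    have hpK : p ∣ Nat.card K := by rw [hpm]; exact dvd_pow_self p hm0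
    have hpodd : Odd p := Odd.of_dvd_nat hodd (hpK.trans (Subgroup.card_subgroup_dvd_card K))
    have h3 : 3 ≤ p := by
      have h2 := hp.two_le
      rcases hpodd with ⟨t, ht⟩
      omega
    have hdvd := frob_index_dvd K ⁅K, K⁆ hH₁K.le le_rfl hfrob
    have hrd : (⁅K, K⁆ : Subgroup L).relIndex K ∣ p ^ m := by
      rw [← hpm]; exact Subgroup.index_dvd_card ((⁅K, K⁆ : Subgroup L).subgroupOf K)
    obtain ⟨a, -, ha⟩ := (Nat.dvd_prime_pow hp).1 hrd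
    have ha0 : a ≠ 0 := by
      intro h0
      rw [h0, pow_zero, Subgroup.relIndex_eq_one] at ha
      exact absurd ha (not_le_of_gt hH₁K)
    have hcop : Nat.Coprime K.index p := by
      rw [Nat.coprime_comm, Nat.Prime.coprime_iff_not_dvd hp]
      intro hpe
      have h1 : p ∣ (⁅K, K⁆ : Subgroup L).relIndex K - 1 := hpe.trans hdvd
      rw [ha] at h1
      have h2 : p ∣ p ^ a := dvd_pow_self p ha0
      have h4 : 1 ≤ p ^ a := Nat.one_le_pow _ _ hp.pos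
      have h5 : p ∣ 1 := by
        have h6 : p ^ a = (p ^ a - 1) + 1 := by omega
        rw [h6] at h2
        exact (Nat.dvd_add_right h1).1 h2
      exact hp.one_lt.ne' (Nat.dvd_one.1 h5)
    exact coherent_pgroup_case K τ R hS Z hZ1 hZK hZc hirr p m hp h3 hpm hcop
  · have hScoh := coherent_frobenius_quot K hsolv τ R hS hodd ⊥ bot_le c hc.le ⁅K, K⁆
      (sup_bot_eq _).symm hH₁K hfrob (Or.inr (Or.inr (Or.inl hpp)))
    refine subset_coherent hScoh Set.sdiff_subset ?_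
    haveI : Fintype (IrrCharacter L) := Fintype.ofFinite _
    obtain ⟨χ, hχ⟩ := exists_nontriv_on Z hZ1
    have hXeq := part_a K Z hZK hirr
    have hχX : χ.1 ∈ inducedIrrAbove K ⊥ \ inducedIrrAbove K Z := by
      rw [hXeq]; exact ⟨χ.2, hχ⟩
    have hχc : Cfsg.conjFun χ.1 ∈ inducedIrrAbove K ⊥ \ inducedIrrAbove K Z := by
      refine ⟨conj_mem_inducedIrrAbove K ⊥ hχX.1, fun h => hχX.2 ?_⟩
      have h' := conj_mem_inducedIrrAbove K Z h
      rwa [conj_conj_fun] at h'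
    refine ⟨χ.1 - Cfsg.conjFun χ.1, ⟨?_, ?_⟩, ?_⟩
    · exact Submodule.sub_mem _ (Submodule.subset_span hχX) (Submodule.subset_span hχc)
    · intro x hx
      have hx1 : x = 1 := by
        by_contra hne
        exact hx hne
      rw [hx1]
      obtain ⟨k, hk⟩ := isCharacter_one (hS.isCharacter _ hχX.1)
      show χ.1 1 - starRingEnd ℂ (χ.1 1) = 0
      rw [hk, map_natCast, sub_self]
    · exact sub_ne_zero.2 (hS.conj_ne _ hχX.1).symm

end sixsix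

end Cfsg.Agent.Lib.helper22.Coh
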