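import Cfsg.Agent.Lib.helper22.CohJ
import Cfsg.Agent.Lib.helper22.CohK
import Cfsg.Agent.Lib.helper24.CharInd
import Cfsg.Agent.Lib.helper24.CharBrauer7
import Cfsg.Agent.Lib.helper24.CharClifford
import Cfsg.Agent.Lib.helper24.CharNormal
import Cfsg.Agent.Lib.helper23.BlockCentralizer
import Cfsg.Agent.S1514

set_option autoImplicit false

namespace Cfsg.Agent.Lib.helper22.Coh

open Cfsg
open Cfsg.Agent.Lib.helper24
open scoped ComplexConjugate
open scoped commutatorElement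

universe u

section ti

variable {G : Type u} [Group G] [Fintype G]

theorem ti_coherence_system (P : Subgroup G) (hTI : IsTISubset (P : Set G))
    [Fintype ↥(Subgroup.normalizer (P : Set G))]
    (S : Set (↥(Subgroup.normalizer (P : Set G)) → ℂ)) (hne : S.Nonempty)
    (hirr : ∀ χ ∈ S, IsIrrCharacter ↥(Subgroup.normalizer (P : Set G)) χ)
    (hconj : ∀ χ ∈ S, Cfsg.conjFun χ ∈ S ∧ Cfsg.conjFun χ ≠ χ)
    (hsupp : ∀ χ ∈ S, ∀ x : ↥(Subgroup.normalizer (P : Set G)), (x : G) ∉ P → χ x = 0) :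
    ∃ R : (↥(Subgroup.normalizer (P : Set G)) → ℂ) → Finset (G → ℂ),
      IsCoherenceSystem S (fun α => indFun (Subgroup.normalizer (P : Set G)) α) R := by
  have key : ∀ α ∈ zspan S, IsClassFunction ↥(Subgroup.normalizer (P : Set G)) α ∧
      (∀ x : ↥(Subgroup.normalizer (P : Set G)), (x : G) ∉ P → α x = 0) ∧
      IsGeneralizedCharacter G (indFun (Subgroup.normalizer (P : Set G)) α) := by
    intro α hα
    refine Submodule.span_induction (p := fun α _ =>
      IsClassFunction ↥(Subgroup.normalizer (P : Set G)) α ∧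
      (∀ x : ↥(Subgroup.normalizer (P : Set G)), (x : G) ∉ P → α x = 0) ∧
      IsGeneralizedCharacter G (indFun (Subgroup.normalizer (P : Set G)) α)) ?_ ?_ ?_ ?_ hα
    · intro χ hχ
      have hc := isCharacter_of_isIrrCharacter (hirr χ hχ)
      exact ⟨isCharacter_conj_class hc, hsupp χ hχ,
        genChar_of_character (isCharacter_indFun _ hc)⟩
    · refine ⟨fun g h => rfl, fun x _ => rfl, ?_⟩
      rw [indFun_zero]
      exact genChar_zero
    · intro a b _ _ ha hb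
      refine ⟨fun g h => ?_, fun x hx => ?_, ?_⟩
      · show a _ + b _ = a _ + b _
        rw [ha.1 g h, hb.1 g h]
      · show a x + b x = 0
        rw [ha.2.1 x hx, hb.2.1 x hx, add_zero]
      · rw [indFun_add]
        exact genChar_add ha.2.2 hb.2.2
    · intro n a _ ha
      refine ⟨fun g h => ?_, fun x hx => ?_, ?_⟩
      · show n • a _ = n • a _
        rw [ha.1 g h]
      · show n • a x = 0
        rw [ha.2.1 x hx, smul_zero]
      · rw [← Int.cast_smul_eq_zsmul ℂ n a, indFun_smul]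
        exact genChar_zsmul n ha.2.2
  apply Cfsg.Agent.S1514.result S hne hirr hconj
  · refine ⟨fun α _ β _ => indFun_add _ α β, fun α _ n => ?_, fun α hα β hβ => ?_,
      fun α hα => (key α hα.1).2.2⟩
    · show indFun _ (n • α) = n • indFun _ α
      rw [← Int.cast_smul_eq_zsmul ℂ n α, indFun_smul, Int.cast_smul_eq_zsmul]
    · have hα' := key α hα.1
      have hβ' := key β hβ.1
      exact indFun_isometry_on_ti (P : Set G) hTI α β hβ'.1 hα'.2.1 hβ'.2.1
        (hα.2 1 (by simp))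
  · intro α hα
    show indFun _ α 1 = 0
    rw [indFun_one, hα.2 1 (by simp), mul_zero]

theorem frob_ind_irr {L : Type u} [Group L] [Fintype L] (K : Subgroup L) [hK : K.Normal]
    (hC : ∀ k ∈ K, k ≠ 1 → ∀ x : L, x * k = k * x → x ∈ K)
    (hcop : Nat.Coprime (Nat.card K) K.index) (θ : K → ℂ) (hθ : IsIrrCharacter K θ)
    (hθ1 : θ ≠ fun _ => 1) : IsIrrCharacter L (indFun K θ) := by
  obtain ⟨H, hH⟩ := Subgroup.exists_right_complement'_of_coprime hcop
  refine frobenius_induced_irr K H hH.sup_eq_top ?_ hθ hθ1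
  intro h hh h1 k hk hcomm
  by_contra hk1
  have h2 : h ∈ K := hC k hk hk1 h hcomm
  have h3 : h ∈ K ⊓ H := Subgroup.mem_inf.2 ⟨h2, hh⟩
  rw [hH.disjoint.eq_bot] at h3
  exact h1 (Subgroup.mem_bot.1 h3)

theorem tifn_coherent (P : Subgroup G) (p m : ℕ) (hp : p.Prime) (hp2 : p ≠ 2)
    (hcard : Nat.card P = p ^ m)
    [Fintype ↥(Subgroup.normalizer (P : Set G))]
    (hcop : Nat.Coprime (P.subgroupOf (Subgroup.normalizer (P : Set G))).index p)
    (hna : ¬ ∀ a ∈ P, ∀ b ∈ P, a * b = b * a)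
    (hTI : IsTISubset (P : Set G))
    (hC : ∀ k ∈ P, k ≠ 1 → Subgroup.centralizer ({k} : Set G) ≤ P)
    (Z : Subgroup G) (hZ1 : Z ≠ ⊥)
    (hZP : ∀ z ∈ Z, z ∈ P ∧ ∀ y ∈ P, z * y = y * z)
    (hZn : ∀ x ∈ Subgroup.normalizer (P : Set G), ∀ z ∈ Z, x * z * x⁻¹ ∈ Z) :
    IsCoherent {χ : ↥(Subgroup.normalizer (P : Set G)) → ℂ |
      IsIrrCharacter ↥(Subgroup.normalizer (P : Set G)) χ ∧
      ∃ z : ↥(Subgroup.normalizer (P : Set G)), (z : G) ∈ Z ∧ χ z ≠ χ 1} {1}ᶜ
      (fun α => indFun (Subgroup.normalizer (P : Set G)) α) := by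
  classical
  obtain ⟨K, hKdef⟩ : ∃ K : Subgroup ↥(Subgroup.normalizer (P : Set G)),
      K = P.subgroupOf (Subgroup.normalizer (P : Set G)) := ⟨_, rfl⟩
  haveI hKn : K.Normal := by rw [hKdef]; exact Subgroup.normal_in_normalizer
  have hPN : P ≤ Subgroup.normalizer (P : Set G) := Subgroup.le_normalizer
  have hmemK : ∀ x : ↥(Subgroup.normalizer (P : Set G)), x ∈ K ↔ (x : G) ∈ P := by
    intro x; rw [hKdef]; exact Subgroup.mem_subgroupOf
  have hcardK : Nat.card K = p ^ m := by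
    rw [hKdef, ← hcard]
    exact Nat.card_congr (Subgroup.subgroupOfEquivOfLe hPN).toEquiv
  have hcopK : Nat.Coprime K.index p := by rw [hKdef]; exact hcop
  have hCK : ∀ k ∈ K, k ≠ 1 →
      ∀ x : ↥(Subgroup.normalizer (P : Set G)), x * k = k * x → x ∈ K := by
    intro k hk hk1 x hx
    rw [hmemK] at hk ⊢
    apply hC (k : G) hk (fun h => hk1 (Subtype.ext h))
    rw [Subgroup.mem_centralizer_iff]
    intro y hy
    rw [Set.mem_singleton_iff] at hy
    rw [hy]
    have h1 := congrArg Subtype.val hx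
    simpa using h1.symm
  have hnaK : ¬ ∀ a ∈ K, ∀ b ∈ K, a * b = b * a := by
    intro h
    apply hna
    intro a ha b hb
    have h1 := h ⟨a, hPN ha⟩ ((hmemK _).2 ha) ⟨b, hPN hb⟩ ((hmemK _).2 hb)
    exact congrArg Subtype.val h1
  have hpodd : Odd p := hp.eq_two_or_odd'.resolve_left hp2
  have hKodd : Odd (Nat.card K) := by rw [hcardK]; exact hpodd.pow
  have hidxodd : Odd K.index := frob_index_odd K hCK hKodd hnaK
  have hodd : Odd (Nat.card ↥(Subgroup.normalizer (P : Set G))) := by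
    rw [← Subgroup.card_mul_index K]; exact hKodd.mul hidxodd
  haveI : Fact p.Prime := ⟨hp⟩
  have hPG : IsPGroup p ↥K := IsPGroup.of_card hcardK
  have hnil : Group.IsNilpotent ↥K := hPG.isNilpotent
  have hsolv : Group.IsSolvable ↥K := by
    haveI := hnil
    infer_instance
  have hK1 : K ≠ ⊥ := by
    intro h
    apply hnaK
    intro a ha b hb
    rw [h, Subgroup.mem_bot] at ha hb
    rw [ha, hb]
  have hH₁K : ⁅K, K⁆ < K := by
    refine lt_of_le_of_ne (Subgroup.commutator_le_left K K) ?_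
    intro hEq
    haveI : Nontrivial ↥K := (Subgroup.nontrivial_iff_ne_bot K).2 hK1
    haveI := hsolv
    have h1 := Group.IsSolvable.commutator_lt_top_of_nontrivial ↥K
    have h2 : (commutator ↥K).map K.subtype = ⁅K, K⁆ := Subgroup.map_subtype_commutator K
    rw [hEq] at h2
    have h3 : (commutator ↥K).map K.subtype = (⊤ : Subgroup ↥K).map K.subtype := by
      rw [h2, ← MonoidHom.range_eq_map, Subgroup.range_subtype]
    have h4 := Subgroup.map_injective K.subtype_injective h3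
    exact h1.ne h4
  have hfrob := frob_quot_fpf K ⁅K, K⁆ (Subgroup.commutator_le_left K K) hCK p m hp hcardK hcopK
  have hcop' : Nat.Coprime (Nat.card K) K.index := by
    rw [hcardK]; exact (Nat.Coprime.pow_right m hcopK).symm
  have hirrS : ∀ χ ∈ inducedIrrAbove K ⊥,
      IsIrrCharacter ↥(Subgroup.normalizer (P : Set G)) χ := by
    intro χ hχ
    obtain ⟨θ, hθne, -, rfl⟩ := (mem_inducedIrrAbove K ⊥ χ).1 hχ
    exact frob_ind_irr K hCK hcop' θ.1 θ.2 hθne
  have hneS : (inducedIrrAbove K ⊥).Nonempty := by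
    obtain ⟨θ, hθne, -, -⟩ := exists_linear_irr K ⊥ hsolv (bot_lt_iff_ne_bot.2 hK1)
    exact ⟨_, ind_mem_bot K θ hθne⟩
  have hconjS : ∀ χ ∈ inducedIrrAbove K ⊥,
      Cfsg.conjFun χ ∈ inducedIrrAbove K ⊥ ∧ Cfsg.conjFun χ ≠ χ := by
    intro χ hχ
    refine ⟨conj_mem_inducedIrrAbove K ⊥ hχ, ?_⟩
    have hχirr := hirrS χ hχ
    obtain ⟨θ, hθne, -, rfl⟩ := (mem_inducedIrrAbove K ⊥ χ).1 hχ
    intro hEq
    have h1 := inner_conj_indFun_of_odd hodd K θ.2 hθne
    have h2 : (fun g => conj (indFun K θ.1 g)) = indFun K θ.1 := hEq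
    rw [h2, isIrrCharacter_inner_self hχirr] at h1
    exact one_ne_zero h1
  have hsuppS : ∀ χ ∈ inducedIrrAbove K ⊥,
      ∀ x : ↥(Subgroup.normalizer (P : Set G)), (x : G) ∉ P → χ x = 0 := by
    intro χ hχ x hx
    obtain ⟨θ, -, -, rfl⟩ := (mem_inducedIrrAbove K ⊥ χ).1 hχ
    exact Cfsg.Agent.Lib.helper23.indFun_eq_zero_of_not_mem K θ.1
      (fun h => hx ((hmemK x).1 h))
  obtain ⟨R, hR⟩ := ti_coherence_system P hTI (inducedIrrAbove K ⊥) hneS hirrS hconjS hsuppS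
  obtain ⟨Z', hZ'def⟩ : ∃ Z' : Subgroup ↥(Subgroup.normalizer (P : Set G)),
      Z' = Z.subgroupOf (Subgroup.normalizer (P : Set G)) := ⟨_, rfl⟩
  have hmemZ : ∀ x : ↥(Subgroup.normalizer (P : Set G)), x ∈ Z' ↔ (x : G) ∈ Z := by
    intro x; rw [hZ'def]; exact Subgroup.mem_subgroupOf
  haveI hZ'n : Z'.Normal := by
    refine ⟨fun z hz x => ?_⟩
    rw [hmemZ] at hz ⊢
    exact hZn x x.2 z hz
  have hZ'1 : Z' ≠ ⊥ := by
    intro h
    apply hZ1
    rw [Subgroup.eq_bot_iff_forall]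
    intro z hz
    have h1 : (⟨z, hPN (hZP z hz).1⟩ : ↥(Subgroup.normalizer (P : Set G))) ∈ Z' :=
      (hmemZ _).2 hz
    rw [h, Subgroup.mem_bot] at h1
    exact congrArg Subtype.val h1
  have hZ'K : Z' ≤ K := by
    intro z hz
    rw [hmemK]
    rw [hmemZ] at hz
    exact (hZP _ hz).1
  have hZ'c : ∀ z ∈ Z', ∀ k ∈ K, z * k = k * z := by
    intro z hz k hk
    rw [hmemZ] at hz
    rw [hmemK] at hk
    exact Subtype.ext ((hZP _ hz).2 _ hk)
  have hirrX : ∀ χ ∈ inducedIrrAbove K ⊥ \ inducedIrrAbove K Z',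
      IsIrrCharacter ↥(Subgroup.normalizer (P : Set G)) χ := fun χ hχ => hirrS χ hχ.1
  have hcoh := coherent_off_center K hsolv _ R hR hodd hnil hH₁K hfrob Z' hZ'1 hZ'K hZ'c hirrX
  have hXeq := part_a K Z' hZ'K hirrX
  rw [hXeq] at hcoh
  have hset : {χ : ↥(Subgroup.normalizer (P : Set G)) → ℂ |
      IsIrrCharacter ↥(Subgroup.normalizer (P : Set G)) χ ∧
      ∃ z : ↥(Subgroup.normalizer (P : Set G)), (z : G) ∈ Z ∧ χ z ≠ χ 1} =
      {χ | IsIrrCharacter ↥(Subgroup.normalizer (P : Set G)) χ ∧ ∃ z ∈ Z', χ z ≠ χ 1} := by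
    ext χ
    constructor
    · rintro ⟨h1, z, hz, hne⟩
      exact ⟨h1, z, (hmemZ z).2 hz, hne⟩
    · rintro ⟨h1, z, hz, hne⟩
      exact ⟨h1, z, (hmemZ z).1 hz, hne⟩
  rw [hset]
  exact hcoh

end ti

end Cfsg.Agent.Lib.helper22.Coh
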