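import Cfsg.Agent.Lib.helper24.Dade2
import Cfsg.Agent.Lib.helper24.CharBrauer8
import Cfsg.Agent.Lib.helper23.PTrunc

set_option autoImplicit false

namespace Cfsg.Agent.Lib.helper22.DadeA

open Cfsg
open Cfsg.Agent.Lib.helper24

universe u

variable {G : Type u} [Group G] {A : Set G} {L : Subgroup G} {H : G → Subgroup G}

theorem conj_mem_iff (hD : DadeHypothesis A L H) {l : G} (hl : l ∈ L) (y : G) :
    y ∈ A ↔ l * y * l⁻¹ ∈ A := by
  constructor
  · intro hy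
    exact hD.conj_mem l hl y hy
  · intro hy
    have := hD.conj_mem l⁻¹ (Subgroup.inv_mem _ hl) _ hy
    have e : l⁻¹ * (l * y * l⁻¹) * l⁻¹⁻¹ = y := by group
    rwa [e] at this

theorem conj_mem_iff' (hD : DadeHypothesis A L H) {l : G} (hl : l ∈ L) (y : G) :
    y ∈ A ↔ l⁻¹ * y * l ∈ A := by
  have := conj_mem_iff hD (Subgroup.inv_mem _ hl) y
  rwa [inv_inv] at this

theorem mem_H_of_coprime [Finite G] (hD : DadeHypothesis A L H) {a : G} (ha : a ∈ A) {c : G}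
    (hc : c ∈ Subgroup.centralizer ({a} : Set G))
    (hcop : Nat.Coprime (orderOf c) (Nat.card ↥(L ⊓ Subgroup.centralizer ({a} : Set G)))) :
    c ∈ H a := by
  obtain ⟨c', hc', h, hh, hvc⟩ := dade_decomp hD ha hc
  have hpow : ∀ k : ℕ, ∃ h' ∈ H a, (c' * h) ^ k = c' ^ k * h' := by
    intro k
    induction k with
    | zero => exact ⟨1, Subgroup.one_mem _, by simp⟩
    | succ k ih =>
      obtain ⟨h', hh', e⟩ := ih
      refine ⟨c'⁻¹ * h' * c'⁻¹⁻¹ * h, Subgroup.mul_mem _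
        (hD.conj_mem_H _ ha c'⁻¹ (Subgroup.inv_mem _ hc'.2) h' hh') hh, ?_⟩
      rw [pow_succ, e, pow_succ]; group
  obtain ⟨h', hh', e⟩ := hpow (orderOf c)
  have h1 : c' ^ orderOf c * h' = 1 := by rw [← e, ← hvc, pow_orderOf_eq_one]
  have hcm : c' ^ orderOf c ∈ H a ⊓ (L ⊓ Subgroup.centralizer ({a} : Set G)) := by
    refine ⟨?_, Subgroup.pow_mem _ hc' _⟩
    have : c' ^ orderOf c = h'⁻¹ := eq_inv_of_mul_eq_one_left h1
    show c' ^ orderOf c ∈ H a
    rw [this]; exact Subgroup.inv_mem _ hh'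
  rw [hD.inf_eq_bot _ ha, Subgroup.mem_bot] at hcm
  have hcn : c' ^ Nat.card ↥(L ⊓ Subgroup.centralizer ({a} : Set G)) = 1 := by
    have := pow_eq_of_modEq_card hc' (Nat.modEq_zero_iff_dvd.mpr (dvd_refl
      (Nat.card ↥(L ⊓ Subgroup.centralizer ({a} : Set G)))))
    rwa [pow_zero] at this
  have hc1 : c' = 1 := by
    have h1 := orderOf_dvd_of_pow_eq_one hcm
    have h2 := orderOf_dvd_of_pow_eq_one hcn
    have h3 := Nat.dvd_gcd h1 h2
    rw [hcop.gcd_eq_one, Nat.dvd_one] at h3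
    exact orderOf_eq_one_iff.mp h3
  rw [hvc, hc1, one_mul]; exact hh

theorem mem_centralizer_singleton {a c : G} :
    c ∈ Subgroup.centralizer ({a} : Set G) ↔ a * c = c * a := by
  rw [Subgroup.mem_centralizer_iff]
  constructor
  · intro h
    exact h a rfl
  · intro h x hx
    rw [Set.mem_singleton_iff] at hx
    rw [hx]; exact h

theorem mem_H_of_mem_H [Finite G] (hD : DadeHypothesis A L H) {a b : G} (ha : a ∈ A)
    (hb : b ∈ A) {u : G} (hu : u ∈ H b) (hc : a * u = u * a) : u ∈ H a := by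
  apply mem_H_of_coprime hD ha (mem_centralizer_singleton.2 hc)
  have h1 : orderOf u ∣ Nat.card (H b) := Subgroup.orderOf_dvd_natCard _ hu
  exact Nat.Coprime.coprime_dvd_left h1 (hD.coprime b hb a ha)

theorem H_conj_gen [Finite G] (hD : DadeHypothesis A L H) {a : G} (ha : a ∈ A) {g : G}
    (hg : g * a * g⁻¹ ∈ A) {u : G} (hu : u ∈ H a) : g * u * g⁻¹ ∈ H (g * a * g⁻¹) := by
  obtain ⟨l, hl, hl2⟩ := hD.fusion a ha g hg
  have hc : l⁻¹ * g ∈ Subgroup.centralizer ({a} : Set G) := by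
    rw [mem_centralizer_singleton]
    calc a * (l⁻¹ * g) = l⁻¹ * (l * a * l⁻¹) * g := by group
      _ = l⁻¹ * (g * a * g⁻¹) * g := by rw [hl2]
      _ = l⁻¹ * g * a := by group
  have h1 := hD.conj_mem_H a ha _ hc u hu
  have h2 := dade_H_conj hD ha hl h1
  rw [hl2] at h2
  have e : l * (l⁻¹ * g * u * (l⁻¹ * g)⁻¹) * l⁻¹ = g * u * g⁻¹ := by group
  rwa [e] at h2

theorem H_inf_L (hD : DadeHypothesis A L H) {a : G} (ha : a ∈ A) {k : G} (hk : k ∈ H a)
    (hkL : k ∈ L) : k = 1 := by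
  have : k ∈ H a ⊓ (L ⊓ Subgroup.centralizer ({a} : Set G)) :=
    ⟨hk, hkL, hD.le_centralizer a ha hk⟩
  rwa [hD.inf_eq_bot a ha, Subgroup.mem_bot] at this

theorem centralizes [Finite G] (hD : DadeHypothesis A L H) (F : Subgroup G)
    [hF : Group.IsNilpotent F] (hFL : F ≤ L) {a : G} (ha : a ∈ A) (haF : a ∈ F) {h : G}
    (hh : h ∈ H a) (hconj : ∀ f ∈ F, h⁻¹ * f * h ∈ L) : ∀ f ∈ F, h * f = f * h := by
  by_contra hcon
  push Not at hcon
  obtain ⟨f₀, hf₀, hne⟩ := hcon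
  obtain ⟨C, hCdef⟩ : ∃ C : Subgroup F, C = (Subgroup.centralizer ({h} : Set G)).subgroupOf F :=
    ⟨_, rfl⟩
  have hCmem : ∀ x : F, x ∈ C ↔ h * (x : G) = (x : G) * h := by
    intro x
    rw [hCdef, Subgroup.mem_subgroupOf, mem_centralizer_singleton]
  have hCne : C ≠ ⊤ := by
    intro hC
    have : (⟨f₀, hf₀⟩ : F) ∈ C := by rw [hC]; trivial
    exact hne ((hCmem _).1 this)
  have hlt := Group.normalizerCondition_of_isNilpotent (G := F) C (lt_top_iff_ne_top.mpr hCne)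
  obtain ⟨e, heN, heC⟩ := SetLike.exists_of_lt hlt
  have hah : a * h = h * a := (dade_commute hD ha hh).eq
  have haC : (⟨a, haF⟩ : F) ∈ C := (hCmem _).2 hah.symm
  have hyC : e⁻¹ * ⟨a, haF⟩ * e ∈ C := by
    rw [Subgroup.mem_normalizer_iff''] at heN
    exact (heN _).1 haC
  have hy := (hCmem _).1 hyC
  simp only [Subgroup.coe_mul, Subgroup.coe_inv] at hy
  have heL : (e : G) ∈ L := hFL e.2
  have hyA : (e : G)⁻¹ * a * (e : G) ∈ A := (conj_mem_iff' hD heL a).1 ha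
  have hhy : h ∈ H ((e : G)⁻¹ * a * (e : G)) := mem_H_of_mem_H hD hyA ha hh hy.symm
  have hh2 : (e : G)⁻¹ * h⁻¹ * (e : G) ∈ H ((e : G)⁻¹ * a * (e : G)) := by
    have := dade_H_conj hD ha (Subgroup.inv_mem _ heL) (Subgroup.inv_mem _ hh)
    rwa [inv_inv] at this
  have hk := Subgroup.mul_mem _ hh2 hhy
  have hkL : (e : G)⁻¹ * h⁻¹ * (e : G) * h ∈ L := by
    have := Subgroup.mul_mem _ (Subgroup.inv_mem _ heL) (hconj e e.2)
    have e2 : (e : G)⁻¹ * (h⁻¹ * (e : G) * h) = (e : G)⁻¹ * h⁻¹ * (e : G) * h := by group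
    rwa [e2] at this
  have hk1 := H_inf_L hD hyA hk hkL
  apply heC
  rw [hCmem]
  calc h * (e : G) = h * (e : G) * ((e : G)⁻¹ * h⁻¹ * (e : G) * h) := by rw [hk1, mul_one]
    _ = (e : G) * h := by group

def cj (S : Subgroup G) (d : G) : Subgroup G := S.comap (MulAut.conj d).toMonoidHom

theorem mem_cj {S : Subgroup G} {d x : G} : x ∈ cj S d ↔ d * x * d⁻¹ ∈ S := Iff.rfl

theorem cj_cj (S : Subgroup G) (d d' : G) : cj (cj S d) d' = cj S (d * d') := by
  ext x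
  rw [mem_cj, mem_cj, mem_cj]
  have e : d * (d' * x * d'⁻¹) * d⁻¹ = d * d' * x * (d * d')⁻¹ := by group
  rw [e]

theorem cj_mem_self {S : Subgroup G} {d : G} (hd : d ∈ S) : cj S d = S := by
  ext x
  rw [mem_cj]
  constructor
  · intro h
    have := Subgroup.mul_mem _ (Subgroup.mul_mem _ (Subgroup.inv_mem _ hd) h) hd
    have e : d⁻¹ * (d * x * d⁻¹) * d = x := by group
    rwa [e] at this
  · intro h
    exact Subgroup.mul_mem _ (Subgroup.mul_mem _ hd h) (Subgroup.inv_mem _ hd)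

noncomputable def cjEquiv (S : Subgroup G) (d : G) : cj S d ≃* S where
  toFun x := ⟨d * x * d⁻¹, mem_cj.1 x.2⟩
  invFun s := ⟨d⁻¹ * s * d, mem_cj.2 (by
    have e : d * (d⁻¹ * (s : G) * d) * d⁻¹ = s := by group
    rw [e]; exact s.2)⟩
  left_inv x := Subtype.ext (by show d⁻¹ * (d * (x : G) * d⁻¹) * d = x; group)
  right_inv s := Subtype.ext (by show d * (d⁻¹ * (s : G) * d) * d⁻¹ = s; group)
  map_mul' x y := Subtype.ext (by
    show d * ((x : G) * (y : G)) * d⁻¹ = d * (x : G) * d⁻¹ * (d * (y : G) * d⁻¹); group)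

theorem cj_nilpotent (S : Subgroup G) [Group.IsNilpotent S] (d : G) :
    Group.IsNilpotent (cj S d) :=
  Group.nilpotent_of_mulEquiv (cjEquiv S d).symm

theorem card_cj (S : Subgroup G) (d : G) : Nat.card (cj S d) = Nat.card S :=
  Nat.card_congr (cjEquiv S d).toEquiv

theorem nilpotent_of_le {K Q : Subgroup G} [Group.IsNilpotent Q] (h : K ≤ Q) :
    Group.IsNilpotent K :=
  Group.nilpotent_of_mulEquiv (Subgroup.subgroupOfEquivOfLe h)

theorem single_step [Finite G] (hD : DadeHypothesis A L H) (F : Subgroup G)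
    [Group.IsNilpotent F] (hFL : F ≤ L) {a : G} (ha : a ∈ A) (haF : a ∈ F) {e : G}
    (heF' : ∀ f ∈ F, e⁻¹ * f * e ∈ F)
    (hea : e * a * e⁻¹ ∈ A) (hea' : e⁻¹ * a * e ∈ A)
    {p : ℕ} (hp : p.Prime) (hpH : ¬ p ∣ Nat.card (H a)) {k : ℕ} (hek : e ^ (p ^ k) ∈ F) :
    ∃ d ∈ H a, (∀ f ∈ F, d * f = f * d) ∧ d⁻¹ * e * d ∈ L := by
  classical
  obtain ⟨l, hl, hl2⟩ := hD.fusion a ha e⁻¹ (by rwa [inv_inv])
  rw [inv_inv] at hl2
  have hc : (e * l)⁻¹ ∈ Subgroup.centralizer ({a} : Set G) := by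
    apply Subgroup.inv_mem
    rw [mem_centralizer_singleton]
    calc a * (e * l) = e * (e⁻¹ * a * e) * l := by group
      _ = e * (l * a * l⁻¹) * l := by rw [hl2]
      _ = e * l * a := by group
  obtain ⟨c', hc', h₁, hh₁, hdec⟩ := dade_decomp hD ha hc
  obtain ⟨de, hde⟩ : ∃ de : G, de = h₁⁻¹ := ⟨_, rfl⟩
  obtain ⟨le, hle⟩ : ∃ le : G, le = c'⁻¹ * l⁻¹ := ⟨_, rfl⟩
  have hdeH : de ∈ H a := by rw [hde]; exact Subgroup.inv_mem _ hh₁
  have hleL : le ∈ L := by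
    rw [hle]; exact Subgroup.mul_mem _ (Subgroup.inv_mem _ hc'.1) (Subgroup.inv_mem _ hl)
  have hedl : e = de * le := by
    rw [hde, hle]
    calc e = ((e * l)⁻¹)⁻¹ * l⁻¹ := by group
      _ = (c' * h₁)⁻¹ * l⁻¹ := by rw [hdec]
      _ = h₁⁻¹ * (c'⁻¹ * l⁻¹) := by group
  have hdeC : ∀ f ∈ F, de * f = f * de := by
    apply centralizes hD F hFL ha haF hdeH
    intro f hf
    have h1 : de = e * le⁻¹ := by rw [hedl]; group
    have h2 : de⁻¹ * f * de = le * (e⁻¹ * f * e) * le⁻¹ := by rw [h1]; group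
    rw [h2]
    exact Subgroup.mul_mem _ (Subgroup.mul_mem _ hleL (hFL (heF' f hf))) (Subgroup.inv_mem _ hleL)
  obtain ⟨D, hDdef⟩ : ∃ D : Subgroup G, D = H a ⊓ Subgroup.centralizer (F : Set G) := ⟨_, rfl⟩
  have hDmem : ∀ d : G, d ∈ D ↔ d ∈ H a ∧ ∀ f ∈ F, d * f = f * d := by
    intro d
    rw [hDdef, Subgroup.mem_inf, Subgroup.mem_centralizer_iff]
    constructor
    · rintro ⟨h1, h2⟩
      exact ⟨h1, fun f hf => (h2 f hf).symm⟩
    · rintro ⟨h1, h2⟩
      exact ⟨h1, fun f hf => (h2 f hf).symm⟩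
  have hconjD : ∀ d ∈ D, e * d * e⁻¹ ∈ D := by
    intro d hd
    obtain ⟨hd1, hd2⟩ := (hDmem d).1 hd
    have hcen : ∀ f ∈ F, e * d * e⁻¹ * f = f * (e * d * e⁻¹) := by
      intro f hf
      have := hd2 _ (heF' f hf)
      calc e * d * e⁻¹ * f = e * (d * (e⁻¹ * f * e)) * e⁻¹ := by group
        _ = e * ((e⁻¹ * f * e) * d) * e⁻¹ := by rw [this]
        _ = f * (e * d * e⁻¹) := by group
    refine (hDmem _).2 ⟨?_, hcen⟩
    have h1 := H_conj_gen hD ha hea hd1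
    exact mem_H_of_mem_H hD ha hea h1 (hcen a haF).symm
  have hφmem : ∀ d ∈ D, e * d * le⁻¹ ∈ D := by
    intro d hd
    have h1 := Subgroup.mul_mem _ (hconjD d hd) ((hDmem de).2 ⟨hdeH, hdeC⟩)
    have e1 : e * d * e⁻¹ * de = e * d * le⁻¹ := by rw [hedl]; group
    rwa [e1] at h1
  obtain ⟨φ, hφdef⟩ : ∃ φ : Function.End D, φ = fun d => ⟨e * d * le⁻¹, hφmem d d.2⟩ :=
    ⟨_, rfl⟩
  have hφpow : ∀ (m : ℕ) (d : D), ∃ l' ∈ L, (((φ ^ m) d : D) : G) = e ^ m * d * l' := by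
    intro m
    induction m with
    | zero =>
      intro d
      refine ⟨1, Subgroup.one_mem _, ?_⟩
      rw [pow_zero, pow_zero, one_mul, mul_one]; rfl
    | succ m ih =>
      intro d
      obtain ⟨l', hl', e1⟩ := ih d
      refine ⟨l' * le⁻¹, Subgroup.mul_mem _ hl' (Subgroup.inv_mem _ hleL), ?_⟩
      have e3 : (((φ ^ (m + 1)) d : D) : G) = e * (((φ ^ m) d : D) : G) * le⁻¹ := by
        rw [pow_succ', hφdef]; rfl
      rw [e3, e1, pow_succ']; group
  have hφone : φ ^ p ^ k = 1 := by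
    funext d
    obtain ⟨l', hl', e1⟩ := hφpow (p ^ k) d
    apply Subtype.ext
    show (((φ ^ p ^ k) d : D) : G) = d
    obtain ⟨hd1, hd2⟩ := (hDmem d).1 d.2
    have e2 : (((φ ^ p ^ k) d : D) : G) = d * (e ^ p ^ k * l') := by
      rw [e1, ← mul_assoc, hd2 _ hek]
    have hx := (hDmem _).1 ((φ ^ p ^ k) d).2
    have h3 : e ^ p ^ k * l' ∈ H a := by
      have : e ^ p ^ k * l' = (d : G)⁻¹ * (((φ ^ p ^ k) d : D) : G) := by rw [e2]; group
      rw [this]; exact Subgroup.mul_mem _ (Subgroup.inv_mem _ hd1) hx.1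
    have h4 := H_inf_L hD ha h3 (Subgroup.mul_mem _ (hFL hek) hl')
    rw [e2, h4, mul_one]
  haveI : Fact p.Prime := ⟨hp⟩
  haveI : Fintype D := Fintype.ofFinite D
  have hmod := Equiv.Perm.card_fixedPoints_modEq (f := φ) (p := p) (n := k) hφone
  have hcardD : ¬ p ∣ Fintype.card D := by
    rw [← Nat.card_eq_fintype_card]
    intro hdvd
    apply hpH
    exact hdvd.trans (Subgroup.card_dvd_of_le (by rw [hDdef]; exact inf_le_left))
  have hfix : Nonempty (Function.fixedPoints φ) := by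
    by_contra hemp
    rw [not_nonempty_iff] at hemp
    have h0 := hmod
    have hz : ∀ (inst : Fintype (Function.fixedPoints φ)), @Fintype.card _ inst = 0 :=
      fun inst => @Fintype.card_eq_zero _ inst hemp
    rw [hz] at h0
    exact hcardD ((Nat.modEq_zero_iff_dvd).1 h0)
  obtain ⟨⟨d, hdfix⟩⟩ := hfix
  obtain ⟨hd1, hd2⟩ := (hDmem d).1 d.2
  refine ⟨d, hd1, hd2, ?_⟩
  have h5 : e * (d : G) * le⁻¹ = d := by
    have := congrArg Subtype.val hdfix
    rw [hφdef] at this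
    exact this
  have h6 : (d : G)⁻¹ * e * d = le := by
    calc (d : G)⁻¹ * e * d = (d : G)⁻¹ * (e * d * le⁻¹) * le := by group
      _ = le := by rw [h5]; group
  rw [h6]; exact hleL

end Cfsg.Agent.Lib.helper22.DadeA
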