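import Cfsg.Agent.Lib.helper22.DadeA

set_option autoImplicit false

namespace Cfsg.Agent.Lib.helper22.DadeA

open Cfsg
open Cfsg.Agent.Lib.helper24

universe u

variable {G : Type u} [Group G] {A : Set G} {L : Subgroup G} {H : G → Subgroup G}

theorem comm_conj {d y : G} (h : d * y = y * d) : d * y * d⁻¹ = y := by
  rw [h]; group

theorem comm_conj' {d y : G} (h : d * y = y * d) : d⁻¹ * y * d = y := by
  rw [mul_assoc, ← h]; group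

theorem conj_pow_inv (d e : G) (n : ℕ) : (d⁻¹ * e * d) ^ n = d⁻¹ * e ^ n * d := by
  have := conj_pow (a := d⁻¹) (b := e) (i := n)
  rwa [inv_inv] at this

theorem pow_conj_mem {S : Subgroup G} {e : G} (h : ∀ f ∈ S, e * f * e⁻¹ ∈ S) (j : ℕ) :
    ∀ f ∈ S, e ^ j * f * (e ^ j)⁻¹ ∈ S := by
  induction j with
  | zero => intro f hf; simpa using hf
  | succ j ih =>
    intro f hf
    have := h _ (ih f hf)
    have e1 : e * (e ^ j * f * (e ^ j)⁻¹) * e⁻¹ = e ^ (j + 1) * f * (e ^ (j + 1))⁻¹ := by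
      rw [pow_succ']; group
    rwa [e1] at this

theorem pow_conj_mem' {S : Subgroup G} {e : G} (h : ∀ f ∈ S, e⁻¹ * f * e ∈ S) (j : ℕ) :
    ∀ f ∈ S, (e ^ j)⁻¹ * f * e ^ j ∈ S := by
  induction j with
  | zero => intro f hf; simpa using hf
  | succ j ih =>
    intro f hf
    have := h _ (ih f hf)
    have e1 : e⁻¹ * ((e ^ j)⁻¹ * f * e ^ j) * e = (e ^ (j + 1))⁻¹ * f * e ^ (j + 1) := by
      rw [pow_succ]; group
    rwa [e1] at this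

theorem card_lt_of_mem [Finite G] {S T : Subgroup G} (h : S ≤ T) {x : G} (hx : x ∈ T)
    (hx' : x ∉ S) : Nat.card S < Nat.card T := by
  by_contra hcon
  push Not at hcon
  have := Subgroup.eq_of_le_of_card_ge h hcon
  rw [this] at hx'
  exact hx' hx

theorem exists_prime_step [Finite G] {S M : Subgroup G} [Group.IsNilpotent M] (hSM : S ≤ M)
    (hne : ¬ M ≤ S) :
    ∃ e ∈ M, e ∉ S ∧ (∀ f ∈ S, e * f * e⁻¹ ∈ S) ∧ (∀ f ∈ S, e⁻¹ * f * e ∈ S) ∧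
      ∃ p : ℕ, p.Prime ∧ p ∣ Nat.card M ∧ e ^ p ∈ S := by
  classical
  have hlt : S.subgroupOf M < ⊤ := by
    rw [lt_top_iff_ne_top]
    intro h
    apply hne
    intro x hx
    have : (⟨x, hx⟩ : M) ∈ S.subgroupOf M := by rw [h]; trivial
    exact Subgroup.mem_subgroupOf.1 this
  have hlt2 := Group.normalizerCondition_of_isNilpotent (G := M) _ hlt
  obtain ⟨e, heN, heS⟩ := SetLike.exists_of_lt hlt2
  have heS' : (e : G) ∉ S := fun h => heS (Subgroup.mem_subgroupOf.2 h)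
  have hN1 : ∀ f ∈ S, (e : G) * f * (e : G)⁻¹ ∈ S := by
    intro f hf
    have := (Subgroup.mem_normalizer_iff.1 heN ⟨f, hSM hf⟩).1 (Subgroup.mem_subgroupOf.2 hf)
    exact Subgroup.mem_subgroupOf.1 this
  have hN2 : ∀ f ∈ S, (e : G)⁻¹ * f * (e : G) ∈ S := by
    intro f hf
    have := (Subgroup.mem_normalizer_iff''.1 heN ⟨f, hSM hf⟩).1 (Subgroup.mem_subgroupOf.2 hf)
    exact Subgroup.mem_subgroupOf.1 this
  have hex : ∃ n, 0 < n ∧ (e : G) ^ n ∈ S :=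
    ⟨orderOf (e : G), orderOf_pos _, by rw [pow_orderOf_eq_one]; exact S.one_mem⟩
  obtain ⟨n, hn⟩ : ∃ n, n = Nat.find hex := ⟨_, rfl⟩
  have hnspec := Nat.find_spec hex
  rw [← hn] at hnspec
  have hnmin : ∀ m, m < n → ¬ (0 < m ∧ (e : G) ^ m ∈ S) := fun m hm => by
    rw [hn] at hm; exact Nat.find_min hex hm
  have hn1 : n ≠ 1 := by
    intro h1; rw [h1, pow_one] at hnspec; exact heS' hnspec.2
  obtain ⟨p, hp, hpn⟩ := Nat.exists_prime_and_dvd hn1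
  obtain ⟨m, hm⟩ := hpn
  have hm0 : 0 < m := by
    rcases Nat.eq_zero_or_pos m with h | h
    · rw [h, mul_zero] at hm; omega
    · exact h
  have hmn : m < n := by
    rw [hm]; exact (Nat.lt_mul_iff_one_lt_left hm0).2 hp.one_lt
  have he1 : (e : G) ^ m ∉ S := fun h => hnmin m hmn ⟨hm0, h⟩
  have he2 : ((e : G) ^ m) ^ p ∈ S := by
    rw [← pow_mul, mul_comm, ← hm]; exact hnspec.2
  refine ⟨(e : G) ^ m, Subgroup.pow_mem _ e.2 _, he1, pow_conj_mem hN1 m, pow_conj_mem' hN2 m,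
    p, hp, ?_, he2⟩
  by_contra hpM
  have hcop : Nat.Coprime p (orderOf ((e : G) ^ m)) := by
    have : orderOf ((e : G) ^ m) ∣ Nat.card M :=
      Subgroup.orderOf_dvd_natCard _ (Subgroup.pow_mem _ e.2 _)
    exact Nat.Coprime.coprime_dvd_right this ((Nat.Prime.coprime_iff_not_dvd hp).2 hpM)
  obtain ⟨j, hj⟩ := exists_pow_eq_self_of_coprime hcop
  apply he1
  rw [← hj]; exact Subgroup.pow_mem _ he2 _

def Adm (A : Set G) (L : Subgroup G) (Q : Subgroup G) : Prop :=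
  (∃ y, y ∈ Q ∧ y ∈ A) ∧ ∀ e ∈ Q, (∀ y ∈ Q, (y ∈ A ↔ e * y * e⁻¹ ∈ A)) → e ∈ L

def NQ (A : Set G) (Q : Subgroup G) : Subgroup G where
  carrier := {e | e ∈ Q ∧ ∀ y ∈ Q, (y ∈ A ↔ e * y * e⁻¹ ∈ A)}
  mul_mem' := by
    rintro e₁ e₂ ⟨h1, h1'⟩ ⟨h2, h2'⟩
    refine ⟨Q.mul_mem h1 h2, fun y hy => ?_⟩
    rw [h2' y hy, h1' _ (Q.mul_mem (Q.mul_mem h2 hy) (Q.inv_mem h2))]
    have e : e₁ * (e₂ * y * e₂⁻¹) * e₁⁻¹ = e₁ * e₂ * y * (e₁ * e₂)⁻¹ := by group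
    rw [e]
  one_mem' := ⟨Q.one_mem, fun y _ => by simp⟩
  inv_mem' := by
    rintro e ⟨h1, h1'⟩
    refine ⟨Q.inv_mem h1, fun y hy => ?_⟩
    have := h1' (e⁻¹ * y * e⁻¹⁻¹)
      (Q.mul_mem (Q.mul_mem (Q.inv_mem h1) hy) (Q.inv_mem (Q.inv_mem h1)))
    rw [this]
    have e2 : e * (e⁻¹ * y * e⁻¹⁻¹) * e⁻¹ = y := by group
    rw [e2]

theorem mem_NQ {Q : Subgroup G} {e : G} :
    e ∈ NQ A Q ↔ e ∈ Q ∧ ∀ y ∈ Q, (y ∈ A ↔ e * y * e⁻¹ ∈ A) := Iff.rfl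

theorem prime_not_dvd_H {Q : Subgroup G} [Finite G]
    (hQ : ∀ a ∈ A, Nat.Coprime (Nat.card Q) (Nat.card (H a))) {M : Subgroup G} (hMQ : M ≤ Q)
    {p : ℕ} (hp : p.Prime) (hpM : p ∣ Nat.card M) {a : G} (ha : a ∈ A) :
    ¬ p ∣ Nat.card (H a) := by
  intro h
  have h1 : p ∣ Nat.card Q := hpM.trans (Subgroup.card_dvd_of_le hMQ)
  have h2 := Nat.dvd_gcd h1 h
  rw [(hQ a ha).gcd_eq_one, Nat.dvd_one] at h2
  exact hp.one_lt.ne' h2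

theorem improve [Finite G] (hD : DadeHypothesis A L H) (Q : Subgroup G) [Group.IsNilpotent Q]
    (hQ : ∀ a ∈ A, Nat.Coprime (Nat.card Q) (Nat.card (H a))) {a : G} (ha : a ∈ A)
    (haQ : a ∈ Q) (hnot : ¬ Adm A L Q) :
    ∃ d ∈ H a, (∀ f ∈ Q ⊓ L, d * f = f * d) ∧
      Nat.card ↥(Q ⊓ L) < Nat.card ↥(cj Q d ⊓ L) := by
  have hex : ∃ e₀ ∈ Q, (∀ y ∈ Q, (y ∈ A ↔ e₀ * y * e₀⁻¹ ∈ A)) ∧ e₀ ∉ L := by
    by_contra hcon
    push Not at hcon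
    exact hnot ⟨⟨a, haQ, ha⟩, fun e he h => hcon e he h⟩
  obtain ⟨e₀, he₀Q, he₀N, he₀L⟩ := hex
  have hNQ : NQ A Q ≤ Q := fun x hx => hx.1
  haveI : Group.IsNilpotent (NQ A Q) := nilpotent_of_le hNQ
  haveI : Group.IsNilpotent ↥(Q ⊓ L) := nilpotent_of_le inf_le_left
  have hFN : Q ⊓ L ≤ NQ A Q := by
    intro f hf
    exact ⟨hf.1, fun y _ => conj_mem_iff hD hf.2 y⟩
  have hne : ¬ NQ A Q ≤ Q ⊓ L := fun h => he₀L (h ⟨he₀Q, he₀N⟩).2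
  obtain ⟨e, heN, heF, hn1, hn2, p, hp, hpN, hep⟩ := exists_prime_step hFN hne
  have haF : a ∈ Q ⊓ L := ⟨haQ, hD.subset ha⟩
  have hea : e * a * e⁻¹ ∈ A := (heN.2 a haQ).1 ha
  have hea' : e⁻¹ * a * e ∈ A := by
    have := ((Subgroup.inv_mem _ heN).2 a haQ).1 ha
    rwa [inv_inv] at this
  have hpH : ¬ p ∣ Nat.card (H a) := prime_not_dvd_H hQ hNQ hp hpN ha
  have hek : e ^ p ^ 1 ∈ Q ⊓ L := by rw [pow_one]; exact hep
  obtain ⟨d, hdH, hdc, hdL⟩ := single_step hD (Q ⊓ L) inf_le_right ha haF hn2 hea hea' hp hpH hek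
  refine ⟨d, hdH, hdc, ?_⟩
  have hle : Q ⊓ L ≤ cj Q d ⊓ L := by
    intro f hf
    refine Subgroup.mem_inf.2 ⟨?_, hf.2⟩
    rw [mem_cj, comm_conj (hdc f hf)]
    exact hf.1
  have hmem : d⁻¹ * e * d ∈ cj Q d ⊓ L := by
    refine Subgroup.mem_inf.2 ⟨?_, hdL⟩
    rw [mem_cj]
    have e1 : d * (d⁻¹ * e * d) * d⁻¹ = e := by group
    rw [e1]; exact heN.1
  have hnmem : d⁻¹ * e * d ∉ Q ⊓ L := by
    intro h
    have h1 := comm_conj (hdc _ h)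
    have e1 : d * (d⁻¹ * e * d) * d⁻¹ = e := by group
    rw [e1] at h1
    rw [← h1] at h
    exact heF h
  exact card_lt_of_mem hle hmem hnmem

theorem common_fix [Finite G] (hD : DadeHypothesis A L H) (Q : Subgroup G)
    [Group.IsNilpotent Q] (hQ : ∀ a ∈ A, Nat.Coprime (Nat.card Q) (Nat.card (H a)))
    (K M : Subgroup G) (hKL : K ≤ L) (hKM : K ≤ M) (hMQ : M ≤ Q) {a : G} (ha : a ∈ A)
    (haK : a ∈ K) (hMK : ∀ m ∈ M, ∀ f ∈ K, m * f * m⁻¹ ∈ K)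
    (hMA : ∀ m ∈ M, ∀ y ∈ K, y ∈ A → m * y * m⁻¹ ∈ A) :
    ∃ d ∈ H a, (∀ f ∈ K, d * f = f * d) ∧ ∀ m ∈ M, d⁻¹ * m * d ∈ L := by
  haveI : Nonempty {d : G // d ∈ H a ∧ ∀ f ∈ K, d * f = f * d} :=
    ⟨⟨1, Subgroup.one_mem _, fun f _ => by rw [one_mul, mul_one]⟩⟩
  obtain ⟨⟨d₀, hd₀H, hd₀c⟩, hmax⟩ := Finite.exists_max
    (fun d : {d : G // d ∈ H a ∧ ∀ f ∈ K, d * f = f * d} =>
      Nat.card ↥(M ⊓ cj L (d : G)⁻¹))
  by_contra hcon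
  have hne : ¬ M ≤ M ⊓ cj L d₀⁻¹ := by
    intro hle
    apply hcon
    refine ⟨d₀, hd₀H, hd₀c, fun m hm => ?_⟩
    have := (Subgroup.mem_inf.1 (hle hm)).2
    rw [mem_cj, inv_inv] at this
    exact this
  haveI : Group.IsNilpotent M := nilpotent_of_le hMQ
  obtain ⟨S, hSdef⟩ : ∃ S : Subgroup G, S = M ⊓ cj L d₀⁻¹ := ⟨_, rfl⟩
  have hSmem : ∀ x, x ∈ S ↔ x ∈ M ∧ d₀⁻¹ * x * d₀ ∈ L := by
    intro x
    rw [hSdef, Subgroup.mem_inf, mem_cj, inv_inv]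
  rw [← hSdef] at hne
  have hSM : S ≤ M := fun x hx => ((hSmem x).1 hx).1
  obtain ⟨e, heM, heS, hn1, hn2, p, hp, hpM, hep⟩ := exists_prime_step hSM hne
  have hKS : K ≤ S := by
    intro f hf
    rw [hSmem]
    refine ⟨hKM hf, ?_⟩
    rw [comm_conj' (hd₀c f hf)]
    exact hKL hf
  haveI : Group.IsNilpotent S := nilpotent_of_le (hSM.trans hMQ)
  haveI : Group.IsNilpotent (cj S d₀) := cj_nilpotent S d₀
  have hF₁L : cj S d₀ ≤ L := by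
    intro x hx
    rw [mem_cj, hSmem] at hx
    have e1 : d₀⁻¹ * (d₀ * x * d₀⁻¹) * d₀ = x := by group
    rw [e1] at hx
    exact hx.2
  have haF₁ : a ∈ cj S d₀ := by
    rw [mem_cj, comm_conj (hd₀c a haK)]
    exact hKS haK
  have heF' : ∀ x ∈ cj S d₀, (d₀⁻¹ * e * d₀)⁻¹ * x * (d₀⁻¹ * e * d₀) ∈ cj S d₀ := by
    intro x hx
    rw [mem_cj] at hx ⊢
    have e1 : d₀ * ((d₀⁻¹ * e * d₀)⁻¹ * x * (d₀⁻¹ * e * d₀)) * d₀⁻¹
        = e⁻¹ * (d₀ * x * d₀⁻¹) * e := by group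
    rw [e1]
    exact hn2 _ hx
  have hea : (d₀⁻¹ * e * d₀) * a * (d₀⁻¹ * e * d₀)⁻¹ ∈ A := by
    have h1 : e * a * e⁻¹ ∈ K := hMK e heM a haK
    have h2 : e * a * e⁻¹ ∈ A := hMA e heM a haK ha
    have e1 : (d₀⁻¹ * e * d₀) * a * (d₀⁻¹ * e * d₀)⁻¹
        = d₀⁻¹ * (e * (d₀ * a * d₀⁻¹) * e⁻¹) * d₀ := by group
    rw [e1, comm_conj (hd₀c a haK), comm_conj' (hd₀c _ h1)]
    exact h2
  have hea' : (d₀⁻¹ * e * d₀)⁻¹ * a * (d₀⁻¹ * e * d₀) ∈ A := by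
    have h1 : e⁻¹ * a * e ∈ K := by
      have := hMK e⁻¹ (Subgroup.inv_mem _ heM) a haK
      rwa [inv_inv] at this
    have h2 : e⁻¹ * a * e ∈ A := by
      have := hMA e⁻¹ (Subgroup.inv_mem _ heM) a haK ha
      rwa [inv_inv] at this
    have e1 : (d₀⁻¹ * e * d₀)⁻¹ * a * (d₀⁻¹ * e * d₀)
        = d₀⁻¹ * (e⁻¹ * (d₀ * a * d₀⁻¹) * e) * d₀ := by group
    rw [e1, comm_conj (hd₀c a haK), comm_conj' (hd₀c _ h1)]
    exact h2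
  have hek : (d₀⁻¹ * e * d₀) ^ p ^ 1 ∈ cj S d₀ := by
    rw [pow_one, conj_pow_inv, mem_cj]
    have e1 : d₀ * (d₀⁻¹ * e ^ p * d₀) * d₀⁻¹ = e ^ p := by group
    rw [e1]; exact hep
  have hpH : ¬ p ∣ Nat.card (H a) := prime_not_dvd_H hQ hMQ hp hpM ha
  obtain ⟨d₁, hd₁H, hd₁c, hd₁L⟩ :=
    single_step hD (cj S d₀) hF₁L ha haF₁ heF' hea hea' hp hpH hek
  have hd'c : ∀ f ∈ K, d₀ * d₁ * f = f * (d₀ * d₁) := by
    intro f hf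
    have hfF₁ : f ∈ cj S d₀ := by
      rw [mem_cj, comm_conj (hd₀c f hf)]
      exact hKS hf
    rw [mul_assoc, hd₁c f hfF₁, ← mul_assoc, hd₀c f hf, mul_assoc]
  have hmx := hmax ⟨d₀ * d₁, Subgroup.mul_mem _ hd₀H hd₁H, hd'c⟩
  have hle : S ≤ M ⊓ cj L (d₀ * d₁)⁻¹ := by
    intro s hs
    refine Subgroup.mem_inf.2 ⟨hSM hs, ?_⟩
    rw [mem_cj, inv_inv]
    have hx : d₀⁻¹ * s * d₀ ∈ cj S d₀ := by
      rw [mem_cj]
      have e1 : d₀ * (d₀⁻¹ * s * d₀) * d₀⁻¹ = s := by group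
      rw [e1]; exact hs
    have e2 : (d₀ * d₁)⁻¹ * s * (d₀ * d₁) = d₁⁻¹ * (d₀⁻¹ * s * d₀) * d₁ := by group
    rw [e2, comm_conj' (hd₁c _ hx)]
    exact hF₁L hx
  have hmem : e ∈ M ⊓ cj L (d₀ * d₁)⁻¹ := by
    refine Subgroup.mem_inf.2 ⟨heM, ?_⟩
    rw [mem_cj, inv_inv]
    have e2 : (d₀ * d₁)⁻¹ * e * (d₀ * d₁) = d₁⁻¹ * (d₀⁻¹ * e * d₀) * d₁ := by group
    rw [e2]; exact hd₁L
  have hlt := card_lt_of_mem hle hmem heS
  rw [hSdef] at hlt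
  exact absurd hmx (not_le.2 hlt)

theorem conjA_iff (hD : DadeHypothesis A L H) {K : Subgroup G} {h e x : G}
    (hcen : ∀ f ∈ K, h * f = f * h) (hl : h⁻¹ * e * h ∈ L) (hx : x ∈ K)
    (hx' : e * x * e⁻¹ ∈ K) : x ∈ A ↔ e * x * e⁻¹ ∈ A := by
  have e1 : h⁻¹ * (e * x * e⁻¹) * h = (h⁻¹ * e * h) * (h⁻¹ * x * h) * (h⁻¹ * e * h)⁻¹ := by
    group
  rw [comm_conj' (hcen _ hx'), comm_conj' (hcen _ hx)] at e1
  rw [e1]
  exact conj_mem_iff hD hl x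

end Cfsg.Agent.Lib.helper22.DadeA
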