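import Cfsg.Agent.Lib.helper22.DadeB

set_option autoImplicit false

namespace Cfsg.Agent.Lib.helper22.DadeA

open Cfsg
open Cfsg.Agent.Lib.helper24

universe u

variable {G : Type u} [Group G] {A : Set G} {L : Subgroup G} {H : G → Subgroup G}

theorem adm_eq [Finite G] (hD : DadeHypothesis A L H) : ∀ (n : ℕ) (Q : Subgroup G),
    Group.IsNilpotent Q → (∀ a ∈ A, Nat.Coprime (Nat.card Q) (Nat.card (H a))) →
    ∀ (a h : G), a ∈ A → a ∈ Q → h ∈ H a → Adm A L Q → Adm A L (cj Q h) →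
    Nat.card Q - Nat.card ↥(Q ⊓ L ⊓ cj L h⁻¹) = n →
    ∀ y ∈ Q, (y ∈ A ↔ h⁻¹ * y * h ∈ A) := by
  intro n
  induction n using Nat.strong_induction_on with
  | _ n ih =>
  intro Q hQnil hQ a h ha haQ hh hAdm hAdm' hmeas
  haveI := hQnil
  obtain ⟨K, hKdef⟩ : ∃ K : Subgroup G, K = Q ⊓ L ⊓ cj L h⁻¹ := ⟨_, rfl⟩
  have hKmem : ∀ x, x ∈ K ↔ x ∈ Q ∧ x ∈ L ∧ h⁻¹ * x * h ∈ L := by
    intro x
    rw [hKdef, Subgroup.mem_inf, Subgroup.mem_inf, mem_cj, inv_inv, and_assoc]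
  rw [← hKdef] at hmeas
  have hKQ : K ≤ Q := fun x hx => ((hKmem x).1 hx).1
  have hKL : K ≤ L := fun x hx => ((hKmem x).1 hx).2.1
  have hah : h * a = a * h := ((dade_commute hD ha hh).eq).symm
  have haK : a ∈ K := by
    rw [hKmem]
    refine ⟨haQ, hD.subset ha, ?_⟩
    rw [comm_conj' hah]; exact hD.subset ha
  haveI : Group.IsNilpotent K := nilpotent_of_le hKQ
  have hcen : ∀ f ∈ K, h * f = f * h :=
    centralizes hD K hKL ha haK hh (fun f hf => ((hKmem f).1 hf).2.2)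
  haveI : Group.IsNilpotent ↥(Q ⊓ L) := nilpotent_of_le inf_le_left
  haveI : Group.IsNilpotent ↥(Q ⊓ cj L h⁻¹) := nilpotent_of_le inf_le_left
  have hKF : K ≤ Q ⊓ L := fun x hx => Subgroup.mem_inf.2 ⟨hKQ hx, hKL hx⟩
  have hKF' : K ≤ Q ⊓ cj L h⁻¹ := fun x hx =>
    Subgroup.mem_inf.2 ⟨hKQ hx, by rw [mem_cj, inv_inv]; exact ((hKmem x).1 hx).2.2⟩
  have hA : (Q ⊓ L ≤ K) → (Q ⊓ cj L h⁻¹ ≤ K) := by
    intro hFK
    by_contra hne
    obtain ⟨e', he'F', he'K, hn1, hn2, -⟩ := exists_prime_step hKF' hne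
    have he'Q : e' ∈ Q := (Subgroup.mem_inf.1 he'F').1
    have he'L : h⁻¹ * e' * h ∈ L := by
      have := (Subgroup.mem_inf.1 he'F').2
      rwa [mem_cj, inv_inv] at this
    have hnorm : ∀ y ∈ Q, (y ∈ A ↔ e' * y * e'⁻¹ ∈ A) := by
      intro y hy
      constructor
      · intro hyA
        have hyK : y ∈ K := hFK (Subgroup.mem_inf.2 ⟨hy, hD.subset hyA⟩)
        exact (conjA_iff hD hcen he'L hyK (hn1 y hyK)).1 hyA
      · intro hyA
        have hy'K : e' * y * e'⁻¹ ∈ K :=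
          hFK (Subgroup.mem_inf.2
            ⟨Q.mul_mem (Q.mul_mem he'Q hy) (Q.inv_mem he'Q), hD.subset hyA⟩)
        have hyK : y ∈ K := by
          have := hn2 _ hy'K
          have e1 : e'⁻¹ * (e' * y * e'⁻¹) * e' = y := by group
          rwa [e1] at this
        exact (conjA_iff hD hcen he'L hyK hy'K).2 hyA
    have := hAdm.2 e' he'Q hnorm
    exact he'K ((hKmem e').2 ⟨he'Q, this, he'L⟩)
  have hB : (Q ⊓ cj L h⁻¹ ≤ K) → (Q ⊓ L ≤ K) := by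
    intro hF'K
    by_contra hne
    obtain ⟨e, heF, heK, hn1, hn2, -⟩ := exists_prime_step hKF hne
    have heQ : e ∈ Q := (Subgroup.mem_inf.1 heF).1
    have heL : e ∈ L := (Subgroup.mem_inf.1 heF).2
    have hmemQh : h⁻¹ * e * h ∈ cj Q h := by
      rw [mem_cj]
      have e1 : h * (h⁻¹ * e * h) * h⁻¹ = e := by group
      rw [e1]; exact heQ
    have hF'K' : ∀ x ∈ Q, h⁻¹ * x * h ∈ L → x ∈ K := fun x hx hxL =>
      hF'K (Subgroup.mem_inf.2 ⟨hx, by rw [mem_cj, inv_inv]; exact hxL⟩)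
    have hnorm : ∀ y₂ ∈ cj Q h, (y₂ ∈ A ↔ (h⁻¹ * e * h) * y₂ * (h⁻¹ * e * h)⁻¹ ∈ A) := by
      intro y₂ hy₂
      rw [mem_cj] at hy₂
      have e2 : (h⁻¹ * e * h) * y₂ * (h⁻¹ * e * h)⁻¹
          = h⁻¹ * (e * (h * y₂ * h⁻¹) * e⁻¹) * h := by group
      have e3 : h⁻¹ * (h * y₂ * h⁻¹) * h = y₂ := by group
      rw [e2]
      constructor
      · intro hyA
        have hyK : h * y₂ * h⁻¹ ∈ K := hF'K' _ hy₂ (by rw [e3]; exact hD.subset hyA)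
        have hy2 : h * y₂ * h⁻¹ = y₂ := by
          have := comm_conj' (hcen _ hyK)
          rw [e3] at this
          exact this.symm
        rw [hy2] at hyK ⊢
        rw [comm_conj' (hcen _ (hn1 _ hyK))]
        exact (conj_mem_iff hD heL y₂).1 hyA
      · intro hyA
        have hy'K : e * (h * y₂ * h⁻¹) * e⁻¹ ∈ K :=
          hF'K' _ (Q.mul_mem (Q.mul_mem heQ hy₂) (Q.inv_mem heQ)) (hD.subset hyA)
        have hyK : h * y₂ * h⁻¹ ∈ K := by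
          have := hn2 _ hy'K
          have e1 : e⁻¹ * (e * (h * y₂ * h⁻¹) * e⁻¹) * e = h * y₂ * h⁻¹ := by group
          rwa [e1] at this
        rw [comm_conj' (hcen _ hy'K)] at hyA
        have hy2 : h * y₂ * h⁻¹ = y₂ := by
          have := comm_conj' (hcen _ hyK)
          rw [e3] at this
          exact this.symm
        rw [hy2] at hyA
        exact (conj_mem_iff hD heL y₂).2 hyA
    have := hAdm'.2 _ hmemQh hnorm
    exact heK ((hKmem e).2 ⟨heQ, heL, this⟩)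
  have hfin : (Q ⊓ L ≤ K) → ∀ y ∈ Q, (y ∈ A ↔ h⁻¹ * y * h ∈ A) := by
    intro hFK
    have hF'K := hA hFK
    intro y hy
    constructor
    · intro hyA
      have hyK := hFK (Subgroup.mem_inf.2 ⟨hy, hD.subset hyA⟩)
      rw [comm_conj' (hcen y hyK)]; exact hyA
    · intro hyA
      have hyK := hF'K (Subgroup.mem_inf.2
        ⟨hy, by rw [mem_cj, inv_inv]; exact hD.subset hyA⟩)
      rw [comm_conj' (hcen y hyK)] at hyA; exact hyA
  by_cases hFK : Q ⊓ L ≤ K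
  · exact hfin hFK
  by_cases hF'K : Q ⊓ cj L h⁻¹ ≤ K
  · exact hfin (hB hF'K)
  obtain ⟨e, heF, heK, hn1, hn2, -⟩ := exists_prime_step hKF hFK
  obtain ⟨e', he'F', he'K, hn1', hn2', -⟩ := exists_prime_step hKF' hF'K
  have heQ : e ∈ Q := (Subgroup.mem_inf.1 heF).1
  have heL : e ∈ L := (Subgroup.mem_inf.1 heF).2
  have he'Q : e' ∈ Q := (Subgroup.mem_inf.1 he'F').1
  have he'L : h⁻¹ * e' * h ∈ L := by
    have := (Subgroup.mem_inf.1 he'F').2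
    rwa [mem_cj, inv_inv] at this
  obtain ⟨M, hMdef⟩ : ∃ M : Subgroup G, M = Q ⊓ Subgroup.normalizer (K : Set G) ⊓
      Subgroup.normalizer ((K : Set G) ∩ A) := ⟨_, rfl⟩
  have hMmem : ∀ m, m ∈ M ↔ m ∈ Q ∧ (∀ x, x ∈ K ↔ m * x * m⁻¹ ∈ K) ∧
      (∀ x, (x ∈ K ∧ x ∈ A) ↔ (m * x * m⁻¹ ∈ K ∧ m * x * m⁻¹ ∈ A)) := by
    intro m
    rw [hMdef, Subgroup.mem_inf, Subgroup.mem_inf, Subgroup.mem_normalizer_iff,
      Subgroup.mem_set_normalizer_iff, and_assoc]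
    rfl
  have hMintro : ∀ m ∈ Q, (∀ f ∈ K, m * f * m⁻¹ ∈ K) → (∀ f ∈ K, m⁻¹ * f * m ∈ K) →
      (∀ x ∈ K, (x ∈ A ↔ m * x * m⁻¹ ∈ A)) → m ∈ M := by
    intro m hmQ h1 h2 h3
    have hK : ∀ x, x ∈ K ↔ m * x * m⁻¹ ∈ K := by
      intro x
      constructor
      · exact h1 x
      · intro hx
        have := h2 _ hx
        have e1 : m⁻¹ * (m * x * m⁻¹) * m = x := by group
        rwa [e1] at this
    refine (hMmem m).2 ⟨hmQ, hK, fun x => ?_⟩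
    constructor
    · rintro ⟨hx, hxA⟩
      exact ⟨(hK x).1 hx, (h3 x hx).1 hxA⟩
    · rintro ⟨hx, hxA⟩
      have hx' := (hK x).2 hx
      exact ⟨hx', (h3 x hx').2 hxA⟩
  have hKM : K ≤ M := fun f hf => hMintro f (hKQ hf)
    (fun x hx => K.mul_mem (K.mul_mem hf hx) (K.inv_mem hf))
    (fun x hx => K.mul_mem (K.mul_mem (K.inv_mem hf) hx) hf)
    (fun x _ => conj_mem_iff hD (hKL hf) x)
  have heM : e ∈ M := hMintro e heQ hn1 hn2 (fun x _ => conj_mem_iff hD heL x)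
  have he'M : e' ∈ M := hMintro e' he'Q hn1' hn2'
    (fun x hx => conjA_iff hD hcen he'L hx (hn1' x hx))
  have hMQ : M ≤ Q := fun m hm => ((hMmem m).1 hm).1
  have hMK : ∀ m ∈ M, ∀ f ∈ K, m * f * m⁻¹ ∈ K := fun m hm f hf =>
    (((hMmem m).1 hm).2.1 f).1 hf
  have hMA : ∀ m ∈ M, ∀ y ∈ K, y ∈ A → m * y * m⁻¹ ∈ A := fun m hm y hy hyA =>
    ((((hMmem m).1 hm).2.2 y).1 ⟨hy, hyA⟩).2
  obtain ⟨d₀, hd₀H, hd₀c, hd₀M⟩ := common_fix hD Q hQ K M hKL hKM hMQ ha haK hMK hMA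
  haveI : Nonempty {d : G // d ∈ H a ∧ ∀ m ∈ M, d⁻¹ * m * d ∈ L} := ⟨⟨d₀, hd₀H, hd₀M⟩⟩
  obtain ⟨⟨d, hdH, hdM⟩, hmax⟩ := Finite.exists_max
    (fun d : {d : G // d ∈ H a ∧ ∀ m ∈ M, d⁻¹ * m * d ∈ L} => Nat.card ↥(cj Q (d : G) ⊓ L))
  have hda : d * a = a * d := ((dade_commute hD ha hdH).eq).symm
  have haQd : a ∈ cj Q d := by rw [mem_cj, comm_conj hda]; exact haQ
  haveI : Group.IsNilpotent (cj Q d) := cj_nilpotent Q d
  have hQd : ∀ a ∈ A, Nat.Coprime (Nat.card (cj Q d)) (Nat.card (H a)) := by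
    intro b hb; rw [card_cj]; exact hQ b hb
  have hAdm_d : Adm A L (cj Q d) := by
    by_contra hnot
    obtain ⟨d₂, hd₂H, hd₂c, hlt⟩ := improve hD (cj Q d) hQd ha haQd hnot
    rw [cj_cj] at hlt
    have hmem : ∀ m ∈ M, (d * d₂)⁻¹ * m * (d * d₂) ∈ L := by
      intro m hm
      have hx : d⁻¹ * m * d ∈ cj Q d ⊓ L := by
        refine Subgroup.mem_inf.2 ⟨?_, hdM m hm⟩
        rw [mem_cj]
        have e1 : d * (d⁻¹ * m * d) * d⁻¹ = m := by group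
        rw [e1]; exact hMQ hm
      have e2 : (d * d₂)⁻¹ * m * (d * d₂) = d₂⁻¹ * (d⁻¹ * m * d) * d₂ := by group
      rw [e2, comm_conj' (hd₂c _ hx)]
      exact hdM m hm
    have := hmax ⟨d * d₂, Subgroup.mul_mem _ hdH hd₂H, hmem⟩
    exact absurd this (not_le.2 hlt)
  have hK₁ : Nat.card K < Nat.card ↥(Q ⊓ L ⊓ cj L d⁻¹) := by
    refine card_lt_of_mem (x := e) ?_ ?_ heK
    · intro f hf
      refine Subgroup.mem_inf.2 ⟨hKF hf, ?_⟩
      rw [mem_cj, inv_inv]; exact hdM f (hKM hf)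
    · refine Subgroup.mem_inf.2 ⟨heF, ?_⟩
      rw [mem_cj, inv_inv]; exact hdM e heM
  have hK₁Q : Nat.card ↥(Q ⊓ L ⊓ cj L d⁻¹) ≤ Nat.card Q :=
    Subgroup.card_le_of_le (inf_le_left.trans inf_le_left)
  have hKcard : Nat.card K ≤ Nat.card Q := Subgroup.card_le_of_le hKQ
  have ih1 := ih _ (by omega) Q hQnil hQ a d ha haQ hdH hAdm hAdm_d rfl
  have hdh : d⁻¹ * h ∈ H a := Subgroup.mul_mem _ (Subgroup.inv_mem _ hdH) hh
  have hAdm2 : Adm A L (cj (cj Q d) (d⁻¹ * h)) := by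
    rw [cj_cj, mul_inv_cancel_left]; exact hAdm'
  have hK₂ : Nat.card K < Nat.card ↥(cj Q d ⊓ L ⊓ cj L (d⁻¹ * h)⁻¹) := by
    rw [← card_cj K d]
    refine card_lt_of_mem (x := d⁻¹ * e' * d) ?_ ?_ ?_
    · intro x hx
      rw [mem_cj] at hx
      have hxL : x ∈ L := by
        have := hdM _ (hKM hx)
        have e1 : d⁻¹ * (d * x * d⁻¹) * d = x := by group
        rwa [e1] at this
      refine Subgroup.mem_inf.2 ⟨Subgroup.mem_inf.2 ⟨?_, hxL⟩, ?_⟩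
      · rw [mem_cj]; exact hKQ hx
      · rw [mem_cj, inv_inv]
        have e1 : (d⁻¹ * h)⁻¹ * x * (d⁻¹ * h) = h⁻¹ * (d * x * d⁻¹) * h := by group
        rw [e1]; exact ((hKmem _).1 hx).2.2
    · refine Subgroup.mem_inf.2 ⟨Subgroup.mem_inf.2 ⟨?_, hdM e' he'M⟩, ?_⟩
      · rw [mem_cj]
        have e1 : d * (d⁻¹ * e' * d) * d⁻¹ = e' := by group
        rw [e1]; exact he'Q
      · rw [mem_cj, inv_inv]
        have e1 : (d⁻¹ * h)⁻¹ * (d⁻¹ * e' * d) * (d⁻¹ * h) = h⁻¹ * e' * h := by group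
        rw [e1]; exact he'L
    · rw [mem_cj]
      have e1 : d * (d⁻¹ * e' * d) * d⁻¹ = e' := by group
      rw [e1]; exact he'K
  have hK₂Q : Nat.card ↥(cj Q d ⊓ L ⊓ cj L (d⁻¹ * h)⁻¹) ≤ Nat.card (cj Q d) :=
    Subgroup.card_le_of_le (inf_le_left.trans inf_le_left)
  have hcQd := card_cj Q d
  have ih2 := ih _ (by omega) (cj Q d) (cj_nilpotent Q d) hQd a (d⁻¹ * h) ha haQd hdh
    hAdm_d hAdm2 rfl
  intro y hy
  have hyd : d⁻¹ * y * d ∈ cj Q d := by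
    rw [mem_cj]
    have e1 : d * (d⁻¹ * y * d) * d⁻¹ = y := by group
    rw [e1]; exact hy
  have e3 : (d⁻¹ * h)⁻¹ * (d⁻¹ * y * d) * (d⁻¹ * h) = h⁻¹ * y * h := by group
  rw [← e3]
  exact (ih1 y hy).trans (ih2 _ hyd)

end Cfsg.Agent.Lib.helper22.DadeA
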