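import Cfsg.Agent.Lib.helper22.DadeC

set_option autoImplicit false

namespace Cfsg.Agent.Lib.helper22.DadeA

open Cfsg
open Cfsg.Agent.Lib.helper24

universe u

variable {G : Type u} [Group G] {A : Set G} {L : Subgroup G} {H : G → Subgroup G}

theorem genChar_comp {H' : Type u} [Group H'] {G' : Type u} [Group G'] (f : H' →* G')
    {χ : G' → ℂ} (h : IsGeneralizedCharacter G' χ) : IsGeneralizedCharacter H' (χ ∘ f) := by
  obtain ⟨a, b, ha, hb, rfl⟩ := h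
  exact ⟨a ∘ f, b ∘ f, isCharacter_comp f ha, isCharacter_comp f hb, rfl⟩

theorem adm_cj_L (hD : DadeHypothesis A L H) {Q : Subgroup G} {l : G} (hl : l ∈ L)
    (h : Adm A L Q) : Adm A L (cj Q l) := by
  obtain ⟨⟨y, hyQ, hyA⟩, hN⟩ := h
  refine ⟨⟨l⁻¹ * y * l, ?_, (conj_mem_iff' hD hl y).1 hyA⟩, ?_⟩
  · rw [mem_cj]
    have e1 : l * (l⁻¹ * y * l) * l⁻¹ = y := by group
    rw [e1]; exact hyQ
  · intro e he hnorm
    rw [mem_cj] at he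
    have hL : l * e * l⁻¹ ∈ L := by
      apply hN _ he
      intro y hy
      have hy2 : l⁻¹ * y * l ∈ cj Q l := by
        rw [mem_cj]
        have e1 : l * (l⁻¹ * y * l) * l⁻¹ = y := by group
        rw [e1]; exact hy
      have e2 : l * e * l⁻¹ * y * (l * e * l⁻¹)⁻¹ = l * (e * (l⁻¹ * y * l) * e⁻¹) * l⁻¹ := by
        group
      rw [e2, ← conj_mem_iff hD hl, ← hnorm _ hy2]
      exact conj_mem_iff' hD hl y
    have := Subgroup.mul_mem _ (Subgroup.mul_mem _ (Subgroup.inv_mem _ hl) hL) hl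
    have e3 : l⁻¹ * (l * e * l⁻¹) * l = e := by group
    rwa [e3] at this

theorem cj_mul_left {P : Subgroup G} {e : G} (he : e ∈ P) (t : G) : cj P (e * t) = cj P t := by
  rw [← cj_cj, cj_mem_self he]

theorem exists_adm [Finite G] (hD : DadeHypothesis A L H) (P : Subgroup G)
    [Group.IsNilpotent P] (hP : ∀ a ∈ A, Nat.Coprime (Nat.card P) (Nat.card (H a)))
    {x t : G} (hx : x ∈ P) (hxt : t⁻¹ * x * t ∈ A) :
    ∃ t', Adm A L (cj P t') ∧ t'⁻¹ * x * t' ∈ A := by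
  haveI : Nonempty {t' : G // t'⁻¹ * x * t' ∈ A} := ⟨⟨t, hxt⟩⟩
  obtain ⟨⟨t', ht'⟩, hmax⟩ := Finite.exists_max
    (fun t' : {t' : G // t'⁻¹ * x * t' ∈ A} => Nat.card ↥(cj P (t' : G) ⊓ L))
  refine ⟨t', ?_, ht'⟩
  by_contra hnot
  haveI : Group.IsNilpotent (cj P t') := cj_nilpotent P t'
  have hQ : ∀ a ∈ A, Nat.Coprime (Nat.card (cj P t')) (Nat.card (H a)) := by
    intro b hb; rw [card_cj]; exact hP b hb
  have haQ : t'⁻¹ * x * t' ∈ cj P t' := by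
    rw [mem_cj]
    have e1 : t' * (t'⁻¹ * x * t') * t'⁻¹ = x := by group
    rw [e1]; exact hx
  obtain ⟨d, hdH, -, hlt⟩ := improve hD (cj P t') hQ ht' haQ hnot
  rw [cj_cj] at hlt
  have hda : d * (t'⁻¹ * x * t') = (t'⁻¹ * x * t') * d :=
    ((dade_commute hD ht' hdH).eq).symm
  have hmem : (t' * d)⁻¹ * x * (t' * d) ∈ A := by
    have e1 : (t' * d)⁻¹ * x * (t' * d) = d⁻¹ * (t'⁻¹ * x * t') * d := by group
    rw [e1, comm_conj' hda]; exact ht'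
  have := hmax ⟨t' * d, hmem⟩
  exact absurd this (not_le.2 hlt)

theorem adm_eq_top [Finite G] (hD : DadeHypothesis A L H) (P : Subgroup G)
    [Group.IsNilpotent P] (hP : ∀ a ∈ A, Nat.Coprime (Nat.card P) (Nat.card (H a)))
    {x t t' : G} (hx : x ∈ P) (hxt : t⁻¹ * x * t ∈ A) (hxt' : t'⁻¹ * x * t' ∈ A)
    (hAdm : Adm A L (cj P t)) (hAdm' : Adm A L (cj P t')) :
    ∀ y ∈ P, (t⁻¹ * y * t ∈ A ↔ t'⁻¹ * y * t' ∈ A) := by
  obtain ⟨a, hadef⟩ : ∃ a, a = t⁻¹ * x * t := ⟨_, rfl⟩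
  have ha : a ∈ A := by rw [hadef]; exact hxt
  have hg : (t'⁻¹ * t) * a * (t'⁻¹ * t)⁻¹ ∈ A := by
    have e1 : (t'⁻¹ * t) * a * (t'⁻¹ * t)⁻¹ = t'⁻¹ * x * t' := by rw [hadef]; group
    rw [e1]; exact hxt'
  obtain ⟨l, hl, hl2⟩ := hD.fusion a ha _ hg
  have hc : l⁻¹ * (t'⁻¹ * t) ∈ Subgroup.centralizer ({a} : Set G) := by
    rw [mem_centralizer_singleton]
    calc a * (l⁻¹ * (t'⁻¹ * t)) = l⁻¹ * (l * a * l⁻¹) * (t'⁻¹ * t) := by group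
      _ = l⁻¹ * ((t'⁻¹ * t) * a * (t'⁻¹ * t)⁻¹) * (t'⁻¹ * t) := by rw [hl2]
      _ = l⁻¹ * (t'⁻¹ * t) * a := by group
  obtain ⟨c', hc', h₀, hh₀, hdec⟩ := dade_decomp hD ha hc
  obtain ⟨l₁, hl₁def⟩ : ∃ l₁, l₁ = (l * c')⁻¹ := ⟨_, rfl⟩
  have hl₁ : l₁ ∈ L := by
    rw [hl₁def]; exact Subgroup.inv_mem _ (Subgroup.mul_mem _ hl hc'.1)
  have ht' : t' = t * h₀⁻¹ * l₁ := by
    rw [hl₁def]
    have h1 : t'⁻¹ * t = l * (c' * h₀) := by rw [← hdec]; group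
    calc t' = t * (t'⁻¹ * t)⁻¹ := by group
      _ = t * (l * (c' * h₀))⁻¹ := by rw [h1]
      _ = t * h₀⁻¹ * (l * c')⁻¹ := by group
  have hhH : h₀⁻¹ ∈ H a := Subgroup.inv_mem _ hh₀
  haveI : Group.IsNilpotent (cj P t) := cj_nilpotent P t
  have hQ : ∀ a ∈ A, Nat.Coprime (Nat.card (cj P t)) (Nat.card (H a)) := by
    intro b hb; rw [card_cj]; exact hP b hb
  have haQ : a ∈ cj P t := by
    rw [mem_cj, hadef]
    have e1 : t * (t⁻¹ * x * t) * t⁻¹ = x := by group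
    rw [e1]; exact hx
  have hAdm2 : Adm A L (cj (cj P t) h₀⁻¹) := by
    have h1 : Adm A L (cj (cj P t') l₁⁻¹) := adm_cj_L hD (Subgroup.inv_mem _ hl₁) hAdm'
    rw [cj_cj, ht'] at h1
    have e1 : t * h₀⁻¹ * l₁ * l₁⁻¹ = t * h₀⁻¹ := by group
    rw [e1, ← cj_cj] at h1
    exact h1
  have key := adm_eq hD _ (cj P t) (cj_nilpotent P t) hQ a h₀⁻¹ ha haQ hhH hAdm hAdm2 rfl
  intro y hy
  have hy' : t⁻¹ * y * t ∈ cj P t := by
    rw [mem_cj]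
    have e1 : t * (t⁻¹ * y * t) * t⁻¹ = y := by group
    rw [e1]; exact hy
  have e2 : t'⁻¹ * y * t' = l₁⁻¹ * (h₀⁻¹⁻¹ * (t⁻¹ * y * t) * h₀⁻¹) * l₁ := by
    rw [ht']; group
  rw [e2, ← conj_mem_iff' hD hl₁]
  exact key _ hy'

theorem U_sub [Finite G] (hD : DadeHypothesis A L H) (P : Subgroup G)
    [Group.IsNilpotent P] (hP : ∀ a ∈ A, Nat.Coprime (Nat.card P) (Nat.card (H a)))
    {t t₀ : G} (hAdm : Adm A L (cj P t)) (hAdm₀ : Adm A L (cj P t₀)) {x : G} (hx : x ∈ P)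
    {e e₀ : G} (he : e ∈ P) (he₀ : e₀ ∈ P) (h1 : (e * t)⁻¹ * x * (e * t) ∈ A)
    (h2 : (e₀ * t₀)⁻¹ * x * (e₀ * t₀) ∈ A) {z : G} (hz : z ∈ P) {e₁ : G} (he₁ : e₁ ∈ P)
    (h3 : (e₁ * t)⁻¹ * z * (e₁ * t) ∈ A) :
    ∃ e₂ ∈ P, (e₂ * t₀)⁻¹ * z * (e₂ * t₀) ∈ A := by
  have hA1 : Adm A L (cj P (e * t)) := by rw [cj_mul_left he]; exact hAdm
  have hA2 : Adm A L (cj P (e₀ * t₀)) := by rw [cj_mul_left he₀]; exact hAdm₀
  have key := adm_eq_top hD P hP hx h1 h2 hA1 hA2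
  have hy : e * e₁⁻¹ * z * e₁ * e⁻¹ ∈ P :=
    P.mul_mem (P.mul_mem (P.mul_mem (P.mul_mem he (P.inv_mem he₁)) hz) he₁) (P.inv_mem he)
  have e4 : (e * t)⁻¹ * (e * e₁⁻¹ * z * e₁ * e⁻¹) * (e * t) = (e₁ * t)⁻¹ * z * (e₁ * t) := by
    group
  have h5 := (key _ hy).1 (by rw [e4]; exact h3)
  refine ⟨e₁ * e⁻¹ * e₀, P.mul_mem (P.mul_mem he₁ (P.inv_mem he)) he₀, ?_⟩
  have e6 : (e₁ * e⁻¹ * e₀ * t₀)⁻¹ * z * (e₁ * e⁻¹ * e₀ * t₀)
      = (e₀ * t₀)⁻¹ * (e * e₁⁻¹ * z * e₁ * e⁻¹) * (e₀ * t₀) := by group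
  rw [e6]; exact h5

def Ft (L P : Subgroup G) (t : G) : Subgroup P where
  carrier := {x | t⁻¹ * (x : G) * t ∈ L}
  mul_mem' := by
    intro a b ha hb
    have := L.mul_mem ha hb
    have e : t⁻¹ * (a : G) * t * (t⁻¹ * (b : G) * t) = t⁻¹ * ((a * b : P) : G) * t := by
      rw [Subgroup.coe_mul]; group
    rw [e] at this; exact this
  one_mem' := by
    show t⁻¹ * ((1 : P) : G) * t ∈ L
    rw [Subgroup.coe_one, mul_one, inv_mul_cancel]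
    exact L.one_mem
  inv_mem' := by
    intro a ha
    have := L.inv_mem ha
    have e : (t⁻¹ * (a : G) * t)⁻¹ = t⁻¹ * ((a⁻¹ : P) : G) * t := by
      rw [Subgroup.coe_inv]; group
    rw [e] at this; exact this

theorem mem_Ft {P : Subgroup G} {t : G} {x : P} :
    x ∈ Ft L P t ↔ t⁻¹ * (x : G) * t ∈ L := Iff.rfl

def FtHom (L P : Subgroup G) (t : G) : Ft L P t →* L where
  toFun f := ⟨t⁻¹ * ((f : P) : G) * t, f.2⟩
  map_one' := Subtype.ext (by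
    show t⁻¹ * (((1 : Ft L P t) : P) : G) * t = ((1 : L) : G)
    rw [Subgroup.coe_one, Subgroup.coe_one, Subgroup.coe_one, mul_one, inv_mul_cancel])
  map_mul' a b := Subtype.ext (by
    show t⁻¹ * (((a * b : Ft L P t) : P) : G) * t
      = t⁻¹ * ((a : P) : G) * t * (t⁻¹ * ((b : P) : G) * t)
    rw [Subgroup.coe_mul, Subgroup.coe_mul]; group)

theorem FtHom_apply {P : Subgroup G} {t : G} (f : Ft L P t) :
    ((FtHom L P t f : L) : G) = t⁻¹ * ((f : P) : G) * t := rfl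

end Cfsg.Agent.Lib.helper22.DadeA
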