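import Cfsg.Agent.Lib.helper22.DadeD
import Cfsg.Agent.Lib.helper8.GenChar

set_option autoImplicit false

namespace Cfsg.Agent.Lib.helper22.DadeA

open Cfsg
open Cfsg.Agent.Lib.helper24

universe u

variable {G : Type u} [Group G] {A : Set G} {L : Subgroup G} {H : G → Subgroup G}

open Classical in
theorem ind_formula [Fintype G] (hD : DadeHypothesis A L H) (P : Subgroup G) [Fintype P]
    [Group.IsNilpotent P] (hP : ∀ a ∈ A, Nat.Coprime (Nat.card P) (Nat.card (H a)))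
    (α : L → ℂ) (hα : IsClassFunction L α) (hαA : ∀ x : L, (x : G) ∉ A → α x = 0)
    {t : G} (hAdm : Adm A L (cj P t)) (x : P) :
    indFun (Ft L P t) (α ∘ FtHom L P t) x =
      if (∃ e : P, ((e : G) * t)⁻¹ * (x : G) * ((e : G) * t) ∈ A) then
        dadeIsometry A L H α (x : G) else 0 := by
  classical
  unfold indFun
  have hterm : ∀ e : P, extendByZero (Ft L P t) (α ∘ FtHom L P t) (e⁻¹ * x * e) =
      if ((e : G) * t)⁻¹ * (x : G) * ((e : G) * t) ∈ A then
        dadeIsometry A L H α (x : G) else 0 := by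
    intro e
    have e1 : t⁻¹ * ((e⁻¹ * x * e : P) : G) * t
        = ((e : G) * t)⁻¹ * (x : G) * ((e : G) * t) := by
      simp only [Subgroup.coe_mul, Subgroup.coe_inv]; group
    by_cases hmem : e⁻¹ * x * e ∈ Ft L P t
    · rw [extendByZero_apply_mem _ _ hmem]
      by_cases hA : ((e : G) * t)⁻¹ * (x : G) * ((e : G) * t) ∈ A
      · rw [if_pos hA]
        symm
        refine dade_welldef hD α hα (x : G) (FtHom L P t ⟨e⁻¹ * x * e, hmem⟩) ?_
          (((e : G) * t)⁻¹) 1 (Subgroup.one_mem _) ?_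
        · rw [FtHom_apply, e1]; exact hA
        · rw [FtHom_apply, e1]; group
      · rw [if_neg hA]
        apply hαA
        rw [FtHom_apply, e1]; exact hA
    · rw [extendByZero_apply_not_mem _ _ hmem, if_neg]
      intro hA
      apply hmem
      rw [mem_Ft, e1]
      exact hD.subset hA
  rw [Finset.sum_congr rfl (fun e _ => hterm e)]
  by_cases hex : ∃ e : P, ((e : G) * t)⁻¹ * (x : G) * ((e : G) * t) ∈ A
  · rw [if_pos hex]
    obtain ⟨e₀, he₀⟩ := hex
    have hfwd : ∀ f : Ft L P t, (((e₀ * (f : P) : P) : G) * t)⁻¹ * (x : G)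
        * (((e₀ * (f : P) : P) : G) * t) ∈ A := by
      intro f
      have hl : t⁻¹ * ((f : P) : G) * t ∈ L := f.2
      have e2 : (((e₀ * (f : P) : P) : G) * t)⁻¹ * (x : G) * (((e₀ * (f : P) : P) : G) * t)
          = (t⁻¹ * ((f : P) : G) * t)⁻¹ * (((e₀ : G) * t)⁻¹ * (x : G) * ((e₀ : G) * t))
            * (t⁻¹ * ((f : P) : G) * t) := by
        rw [Subgroup.coe_mul]; group
      rw [e2, ← conj_mem_iff' hD hl]
      exact he₀
    have hback : ∀ e : P, ((e : G) * t)⁻¹ * (x : G) * ((e : G) * t) ∈ A →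
        e₀⁻¹ * e ∈ Ft L P t := by
      intro e he
      have hA1 : Adm A L (cj P ((e₀ : G) * t)) := by rw [cj_mul_left e₀.2]; exact hAdm
      have hA2 : Adm A L (cj P ((e : G) * t)) := by rw [cj_mul_left e.2]; exact hAdm
      have key := adm_eq_top hD P hP x.2 he₀ he hA1 hA2
      have h3 : t⁻¹ * ((e : G)⁻¹ * (e₀ : G)) * t ∈ L := by
        apply hAdm.2
        · rw [mem_cj]
          have e3 : t * (t⁻¹ * ((e : G)⁻¹ * (e₀ : G)) * t) * t⁻¹ = (e : G)⁻¹ * (e₀ : G) := by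
            group
          rw [e3]; exact P.mul_mem (P.inv_mem e.2) e₀.2
        · intro y₂ hy₂
          rw [mem_cj] at hy₂
          have hy : (e₀ : G) * (t * y₂ * t⁻¹) * (e₀ : G)⁻¹ ∈ P :=
            P.mul_mem (P.mul_mem e₀.2 hy₂) (P.inv_mem e₀.2)
          have e4 : ((e₀ : G) * t)⁻¹ * ((e₀ : G) * (t * y₂ * t⁻¹) * (e₀ : G)⁻¹)
              * ((e₀ : G) * t) = y₂ := by group
          have e5 : ((e : G) * t)⁻¹ * ((e₀ : G) * (t * y₂ * t⁻¹) * (e₀ : G)⁻¹) * ((e : G) * t)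
              = t⁻¹ * ((e : G)⁻¹ * (e₀ : G)) * t * y₂
                * (t⁻¹ * ((e : G)⁻¹ * (e₀ : G)) * t)⁻¹ := by group
          have := key _ hy
          rw [e4, e5] at this
          exact this
      rw [mem_Ft]
      have := L.inv_mem h3
      have e6 : (t⁻¹ * ((e : G)⁻¹ * (e₀ : G)) * t)⁻¹ = t⁻¹ * ((e₀⁻¹ * e : P) : G) * t := by
        rw [Subgroup.coe_mul, Subgroup.coe_inv]; group
      rwa [e6] at this
    have hcount : (Finset.univ.filter
        (fun e : P => ((e : G) * t)⁻¹ * (x : G) * ((e : G) * t) ∈ A)).card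
        = Nat.card (Ft L P t) := by
      rw [← Fintype.card_subtype, ← Nat.card_eq_fintype_card]
      symm
      apply Nat.card_congr
      refine Equiv.ofBijective
        (fun f : Ft L P t => (⟨e₀ * (f : P), hfwd f⟩ :
          {e : P // ((e : G) * t)⁻¹ * (x : G) * ((e : G) * t) ∈ A})) ⟨?_, ?_⟩
      · intro f f' hff
        have h1 : e₀ * (f : P) = e₀ * (f' : P) := congrArg Subtype.val hff
        exact Subtype.ext (mul_left_cancel h1)
      · rintro ⟨e, he⟩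
        refine ⟨⟨e₀⁻¹ * e, hback e he⟩, ?_⟩
        apply Subtype.ext
        show e₀ * (e₀⁻¹ * e) = e
        group
    rw [Finset.sum_ite, Finset.sum_const, Finset.sum_const_zero, add_zero, hcount,
      nsmul_eq_mul, ← mul_assoc, inv_mul_cancel₀, one_mul]
    exact Nat.cast_ne_zero.2 (Nat.card_pos).ne'
  · rw [if_neg hex]
    push Not at hex
    rw [Finset.sum_eq_zero, mul_zero]
    intro e _
    rw [if_neg (hex e)]

theorem dade_zero_of_not_conj [Finite G] (hD : DadeHypothesis A L H) (P : Subgroup G)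
    (hP : ∀ a ∈ A, Nat.Coprime (Nat.card P) (Nat.card (H a))) (α : L → ℂ) {x : G}
    (hx : x ∈ P) (hne : dadeIsometry A L H α x ≠ 0) : ∃ t : G, t⁻¹ * x * t ∈ A := by
  have hsupp : DadeSupp A L H x := by
    by_contra h
    exact hne (dade_eq_zero α x h)
  obtain ⟨a, haA, x', u, hu, hx'⟩ := hsupp
  have hxn : x ^ Nat.card P = 1 :=
    orderOf_dvd_iff_pow_eq_one.1 (Subgroup.orderOf_dvd_natCard P hx)
  have h1 : ((a : G) * u) ^ Nat.card P = 1 := by
    rw [← hx', conj_pow, hxn]; group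
  rw [(dade_commute hD haA hu).mul_pow] at h1
  have h2 : (a : G) ^ Nat.card P ∈ H (a : G) := by
    have : (a : G) ^ Nat.card P = (u ^ Nat.card P)⁻¹ := eq_inv_of_mul_eq_one_left h1
    rw [this]; exact Subgroup.inv_mem _ (Subgroup.pow_mem _ hu _)
  have h3 := H_inf_L hD haA h2 (Subgroup.pow_mem _ a.2 _)
  rw [h3, one_mul] at h1
  have h4 : orderOf u ∣ Nat.card P := orderOf_dvd_of_pow_eq_one h1
  have h5 : orderOf u ∣ Nat.card (H (a : G)) := Subgroup.orderOf_dvd_natCard _ hu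
  have h6 := Nat.dvd_gcd h4 h5
  rw [(hP _ haA).gcd_eq_one, Nat.dvd_one] at h6
  have hu1 : u = 1 := orderOf_eq_one_iff.mp h6
  refine ⟨x'⁻¹, ?_⟩
  rw [inv_inv, hx', hu1, mul_one]
  exact haA

theorem dade_restrict_genChar [Fintype G] (hD : DadeHypothesis A L H) (P : Subgroup G)
    [Group.IsNilpotent P] (hP : ∀ a ∈ A, Nat.Coprime (Nat.card P) (Nat.card (H a)))
    (α : L → ℂ) (hα : IsGeneralizedCharacter L α)
    (hαA : ∀ x : L, (x : G) ∉ A → α x = 0) :
    IsGeneralizedCharacter P (fun x : P => dadeIsometry A L H α (x : G)) := by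
  classical
  haveI : Fintype P := Fintype.ofFinite P
  have hαcl : IsClassFunction L α := Cfsg.Agent.Lib.helper8.genchar_isClassFunction hα
  obtain ⟨U, hUdef⟩ : ∃ U : G → Set P, U = fun t =>
      {x : P | ∃ e : P, ((e : G) * t)⁻¹ * (x : G) * ((e : G) * t) ∈ A} := ⟨_, rfl⟩
  obtain ⟨𝒰, h𝒰def⟩ : ∃ 𝒰 : Finset (Set P),
      𝒰 = (Finset.univ.filter (fun t : G => Adm A L (cj P t))).image U := ⟨_, rfl⟩
  have h𝒰mem : ∀ V, V ∈ 𝒰 ↔ ∃ t, Adm A L (cj P t) ∧ U t = V := by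
    intro V
    rw [h𝒰def, Finset.mem_image]
    constructor
    · rintro ⟨t, ht, rfl⟩
      exact ⟨t, (Finset.mem_filter.1 ht).2, rfl⟩
    · rintro ⟨t, ht, rfl⟩
      exact ⟨t, Finset.mem_filter.2 ⟨Finset.mem_univ _, ht⟩, rfl⟩
  have hUmem : ∀ t (x : P), x ∈ U t ↔
      ∃ e : P, ((e : G) * t)⁻¹ * (x : G) * ((e : G) * t) ∈ A := by
    intro t x
    rw [hUdef]; rfl
  have hUsub : ∀ t t₀, Adm A L (cj P t) → Adm A L (cj P t₀) → ∀ x : P, x ∈ U t → x ∈ U t₀ →
      ∀ z : P, z ∈ U t → z ∈ U t₀ := by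
    intro t t₀ hAdm hAdm₀ x hxt hxt₀ z hz
    rw [hUmem] at hxt hxt₀ hz ⊢
    obtain ⟨e, he⟩ := hxt
    obtain ⟨e₀, he₀⟩ := hxt₀
    obtain ⟨e₁, he₁⟩ := hz
    obtain ⟨e₂, he₂P, he₂⟩ := U_sub hD P hP hAdm hAdm₀ x.2 e.2 e₀.2 he he₀ z.2 e₁.2 he₁
    exact ⟨⟨e₂, he₂P⟩, he₂⟩
  have hsum : (fun x : P => dadeIsometry A L H α (x : G)) =
      ∑ V ∈ 𝒰, (fun x : P => if x ∈ V then dadeIsometry A L H α (x : G) else 0) := by
    funext x
    rw [Finset.sum_apply]
    by_cases hex : ∃ V ∈ 𝒰, x ∈ V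
    · obtain ⟨V₀, hV₀, hxV₀⟩ := hex
      have hiff : ∀ V ∈ 𝒰, (x ∈ V ↔ V = V₀) := by
        intro V hV
        constructor
        · intro hxV
          obtain ⟨t, ht, rfl⟩ := (h𝒰mem V).1 hV
          obtain ⟨t₀, ht₀, rfl⟩ := (h𝒰mem V₀).1 hV₀
          ext z
          exact ⟨hUsub t t₀ ht ht₀ x hxV hxV₀ z, hUsub t₀ t ht₀ ht x hxV₀ hxV z⟩
        · intro h; rw [h]; exact hxV₀
      rw [Finset.sum_congr rfl (fun V hV => if_congr (hiff V hV) rfl rfl),
        Finset.sum_ite_eq' 𝒰 V₀ (fun _ => dadeIsometry A L H α (x : G)), if_pos hV₀]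
    · push Not at hex
      rw [Finset.sum_eq_zero (fun V hV => if_neg (hex V hV))]
      by_contra hne
      obtain ⟨t, ht⟩ := dade_zero_of_not_conj hD P hP α x.2 hne
      obtain ⟨t', hAdm, ht'⟩ := exists_adm hD P hP x.2 ht
      apply hex (U t') ((h𝒰mem _).2 ⟨t', hAdm, rfl⟩)
      rw [hUmem]
      refine ⟨1, ?_⟩
      rw [Subgroup.coe_one, one_mul]
      exact ht'
  rw [hsum]
  apply Cfsg.Agent.Lib.helper23.genChar_finset_sum
  intro V hV
  obtain ⟨t, hAdm, rfl⟩ := (h𝒰mem V).1 hV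
  have hEq : (fun x : P => if x ∈ U t then dadeIsometry A L H α (x : G) else 0)
      = indFun (Ft L P t) (α ∘ FtHom L P t) := by
    funext x
    rw [ind_formula hD P hP α hαcl hαA hAdm x]
    exact if_congr (hUmem t x) rfl rfl
  rw [hEq]
  exact genChar_indFun _ (genChar_comp _ hα)

end Cfsg.Agent.Lib.helper22.DadeA
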