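import Cfsg.Agent.Lib.helper22.DadeE

set_option autoImplicit false

namespace Cfsg.Agent.Lib.helper22.DadeA

open Cfsg
open Cfsg.Agent.Lib.helper24

universe u

variable {G : Type u} [Group G] {A : Set G} {L : Subgroup G} {H : G → Subgroup G}

theorem dade_pow_eq [Finite G] (hD : DadeHypothesis A L H) (α : L → ℂ)
    (hα : IsClassFunction L α) {q : ℕ} {a₀ : G} (ha₀ : a₀ ∈ A)
    (hqH : q ∣ Nat.card (H a₀)) {x : G} {m n' k v : ℕ} (hm : m = q ^ v)
    (hx : x ^ (m * n') = 1) (hkn : k ≡ 1 [MOD n']) :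
    dadeIsometry A L H α (x ^ k) = dadeIsometry A L H α x := by
  have hqcop : ∀ a ∈ A, Nat.Coprime m (Nat.card ↥(L ⊓ Subgroup.centralizer ({a} : Set G))) := by
    intro a ha
    rw [hm]
    exact Nat.Coprime.pow_left v (Nat.Coprime.coprime_dvd_left hqH (hD.coprime a₀ ha₀ a ha))
  obtain ⟨z, hzdef⟩ : ∃ z, z = (x ^ k)⁻¹ * x := ⟨_, rfl⟩
  have hxyz : x = x ^ k * z := by rw [hzdef]; group
  have hzy : z * x ^ k = x ^ k * z := by
    rw [hzdef]
    calc (x ^ k)⁻¹ * x * x ^ k = (x ^ k)⁻¹ * (x * x ^ k) := by group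
      _ = (x ^ k)⁻¹ * (x ^ k * x) := by rw [pow_mul_comm']
      _ = x ^ k * ((x ^ k)⁻¹ * x) := by group
  have hordx : orderOf x ∣ n' * m := by
    rw [mul_comm]; exact orderOf_dvd_of_pow_eq_one hx
  have hzm : z ^ m = 1 := by
    have hc : Commute (x ^ k)⁻¹ x := ((Commute.refl x).pow_left k).inv_left
    rw [hzdef, hc.mul_pow, inv_pow, ← pow_mul]
    have h1 : k * m ≡ 1 * m [MOD n' * m] := Nat.ModEq.mul_right' m hkn
    rw [one_mul] at h1
    rw [pow_eq_pow_iff_modEq.2 (h1.of_dvd hordx)]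
    group
  by_cases hs : DadeSupp A L H x
  · obtain ⟨a, haA, g, u, hu, hg⟩ := hs
    have hcomm := dade_commute hD haA hu
    have h1 : ((a : G) * u) ^ (m * n') = 1 := by
      rw [← hg, conj_pow, hx]; group
    rw [hcomm.mul_pow] at h1
    have h2 : (a : G) ^ (m * n') ∈ H (a : G) := by
      have : (a : G) ^ (m * n') = (u ^ (m * n'))⁻¹ := eq_inv_of_mul_eq_one_left h1
      rw [this]; exact Subgroup.inv_mem _ (Subgroup.pow_mem _ hu _)
    have h3 := H_inf_L hD haA h2 (Subgroup.pow_mem _ a.2 _)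
    have h4 : orderOf (a : G) ∣ m * n' := orderOf_dvd_of_pow_eq_one h3
    have h5 : orderOf (a : G) ∣ Nat.card ↥(L ⊓ Subgroup.centralizer ({(a : G)} : Set G)) :=
      Subgroup.orderOf_dvd_natCard _ (dade_mem_CL hD haA)
    have h6 : Nat.Coprime (orderOf (a : G)) m :=
      (Nat.Coprime.coprime_dvd_right h5 (hqcop _ haA)).symm
    have h7 : orderOf (a : G) ∣ n' := h6.dvd_of_dvd_mul_left h4
    have h8 : (a : G) ^ k = a := by
      have := pow_eq_pow_iff_modEq.2 (hkn.of_dvd h7)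
      rwa [pow_one] at this
    have h9 : g * x ^ k * g⁻¹ = (a : G) * u ^ k := by
      rw [← conj_pow, hg, hcomm.mul_pow, h8]
    rw [dade_welldef hD α hα _ a haA g (u ^ k) (Subgroup.pow_mem _ hu _) h9,
      dade_welldef hD α hα _ a haA g u hu hg]
  · by_cases hs' : DadeSupp A L H (x ^ k)
    · exfalso
      apply hs
      obtain ⟨a, haA, g, u, hu, hg⟩ := hs'
      have hcomm := dade_commute hD haA hu
      have hcop : Nat.Coprime (Nat.card ↥(L ⊓ Subgroup.centralizer ({(a : G)} : Set G)))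
          (Nat.card (H (a : G))) := (hD.coprime _ haA _ haA).symm
      obtain ⟨j, hj1, hj0⟩ := Nat.chineseRemainder hcop 1 0
      have e1 : (a : G) ^ j = a := by
        have := pow_eq_of_modEq_card (dade_mem_CL hD haA) hj1
        rwa [pow_one] at this
      have e3 : u ^ j = 1 := by
        have := pow_eq_of_modEq_card hu hj0
        rwa [pow_zero] at this
      have e5 : ((a : G) * u) ^ j = a := by rw [hcomm.mul_pow, e1, e3, mul_one]
      have hz' : Commute (g * z * g⁻¹) ((a : G) * u) := by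
        show g * z * g⁻¹ * ((a : G) * u) = (a : G) * u * (g * z * g⁻¹)
        rw [← hg]
        calc g * z * g⁻¹ * (g * x ^ k * g⁻¹) = g * (z * x ^ k) * g⁻¹ := by group
          _ = g * (x ^ k * z) * g⁻¹ := by rw [hzy]
          _ = g * x ^ k * g⁻¹ * (g * z * g⁻¹) := by group
      have hz'a : Commute (g * z * g⁻¹) (a : G) := by
        have := hz'.pow_right j
        rwa [e5] at this
      have hz'm : (g * z * g⁻¹) ^ m = 1 := by
        rw [conj_pow, hzm]; group
      have hz'H : g * z * g⁻¹ ∈ H (a : G) := by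
        apply mem_H_of_coprime hD haA (mem_centralizer_singleton.2 hz'a.eq.symm)
        exact Nat.Coprime.coprime_dvd_left (orderOf_dvd_of_pow_eq_one hz'm) (hqcop _ haA)
      refine ⟨a, haA, g, u * (g * z * g⁻¹), Subgroup.mul_mem _ hu hz'H, ?_⟩
      rw [← mul_assoc, ← hg]
      conv_lhs => rw [hxyz]
      group
    · rw [dade_eq_zero α _ hs, dade_eq_zero α _ hs']

theorem nilpotent_case [Fintype G] (hD : DadeHypothesis A L H) (α : L → ℂ)
    (hα : IsGeneralizedCharacter L α) (hαA : ∀ x : L, (x : G) ∉ A → α x = 0) :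
    ∀ (n : ℕ) (E : Subgroup G), Group.IsNilpotent E → Nat.card E = n →
      IsGeneralizedCharacter E (fun e : E => dadeIsometry A L H α (e : G)) := by
  intro n
  induction n using Nat.strong_induction_on with
  | _ n ih =>
  intro E hnil hcard
  classical
  haveI := hnil
  by_cases hcop : ∀ a ∈ A, Nat.Coprime (Nat.card E) (Nat.card (H a))
  · exact dade_restrict_genChar hD E hcop α hα hαA
  push Not at hcop
  obtain ⟨a₀, ha₀, hnc⟩ := hcop
  obtain ⟨q, hq, hqE, hqH⟩ := Nat.Prime.not_coprime_iff_dvd.mp hnc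
  have hαcl : IsClassFunction L α := Cfsg.Agent.Lib.helper8.genchar_isClassFunction hα
  have hE0 : Nat.card E ≠ 0 := Nat.card_pos.ne'
  obtain ⟨m, hmdef⟩ : ∃ m, m = q ^ (Nat.card E).factorization q := ⟨_, rfl⟩
  obtain ⟨n', hn'def⟩ : ∃ n', n' = Nat.card E / q ^ (Nat.card E).factorization q := ⟨_, rfl⟩
  have hmn : m * n' = Nat.card E := by
    rw [hmdef, hn'def]; exact Nat.ordProj_mul_ordCompl_eq_self _ _
  have hcopmn : Nat.Coprime m n' := by
    rw [hmdef, hn'def]
    exact Nat.Coprime.pow_left _ (Nat.coprime_ordCompl hq hE0)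
  have hqm : q ∣ m := by
    rw [hmdef]; exact Nat.dvd_ordProj_of_dvd hE0 hq hqE
  obtain ⟨k, hk0, hk1⟩ := Nat.chineseRemainder hcopmn 0 1
  have hkm : m ∣ k := (Nat.modEq_zero_iff_dvd).1 hk0
  have hpm := pow_mul_of_nilpotent hnil m n' k hcopmn (by rw [hmn]) hkm hk1
  obtain ⟨ψ, hψdef⟩ : ∃ ψ : E →* G, ψ = E.subtype.comp
      { toFun := fun x => x ^ k, map_one' := one_pow k, map_mul' := hpm } := ⟨_, rfl⟩
  have hψ : ∀ x : E, ψ x = (x : G) ^ k := by
    intro x; rw [hψdef]; rfl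
  haveI : Group.IsNilpotent ψ.range :=
    Group.nilpotent_of_surjective ψ.rangeRestrict ψ.rangeRestrict_surjective
  have hle : ψ.range ≤ E := by
    rintro y ⟨x, rfl⟩
    rw [hψ]; exact E.pow_mem x.2 k
  haveI : Fact q.Prime := ⟨hq⟩
  obtain ⟨y, hy⟩ := exists_prime_orderOf_dvd_card' (G := E) q hqE
  have hynot : (y : G) ∉ ψ.range := by
    rintro ⟨x, hx⟩
    rw [hψ] at hx
    have h1 : (y : G) ^ n' = 1 := by
      rw [← hx, ← pow_mul]
      obtain ⟨c, hc⟩ := hkm
      rw [hc, mul_assoc, mul_comm c n', ← mul_assoc, hmn, pow_mul]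
      have : (x : G) ^ Nat.card E = 1 :=
        orderOf_dvd_iff_pow_eq_one.1 (Subgroup.orderOf_dvd_natCard E x.2)
      rw [this, one_pow]
    have h2 : orderOf (y : G) ∣ n' := orderOf_dvd_of_pow_eq_one h1
    rw [Subgroup.orderOf_coe, hy] at h2
    have h3 := Nat.dvd_gcd hqm h2
    rw [hcopmn.gcd_eq_one, Nat.dvd_one] at h3
    exact hq.one_lt.ne' h3
  have hlt : Nat.card ψ.range < n := by
    rw [← hcard]; exact card_lt_of_mem hle y.2 hynot
  have ih1 := ih _ hlt ψ.range inferInstance rfl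
  have hEq : (fun e : E => dadeIsometry A L H α (e : G))
      = (fun e : ψ.range => dadeIsometry A L H α (e : G)) ∘ ψ.rangeRestrict := by
    funext x
    show _ = dadeIsometry A L H α (ψ x)
    rw [hψ]
    symm
    refine dade_pow_eq hD α hαcl ha₀ hqH hmdef ?_ hk1
    rw [hmn]
    exact orderOf_dvd_iff_pow_eq_one.1 (Subgroup.orderOf_dvd_natCard E x.2)
  rw [hEq]
  exact genChar_comp _ ih1

end Cfsg.Agent.Lib.helper22.DadeA
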