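import Mathlib
import Cfsg.Agent.Lib.helper22.SubsecNorm2
import Cfsg.Agent.Lib.helper23.CharSchur
import Cfsg.Agent.Lib.helper12.PSL2Deg
import Cfsg.Agent.S4494

set_option autoImplicit false

namespace Cfsg.Agent.Lib.helper22

open Cfsg Cfsg.Agent.Lib.helper24 Cfsg.Agent.Lib.helper23 Cfsg.Agent.Lib.helper5
open scoped ComplexConjugate

universe u

theorem two_block_central {K : Type u} [Group K] [Fintype K] [Fintype (IrrCharacter K)]
    (M : Ideal AlgInt) (hM : IsPModular 2 M) (z : K) (hz : z ∈ Subgroup.center K)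
    (hz2 : orderOf z = 2) (b : Set (IrrCharacter K)) (hb : IsPBlock M b)
    (hd : blockDefect 2 b ≤ 1) (θ : IrrCharacter K) (hθ : θ ∈ b) (hθz : θ.1 z = θ.1 1) :
    ∃ θ' ∈ b, θ' ≠ θ ∧ (∀ ψ ∈ b, ψ = θ ∨ ψ = θ') ∧ θ'.1 1 = θ.1 1 ∧ θ'.1 z = - θ.1 1 ∧
      ∀ y : K, ¬ 2 ∣ orderOf y → θ'.1 y = θ.1 y := by
  classical
  have : Fact (Nat.Prime 2) := ⟨Nat.prime_two⟩
  have hzz : z * z = 1 := by
    rw [← pow_two, ← hz2, pow_orderOf_eq_one]
  have hzinv : z⁻¹ = z := inv_eq_of_mul_eq_one_left hzz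
  have hz1 : z ≠ 1 := by
    intro h
    rw [h, orderOf_one] at hz2
    omega
  have hPz : IsPPart 2 z z := ⟨1, mul_one z, Commute.one_right z, ⟨1, by rw [hz2, pow_one]⟩,
    by rw [orderOf_one]; norm_num⟩
  have hnc : ¬ IsConj (1 : K) z := by
    intro h
    exact hz1 (isConj_one_right.mp h)
  have hcard : Nat.card b ≤ 2 := by
    have h1 := Cfsg.Agent.S4494.result 2 M hM b hb
    have h2 : 2 ^ (2 * blockDefect 2 b) ≤ 2 ^ 2 :=
      Nat.pow_le_pow_right (by norm_num) (by omega)
    omega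
  have hθ1 : θ.1 1 ≠ 0 := irr_one_ne_zero θ
  have horth1 := block_orth hM 1 z 1 z (isPPart_one_of_regular 1 (by rw [orderOf_one]; norm_num))
    hPz hnc b hb
  rw [hzinv] at horth1
  obtain ⟨θ', hθ', hne⟩ : ∃ θ' ∈ b, θ' ≠ θ := by
    by_contra hcon
    push Not at hcon
    have hb1 : b = {θ} := Set.eq_singleton_iff_unique_mem.mpr ⟨hθ, hcon⟩
    rw [hb1, finsum_mem_singleton, hθz] at horth1
    exact hθ1 (mul_self_eq_zero.mp horth1)
  have hall : ∀ ψ ∈ b, ψ = θ ∨ ψ = θ' := by
    intro ψ hψ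
    by_contra hcon
    push Not at hcon
    have hsub : ({θ, θ', ψ} : Set (IrrCharacter K)) ⊆ b := by
      intro a ha
      rcases ha with rfl | rfl | rfl
      · exact hθ
      · exact hθ'
      · exact hψ
    have h3 : ({θ, θ', ψ} : Set (IrrCharacter K)).ncard = 3 :=
      Set.ncard_eq_three.mpr ⟨θ, θ', ψ, hne.symm, hcon.1.symm, hcon.2.symm, rfl⟩
    have h4 := Set.ncard_le_ncard hsub (Set.toFinite b)
    rw [h3, ← Nat.card_coe_set_eq] at h4
    omega
  have hb2 : b = {θ, θ'} := by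
    ext ψ
    constructor
    · intro hψ
      rcases hall ψ hψ with h | h
      · rw [h]; exact Set.mem_insert _ _
      · rw [h]; exact Set.mem_insert_of_mem _ rfl
    · intro hψ
      rcases hψ with rfl | rfl
      · exact hθ
      · exact hθ'
  have horth1' : θ.1 1 * θ.1 1 + θ'.1 1 * θ'.1 z = 0 := by
    have h := horth1
    rw [hb2, finsum_mem_pair hne.symm, hθz] at h
    exact h
  have hd' : (charDegree θ'.1 : ℂ) = θ'.1 1 := charDegree_cast θ'
  have hdθ : (charDegree θ.1 : ℂ) = θ.1 1 := charDegree_cast θ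
  have hpos' : 0 < charDegree θ'.1 := charDegree_pos θ'
  have hposθ : 0 < charDegree θ.1 := charDegree_pos θ
  have hsign : θ'.1 z = - θ'.1 1 := by
    rcases Cfsg.Agent.Lib.helper12.irr_central_involution θ' z hz hzz with h | h
    · exfalso
      rw [h, ← hd', ← hdθ] at horth1'
      have h5 : ((charDegree θ.1 * charDegree θ.1 + charDegree θ'.1 * charDegree θ'.1 : ℕ) : ℂ)
          = 0 := by
        push_cast
        exact horth1'
      have h6 : charDegree θ.1 * charDegree θ.1 + charDegree θ'.1 * charDegree θ'.1 = 0 := by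
        exact_mod_cast h5
      have h7 : 0 < charDegree θ.1 * charDegree θ.1 := Nat.mul_pos hposθ hposθ
      omega
    · exact h
  have hdeg : θ'.1 1 = θ.1 1 := by
    rw [hsign, ← hd', ← hdθ] at horth1'
    have h5 : ((charDegree θ.1 * charDegree θ.1 : ℕ) : ℂ)
        = ((charDegree θ'.1 * charDegree θ'.1 : ℕ) : ℂ) := by
      push_cast
      linear_combination horth1'
    have h6 : charDegree θ.1 * charDegree θ.1 = charDegree θ'.1 * charDegree θ'.1 := by
      exact_mod_cast h5
    have h7 : charDegree θ.1 = charDegree θ'.1 := Nat.mul_self_inj.mp h6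
    rw [← hd', ← hdθ, h7]
  refine ⟨θ', hθ', hne, hall, hdeg, ?_, ?_⟩
  · rw [hsign, hdeg]
  · intro y hy
    have horth2 := block_orth hM y z 1 z (isPPart_one_of_regular y hy) hPz hnc b hb
    rw [hzinv, hb2, finsum_mem_pair hne.symm, hθz, hsign, hdeg] at horth2
    have h8 : θ.1 1 * (θ.1 y - θ'.1 y) = 0 := by linear_combination horth2
    have h9 := (mul_eq_zero.mp h8).resolve_left hθ1
    exact (sub_eq_zero.mp h9).symm

theorem subsec_inner_int {G : Type u} [Group G] [Fintype G] (H : Subgroup G) [Fintype H]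
    (u : G) (hu2 : u * u = 1) (hH1 : ∀ h : H, (h : G) * u = u * (h : G)) (huH : u ∈ H)
    (χ : IrrCharacter G) (ψ : IrrCharacter H) :
    ∃ m : ℤ, classInner (fun c : H => χ.1 (u * (c : G))) ψ.1 = m := by
  classical
  have hz : (⟨u, huH⟩ : H) ∈ Subgroup.center H := by
    rw [Subgroup.mem_center_iff]
    intro g
    apply Subtype.ext
    exact hH1 g
  obtain ⟨c, hc1, hc2⟩ := isIrrCharacter_central ψ.2 (⟨u, huH⟩ : H) hz
  have hcc : c ^ 2 = 1 := by
    apply hc2
    apply Subtype.ext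
    rw [pow_two]
    exact hu2
  have hc : c = 1 ∨ c = -1 := by
    have h : (c - 1) * (c + 1) = 0 := by linear_combination hcc
    rcases mul_eq_zero.mp h with h | h
    · left; linear_combination h
    · right; linear_combination h
  obtain ⟨n, hn⟩ := isCharacter_inner_irr_nat
    (Cfsg.Agent.Lib.helper24.isCharacter_restrict H (isCharacter_irr χ)) ψ
  have key : classInner (fun c : H => χ.1 (u * (c : G))) ψ.1
      = conj c * classInner (fun h : H => χ.1 h) ψ.1 := by
    unfold classInner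
    have hsum : ∑ h : H, χ.1 (u * (h : G)) * conj (ψ.1 h)
        = conj c * ∑ h : H, χ.1 (h : G) * conj (ψ.1 h) := by
      rw [← Equiv.sum_comp (Equiv.mulLeft (⟨u, huH⟩ : H)), Finset.mul_sum]
      apply Finset.sum_congr rfl
      intro h _
      have e1 : (Equiv.mulLeft (⟨u, huH⟩ : H)) h = ⟨u, huH⟩ * h := rfl
      rw [e1, hc1, map_mul]
      have e2 : u * (((⟨u, huH⟩ * h : H)) : G) = (h : G) := by
        push_cast
        rw [← mul_assoc, hu2, one_mul]
      rw [e2]
      ring
    rw [hsum]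
    ring
  rw [key, hn]
  rcases hc with h | h
  · exact ⟨n, by rw [h, map_one, one_mul]; push_cast; rfl⟩
  · exact ⟨-n, by rw [h, map_neg, map_one]; push_cast; ring⟩

end Cfsg.Agent.Lib.helper22
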