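import Cfsg.Agent.Lib.helper22.DetChar
import Cfsg.Agent.Lib.helper23.GalConj
import Cfsg.Agent.Lib.helper24.CharBasic
import Cfsg.Agent.Lib.helper24.CharDet

set_option autoImplicit false

namespace Cfsg.Agent.Lib.helper22

open Cfsg Cfsg.Agent.Lib.helper24 Cfsg.Agent.Lib.helper23

universe u v w

variable {G : Type u} [Group G]

theorem detChar_add [Finite G] {χ ψ : G → ℂ} (hχ : IsCharacter G χ) (hψ : IsCharacter G ψ) :
    detChar (χ + ψ) = fun g => detChar χ g * detChar ψ g := by
  obtain ⟨n, ρ, rfl⟩ := hχ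
  obtain ⟨m, σ, rfl⟩ := hψ
  rw [← char_prod, detChar_eq_of_rep, detChar_eq_of_rep, detChar_eq_of_rep]
  funext g
  show LinearMap.det ((ρ g).prodMap (σ g)) = _
  rw [LinearMap.det_prodMap]

theorem detChar_zero [Finite G] : detChar (0 : G → ℂ) = fun _ => 1 := by
  have h1 : (0 : G → ℂ) = (Representation.trivial ℂ G PUnit.{1}).character := by
    funext g
    simp [Representation.character]
  rw [h1, detChar_eq_of_rep]
  funext g
  exact LinearMap.det_eq_one_of_subsingleton _

theorem detChar_list_sum [Finite G] (l : List (G →* ℂˣ)) :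
    detChar ((l.map (fun (ν : G →* ℂˣ) => fun g => (ν g : ℂ))).sum)
      = fun g => (l.map (fun ν : G →* ℂˣ => (ν g : ℂ))).prod := by
  induction l with
  | nil =>
    simp only [List.map_nil, List.sum_nil, List.prod_nil]
    exact detChar_zero
  | cons ν t ih =>
    have hc : IsCharacter G ((t.map (fun (ν : G →* ℂˣ) => fun g => (ν g : ℂ))).sum) := by
      apply isCharacter_list_sum
      intro χ hχ
      rw [List.mem_map] at hχ
      obtain ⟨μ, -, rfl⟩ := hχ
      exact isCharacter_of_isIrrCharacter (isIrrCharacter_of_hom μ)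
    rw [List.map_cons, List.sum_cons,
      detChar_add (isCharacter_of_isIrrCharacter (isIrrCharacter_of_hom ν)) hc, ih, detChar_hom]
    funext g
    rw [List.map_cons, List.prod_cons]

theorem detChar_pow_coprime [Finite G] {χ : G → ℂ} (hχ : IsCharacter G χ) (m : ℕ)
    (hm : m.Coprime (Nat.card G)) (g : G) :
    detChar (fun x => χ (x ^ m)) g = detChar χ g ^ m := by
  have hχ' := isCharacter_pow_coprime hχ m hm
  have h1 := detChar_restrict (Subgroup.zpowers g) hχ ⟨g, Subgroup.mem_zpowers g⟩
  have h2 := detChar_restrict (Subgroup.zpowers g) hχ' ⟨g, Subgroup.mem_zpowers g⟩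
  obtain ⟨l, hl⟩ := isCharacter_iff_exists_list.mp
    (isCharacter_restrict (Subgroup.zpowers g) hχ)
  obtain ⟨L, hL⟩ : ∃ L : List (Subgroup.zpowers g →* ℂˣ),
      L = l.map (fun ψ => irrLinHom ψ (irr_one_of_comm ψ)) := ⟨_, rfl⟩
  have e1 : (fun n : Subgroup.zpowers g => χ n)
      = (L.map (fun (ν : Subgroup.zpowers g →* ℂˣ) => fun c => (ν c : ℂ))).sum := by
    rw [hl, hL, List.map_map]
    rfl
  have e2 : (fun n : Subgroup.zpowers g => (fun x => χ (x ^ m)) (n : G))
      = ((L.map (fun ν => ν ^ m)).map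
          (fun (ν : Subgroup.zpowers g →* ℂˣ) => fun c => (ν c : ℂ))).sum := by
    funext c
    have h3 := congrFun e1 (c ^ m)
    simp only [Subgroup.coe_pow] at h3
    show χ ((c : G) ^ m) = _
    rw [h3, list_sum_fun_apply, list_sum_fun_apply, List.map_map, List.map_map, List.map_map]
    congr 1
    apply List.map_congr_left
    intro ν _
    simp
  rw [← h1, ← h2, e1, e2, detChar_list_sum, detChar_list_sum]
  simp only
  rw [List.map_map]
  clear e1 e2 hL
  induction L with
  | nil => simp
  | cons ν t ih =>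
    rw [List.map_cons, List.map_cons, List.prod_cons, List.prod_cons, ih, mul_pow]
    simp

theorem detOrder_pow_coprime_dvd [Finite G] {χ : G → ℂ} (hχ : IsCharacter G χ) (m : ℕ)
    (hm : m.Coprime (Nat.card G)) : detOrder (fun x => χ (x ^ m)) ∣ detOrder χ := by
  rw [detOrder_dvd_iff]
  intro g
  rw [detChar_pow_coprime hχ m hm, ← pow_mul, mul_comm, pow_mul, detChar_pow_detOrder, one_pow]

end Cfsg.Agent.Lib.helper22
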