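import Mathlib
import Cfsg.Agent.Lib.helper5.BlockInduce
import Cfsg.Agent.Lib.helper5.BlockSecond5
import Cfsg.Agent.Lib.helper5.BlockDefect
import Cfsg.Agent.Lib.helper5.CharCongr
import Cfsg.Agent.Lib.helper23.PTruncHeight

set_option autoImplicit false

namespace Cfsg.Agent.Lib.helper22

open Cfsg Cfsg.Agent.Lib.helper5 Cfsg.Agent.Lib.helper23 Cfsg.Agent.Lib.helper24
open scoped ComplexConjugate

universe u

variable {G : Type u} [Group G] [Fintype G]

theorem ratio_ideal {p : ℕ} {M : Ideal AlgInt} (hM : IsPModular p M) {n m : ℕ} (hm : m ≠ 0)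
    (h : MemLocalIdeal M ((n : ℂ) / (m : ℂ))) :
    n = 0 ∨ m.factorization p < n.factorization p := by
  have hp := hM.1
  have hMp := isPModular_isPrime hM
  by_contra hcon
  push Not at hcon
  obtain ⟨hn, hle⟩ := hcon
  have e1 := Nat.ordProj_mul_ordCompl_eq_self n p
  have e2 := Nat.ordProj_mul_ordCompl_eq_self m p
  have hnd := Nat.not_dvd_ordCompl hp hn
  set a := n.factorization p
  set b := m.factorization p
  set n' := n / p ^ a
  set m' := m / p ^ b
  have hp0 : (p : ℂ) ≠ 0 := by exact_mod_cast hp.ne_zero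
  have hm0 : (m : ℂ) ≠ 0 := by exact_mod_cast hm
  have hm'0 : (m' : ℂ) ≠ 0 := by
    intro h0
    have : m' = 0 := by exact_mod_cast h0
    rw [this, mul_zero] at e2
    exact hm e2.symm
  have key : (n' : ℂ) = (n : ℂ) / (m : ℂ) * ((p ^ (b - a) * m' : ℕ) : ℂ) := by
    rw [← e1, ← e2]
    have hb : b = a + (b - a) := by omega
    push_cast
    conv_rhs => rw [hb]
    rw [Nat.add_sub_cancel_left, pow_add]
    field_simp
  have h2 : MemLocalIdeal M (n' : ℂ) := by
    rw [key]
    exact memLocalIdeal_mul_right hMp h (memLocalRing_natCast hMp.ne_top _)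
  exact hnd ((memLocalIdeal_natCast_iff hM n').mp h2)

theorem ratio_unit {p : ℕ} {M : Ideal AlgInt} (hM : IsPModular p M) {n m : ℕ} (hm : m ≠ 0)
    (h : MemLocalIdeal M ((n : ℂ) / (m : ℂ) - 1)) :
    n ≠ 0 ∧ n.factorization p = m.factorization p := by
  have hp := hM.1
  have hMp := isPModular_isPrime hM
  have hn : n ≠ 0 := by
    rintro rfl
    apply not_memLocalIdeal_one hMp
    have := memLocalIdeal_neg h
    simpa using this
  refine ⟨hn, ?_⟩
  have hz : MemLocalRing M ((n : ℂ) / (m : ℂ)) := by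
    have := memLocalRing_add hMp (memLocalRing_of_memLocalIdeal h) (memLocalRing_one hMp.ne_top)
    simpa using this
  have e1 := Nat.ordProj_mul_ordCompl_eq_self n p
  have e2 := Nat.ordProj_mul_ordCompl_eq_self m p
  have hnd := Nat.not_dvd_ordCompl hp hn
  have hmd := Nat.not_dvd_ordCompl hp hm
  set a := n.factorization p
  set b := m.factorization p
  set n' := n / p ^ a
  set m' := m / p ^ b
  have hp0 : (p : ℂ) ≠ 0 := by exact_mod_cast hp.ne_zero
  have hm0 : (m : ℂ) ≠ 0 := by exact_mod_cast hm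
  have hm'0 : (m' : ℂ) ≠ 0 := by
    intro h0
    have : m' = 0 := by exact_mod_cast h0
    rw [this, mul_zero] at e2
    exact hm e2.symm
  rcases lt_trichotomy a b with hab | hab | hab
  · exfalso
    have key : (n' : ℂ) = (n : ℂ) / (m : ℂ) * ((p ^ (b - a) * m' : ℕ) : ℂ) := by
      rw [← e1, ← e2]
      have hb : b = a + (b - a) := by omega
      push_cast
      conv_rhs => rw [hb]
      rw [Nat.add_sub_cancel_left, pow_add]
      field_simp
    have h2 : MemLocalIdeal M (n' : ℂ) := by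
      rw [key]
      apply memLocalIdeal_mul_left hMp hz
      rw [memLocalIdeal_natCast_iff hM]
      exact Dvd.dvd.mul_right (dvd_pow_self p (by omega)) _
    exact hnd ((memLocalIdeal_natCast_iff hM n').mp h2)
  · exact hab
  · exfalso
    have key : (n : ℂ) / (m : ℂ) * (m' : ℂ) = ((p ^ (a - b) * n' : ℕ) : ℂ) := by
      rw [← e1, ← e2]
      have ha : a = b + (a - b) := by omega
      push_cast
      conv_lhs => rw [ha]
      rw [pow_add]
      field_simp
    have h2 : MemLocalIdeal M ((n : ℂ) / (m : ℂ) * (m' : ℂ)) := by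
      rw [key, memLocalIdeal_natCast_iff hM]
      exact Dvd.dvd.mul_right (dvd_pow_self p (by omega)) _
    have h3 : MemLocalIdeal M (m' : ℂ) := by
      have h4 := memLocalIdeal_sub hMp h2
        (memLocalIdeal_mul_right hMp h (memLocalRing_natCast hMp.ne_top m'))
      have e : (n : ℂ) / (m : ℂ) * (m' : ℂ) - ((n : ℂ) / (m : ℂ) - 1) * (m' : ℂ) = (m' : ℂ) := by
        ring
      rwa [e] at h4
    exact hmd ((memLocalIdeal_natCast_iff hM m').mp h3)

theorem brFun_top_coord (H : Subgroup G) [Fintype H] [Fintype (IrrCharacter H)]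
    [Fintype (IrrCharacter G)] (ξ : IrrCharacter H) (F : G → ℂ) (hF : IsClassFunction G F) :
    brFun H ⊤ ξ (coord F) = (∑ h : H, F h * ξ.1 h) / ξ.1 1 := by
  rw [brFun_apply]
  have h1 : ∀ h : H, brTrunc H ⊤ (coord F) h = F h := fun h => by
    rw [brTrunc_of_mem _ (Subgroup.mem_top _), coef_coord F hF]
  show (∑ h : H, brTrunc H ⊤ (coord F) h * ξ.1 h) / ξ.1 1 = _
  simp only [h1]

theorem blockPart_ind_one (H : Subgroup G) [Fintype H] [Fintype (IrrCharacter H)]
    [Fintype (IrrCharacter G)] (B : Set (IrrCharacter G)) (ξ : IrrCharacter H) :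
    blockPart B (indFun H ξ.1) 1
      = indFun H ξ.1 1 * brFun H ⊤ ξ (B.indicator (fun _ => (1 : ℂ))) := by
  classical
  have hξ1 := irr_one_ne_zero ξ
  have hG : (Nat.card G : ℂ) ≠ 0 := NeZero.ne _
  have hH : (Nat.card H : ℂ) ≠ 0 := NeZero.ne _
  have hidx : (H.index : ℂ) = (Nat.card G : ℂ) / (Nat.card H : ℂ) := by
    rw [eq_div_iff hH, ← Nat.cast_mul, mul_comm, Subgroup.card_mul_index]
  rw [blockPart_apply, indFun_one, brFun_apply]
  unfold coord
  have h1 : ∀ h : H, brTrunc H ⊤ (B.indicator (fun _ => (1 : ℂ))) h = blockCoeff B (h : G) := by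
    intro h
    rw [brTrunc_of_mem _ (Subgroup.mem_top _), coef_indicator]
  simp only [h1]
  unfold blockCoeff
  simp only [finsum_mem_def]
  simp only [finsum_eq_sum_of_fintype]
  have h2 : ∀ χ : IrrCharacter G, classInner (indFun H ξ.1) χ.1
      = (Nat.card H : ℂ)⁻¹ * ∑ h : H, ξ.1 h * conj (χ.1 h) := by
    intro χ
    rw [frobenius_reciprocity H ξ.1 (isClassFunction_irr χ)]
    rfl
  have e1 : ∑ χ : IrrCharacter G, B.indicator
        (fun χ : IrrCharacter G => classInner (indFun H ξ.1) χ.1 * χ.1 1) χ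
      = ∑ χ : IrrCharacter G, ∑ h : H,
          if χ ∈ B then (Nat.card H : ℂ)⁻¹ * (ξ.1 h * conj (χ.1 h)) * χ.1 1 else 0 := by
    apply Finset.sum_congr rfl
    intro χ _
    by_cases hχ : χ ∈ B
    · rw [Set.indicator_of_mem hχ, h2, Finset.mul_sum, Finset.sum_mul]
      apply Finset.sum_congr rfl
      intro h _
      rw [if_pos hχ]
    · rw [Set.indicator_of_notMem hχ]
      simp [hχ]
  have e2 : (H.index : ℂ) * ξ.1 1 * ((∑ h : H, (Nat.card G : ℂ)⁻¹ * (∑ χ : IrrCharacter G,
        B.indicator (fun χ : IrrCharacter G => χ.1 1 * conj (χ.1 (h : G))) χ) * ξ.1 h) / ξ.1 1)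
      = ∑ h : H, ∑ χ : IrrCharacter G,
          if χ ∈ B then (Nat.card H : ℂ)⁻¹ * (ξ.1 h * conj (χ.1 h)) * χ.1 1 else 0 := by
    have e3 : ∀ S : ℂ, (H.index : ℂ) * ξ.1 1 * (S / ξ.1 1)
        = (Nat.card G : ℂ) / (Nat.card H : ℂ) * S := by
      intro S
      rw [hidx]
      field_simp
    rw [e3, Finset.mul_sum]
    apply Finset.sum_congr rfl
    intro h _
    rw [show ∀ (x y z w : ℂ), x * ((y * z) * w) = (x * y * w) * z from by intros; ring,
      Finset.mul_sum]
    apply Finset.sum_congr rfl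
    intro χ _
    by_cases hχ : χ ∈ B
    · rw [Set.indicator_of_mem hχ, if_pos hχ]
      field_simp
    · rw [Set.indicator_of_notMem hχ, if_neg hχ]
      simp
  rw [e1, e2, Finset.sum_comm]

theorem inner_regTrunc (H : Subgroup G) [Fintype H] [Fintype (IrrCharacter H)]
    [Fintype (IrrCharacter G)] (p : ℕ) (c : ℂ) (χ : IrrCharacter G) (ψ : IrrCharacter H) :
    classInner (fun h : H => if p ∣ orderOf h then (0 : ℂ) else c * χ.1 h) ψ.1 / ψ.1 1
      = c / (Nat.card H : ℂ) * brFun H ⊤ ψ (coord (regConj p χ.1)) := by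
  classical
  have hψ1 := irr_one_ne_zero ψ
  have hH : (Nat.card H : ℂ) ≠ 0 := NeZero.ne _
  rw [brFun_top_coord H ψ _ (regConj_isClassFunction p (isClassFunction_irr χ))]
  unfold classInner
  have e : ∑ h : H, (if p ∣ orderOf h then (0 : ℂ) else c * χ.1 h) * conj (ψ.1 h)
      = c * ∑ h : H, regConj p χ.1 (h : G) * ψ.1 h := by
    rw [Finset.mul_sum, ← Equiv.sum_comp (Equiv.inv H)]
    apply Finset.sum_congr rfl
    intro h _
    unfold regConj
    simp only [Equiv.inv_apply, orderOf_inv, Subgroup.orderOf_coe]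
    by_cases hp : p ∣ orderOf h
    · simp [hp]
    · rw [if_neg hp, if_neg hp, irr_inv ψ, Complex.conj_conj]
      have : χ.1 ((h⁻¹ : H) : G) = conj (χ.1 (h : G)) := by
        push_cast
        exact irr_inv χ _
      rw [this]
      ring
  rw [e]
  field_simp

end Cfsg.Agent.Lib.helper22
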