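import Mathlib
import Cfsg.Agent.Lib.helper23.CharInt

set_option autoImplicit false

namespace Cfsg.Agent.Lib.helper22.PBExt

open Cfsg Cfsg.Agent.Lib.helper23

universe u

section orb

variable {G : Type u} [Group G] [Fintype G]

open Classical in
noncomputable def orbF (H : Subgroup G) (g : G) : Finset G :=
  Finset.univ.filter (fun u => ∃ h ∈ H, h * g * h⁻¹ = u)

theorem mem_orbF (H : Subgroup G) (g u : G) : u ∈ orbF H g ↔ ∃ h ∈ H, h * g * h⁻¹ = u := by
  classical
  simp [orbF]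

theorem self_mem_orbF (H : Subgroup G) (g : G) : g ∈ orbF H g :=
  (mem_orbF H g g).mpr ⟨1, H.one_mem, by simp⟩

theorem conj_mem_orbF (H : Subgroup G) (g u h : G) (hh : h ∈ H) (hu : u ∈ orbF H g) :
    h * u * h⁻¹ ∈ orbF H g := by
  obtain ⟨k, hk, rfl⟩ := (mem_orbF H g u).mp hu
  exact (mem_orbF H g _).mpr ⟨h * k, H.mul_mem hh hk, by group⟩

theorem orbF_eq_of_mem (H : Subgroup G) (g u : G) (hu : u ∈ orbF H g) : orbF H u = orbF H g := by
  obtain ⟨k, hk, rfl⟩ := (mem_orbF H g u).mp hu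
  ext v
  rw [mem_orbF, mem_orbF]
  constructor
  · rintro ⟨h, hh, rfl⟩
    exact ⟨h * k, H.mul_mem hh hk, by group⟩
  · rintro ⟨h, hh, rfl⟩
    exact ⟨h * k⁻¹, H.mul_mem hh (H.inv_mem hk), by group⟩

theorem od_lemma {M : Ideal Cfsg.AlgInt} (hM : M.IsPrime) (N : Subgroup G) (f : G → ℂ)
    (hf : ∀ n ∈ N, ∀ u, f (n * u * n⁻¹) = f u)
    (h : ∀ u, Cfsg.MemLocalIdeal M (((orbF N u).card : ℂ) * f u)) :
    ∀ (S : Finset G), (∀ n ∈ N, ∀ u ∈ S, n * u * n⁻¹ ∈ S) →
      Cfsg.MemLocalIdeal M (∑ u ∈ S, f u) := by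
  classical
  intro S
  induction S using Finset.strongInduction with
  | H S ih =>
    intro hS
    rcases S.eq_empty_or_nonempty with rfl | ⟨u, hu⟩
    · simpa using memLocalIdeal_zero (M := M) hM.ne_top
    · have hsub : orbF N u ⊆ S := by
        intro v hv
        obtain ⟨n, hn, rfl⟩ := (mem_orbF N u v).mp hv
        exact hS n hn u hu
      have hlt : S \ orbF N u ⊂ S := by
        refine Finset.ssubset_iff_subset_ne.mpr ⟨Finset.sdiff_subset, ?_⟩
        intro heq
        have hu' : u ∈ S \ orbF N u := by rw [heq]; exact hu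
        exact (Finset.mem_sdiff.mp hu').2 (self_mem_orbF N u)
      have hst : ∀ n ∈ N, ∀ v ∈ S \ orbF N u, n * v * n⁻¹ ∈ S \ orbF N u := by
        intro n hn v hv
        rw [Finset.mem_sdiff] at hv ⊢
        refine ⟨hS n hn v hv.1, fun hc => hv.2 ?_⟩
        have := conj_mem_orbF N u _ n⁻¹ (N.inv_mem hn) hc
        have h2 : n⁻¹ * (n * v * n⁻¹) * n⁻¹⁻¹ = v := by group
        rwa [h2] at this
      have h1 := ih _ hlt hst
      have h2 : ∑ v ∈ orbF N u, f v = ((orbF N u).card : ℂ) * f u := by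
        rw [Finset.sum_eq_card_nsmul (b := f u)]
        · simp
        · intro v hv
          obtain ⟨n, hn, rfl⟩ := (mem_orbF N u v).mp hv
          exact hf n hn u
      rw [← Finset.sum_sdiff hsub, h2]
      exact memLocalIdeal_add hM h1 (h u)

end orb

section alg

variable {G : Type u} [Group G] [Fintype G] {d : ℕ} (ρ : Representation ℂ G (Fin d → ℂ))
  (N : Subgroup G)

noncomputable def Om : MonoidAlgebra ℤ G →ₐ[ℤ] Module.End ℂ (Fin d → ℂ) :=
  MonoidAlgebra.lift ℤ (Module.End ℂ (Fin d → ℂ)) G ρ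

noncomputable def eps : MonoidAlgebra ℤ G →ₐ[ℤ] ℤ :=
  MonoidAlgebra.lift ℤ ℤ G (1 : G →* ℤ)

theorem Om_single (g : G) : Om ρ (MonoidAlgebra.single g 1) = ρ g := by simp [Om]

theorem eps_single (g : G) : eps (MonoidAlgebra.single g (1 : ℤ)) = 1 := by simp [eps]

theorem Om_eq_sum (z : MonoidAlgebra ℤ G) : Om ρ z = ∑ g : G, (z.coeff g) • ρ g := by
  unfold Om
  rw [MonoidAlgebra.lift_apply, Finsupp.sum_fintype]
  intro i
  simp

theorem eps_eq_sum (z : MonoidAlgebra ℤ G) : eps z = ∑ g : G, z.coeff g := by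
  unfold eps
  rw [MonoidAlgebra.lift_apply, Finsupp.sum_fintype]
  · simp
  · intro i
    simp

def Inv (z : MonoidAlgebra ℤ G) : Prop :=
  ∀ n ∈ N, MonoidAlgebra.single n (1 : ℤ) * z = z * MonoidAlgebra.single n (1 : ℤ)

noncomputable def om (z : MonoidAlgebra ℤ G) : ℂ :=
  LinearMap.trace ℂ (Fin d → ℂ) (Om ρ z) / d

theorem om_eq_sum (z : MonoidAlgebra ℤ G) :
    om ρ z = (∑ g : G, (z.coeff g : ℂ) * ρ.character g) / d := by
  unfold om
  rw [Om_eq_sum, map_sum]
  congr 1
  refine Finset.sum_congr rfl ?_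
  intro g _
  rw [map_zsmul, zsmul_eq_mul]
  rfl

theorem inv_coef (z : MonoidAlgebra ℤ G) (hz : Inv N z) (n : G) (hn : n ∈ N) (u : G) :
    z.coeff (n * u * n⁻¹) = z.coeff u := by
  have h := congrArg (fun w : MonoidAlgebra ℤ G => w.coeff (n * u)) (hz n hn)
  simp only [MonoidAlgebra.coeff_single_mul_apply, MonoidAlgebra.coeff_mul_single_apply] at h
  simp only [one_mul, mul_one, inv_mul_cancel_left] at h
  exact h.symm

theorem inv_mul (z z' : MonoidAlgebra ℤ G) (hz : Inv N z) (hz' : Inv N z') : Inv N (z * z') := by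
  intro n hn
  rw [← mul_assoc, hz n hn, mul_assoc, hz' n hn, mul_assoc]

section schur

variable (hSch : ∀ T : Module.End ℂ (Fin d → ℂ), (∀ n ∈ N, T ∘ₗ ρ n = ρ n ∘ₗ T) →
    ∃ c : ℂ, T = c • LinearMap.id) (hd : d ≠ 0)

include hSch hd

theorem Om_inv (z : MonoidAlgebra ℤ G) (hz : Inv N z) : Om ρ z = om ρ z • LinearMap.id := by
  have hcomm : ∀ n ∈ N, Om ρ z ∘ₗ ρ n = ρ n ∘ₗ Om ρ z := by
    intro n hn
    have h := congrArg (Om ρ) (hz n hn)
    rw [map_mul, map_mul, Om_single] at h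
    exact h.symm
  obtain ⟨c, hc⟩ := hSch _ hcomm
  have hd' : (d : ℂ) ≠ 0 := by exact_mod_cast hd
  have htr : LinearMap.trace ℂ (Fin d → ℂ) (Om ρ z) = c * d := by
    rw [hc, map_smul, LinearMap.trace_id]
    simp
  have hom : om ρ z = c := by
    unfold om
    rw [htr]
    field_simp
  rw [hom, hc]

theorem om_integral (z : MonoidAlgebra ℤ G) (hz : Inv N z) : IsIntegral ℤ (om ρ z) := by
  have h1 := Om_inv ρ N hSch hd z hz
  have hzint : IsIntegral ℤ z := IsIntegral.of_finite ℤ z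
  have hTint : IsIntegral ℤ (Om ρ z) := hzint.map (Om ρ)
  have hT' : Om ρ z = algebraMap ℂ (Module.End ℂ (Fin d → ℂ)) (om ρ z) := by
    rw [h1]
    ext v
    simp
  rw [hT'] at hTint
  have : Nontrivial (Fin d → ℂ) := by
    have : Nonempty (Fin d) := ⟨⟨0, Nat.pos_of_ne_zero hd⟩⟩
    infer_instance
  exact (isIntegral_algebraMap_iff (algebraMap ℂ (Module.End ℂ (Fin d → ℂ))).injective).mp hTint

theorem om_mul (z z' : MonoidAlgebra ℤ G) (hz : Inv N z) (hz' : Inv N z') :
    om ρ (z * z') = om ρ z * om ρ z' := by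
  have h1 := Om_inv ρ N hSch hd z hz
  have h2 := Om_inv ρ N hSch hd z' hz'
  have hd' : (d : ℂ) ≠ 0 := by exact_mod_cast hd
  have h3 : Om ρ (z * z') = (om ρ z * om ρ z') • LinearMap.id := by
    rw [map_mul, h1, h2]
    ext v
    simp [mul_smul]
    ring
  have htr : LinearMap.trace ℂ (Fin d → ℂ) (Om ρ (z * z')) = (om ρ z * om ρ z') * d := by
    rw [h3, map_smul, LinearMap.trace_id]
    simp
  show LinearMap.trace ℂ (Fin d → ℂ) (Om ρ (z * z')) / d = _
  rw [htr]
  field_simp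

end schur

noncomputable def zO (S : Finset G) : MonoidAlgebra ℤ G := ∑ u ∈ S, MonoidAlgebra.single u (1 : ℤ)

open Classical in
theorem zO_coeff (S : Finset G) (g : G) : (zO S).coeff g = if g ∈ S then 1 else 0 := by
  unfold zO
  rw [MonoidAlgebra.coeff_sum, Finsupp.finsetSum_apply]
  simp only [MonoidAlgebra.coeff_single, Finsupp.single_apply]
  rw [Finset.sum_ite_eq' S g]

theorem zO_inv (S : Finset G) (hS : ∀ n ∈ N, ∀ u ∈ S, n * u * n⁻¹ ∈ S) : Inv N (zO S) := by
  intro n hn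
  unfold zO
  rw [Finset.mul_sum, Finset.sum_mul]
  refine Finset.sum_nbij' (fun u => n * u * n⁻¹) (fun u => n⁻¹ * u * n) ?_ ?_ ?_ ?_ ?_
  · intro u hu
    exact hS n hn u hu
  · intro u hu
    have := hS n⁻¹ (N.inv_mem hn) u hu
    simpa using this
  · intro u _
    group
  · intro u _
    group
  · intro u _
    rw [MonoidAlgebra.single_mul_single, MonoidAlgebra.single_mul_single]
    congr 1
    group

theorem eps_zO (S : Finset G) : eps (zO S) = (S.card : ℤ) := by
  unfold zO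
  rw [map_sum]
  simp [eps_single]

theorem om_zO (S : Finset G) : om ρ (zO S) = (∑ u ∈ S, ρ.character u) / d := by
  classical
  rw [om_eq_sum]
  congr 1
  simp only [zO_coeff]
  rw [← Finset.sum_filter_of_ne (p := fun g => g ∈ S)]
  · rw [Finset.filter_mem_eq_inter, Finset.univ_inter]
    refine Finset.sum_congr rfl ?_
    intro u hu
    simp [hu]
  · intro g _ hg
    by_contra hgS
    simp [hgS] at hg

theorem om_zO_orb (g : G) :
    om ρ (zO (orbF N g)) = ((orbF N g).card : ℂ) * ρ.character g / d := by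
  rw [om_zO]
  congr 1
  rw [Finset.sum_eq_card_nsmul (b := ρ.character g)]
  · simp
  · intro v hv
    obtain ⟨n, hn, rfl⟩ := (mem_orbF N g v).mp hv
    exact Representation.char_conj ρ g n

theorem g1 {M : Ideal Cfsg.AlgInt} (hM : M.IsPrime)
    (hB : ∀ g ∈ N, Cfsg.MemLocalIdeal M (((orbF N g).card : ℂ) * (ρ.character g / d - 1)))
    (z : MonoidAlgebra ℤ G) (hz : Inv N z) (hs : ∀ g, z.coeff g ≠ 0 → g ∈ N) :
    Cfsg.MemLocalIdeal M (om ρ z - (eps z : ℂ)) := by
  classical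
  have h1 : om ρ z - (eps z : ℂ) = ∑ g : G, (z.coeff g : ℂ) * (ρ.character g / d - 1) := by
    rw [om_eq_sum, eps_eq_sum, Finset.sum_div]
    push_cast
    rw [← Finset.sum_sub_distrib]
    refine Finset.sum_congr rfl ?_
    intro g _
    ring
  rw [h1]
  have h2 := od_lemma hM N (fun g => (z.coeff g : ℂ) * (ρ.character g / d - 1)) ?_ ?_
    Finset.univ (fun _ _ _ _ => Finset.mem_univ _)
  · exact h2
  · intro n hn u
    show (z.coeff (n * u * n⁻¹) : ℂ) * (ρ.character (n * u * n⁻¹) / d - 1) = _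
    rw [inv_coef N z hz n hn u, Representation.char_conj ρ u n]
  · intro u
    by_cases hu : z.coeff u = 0
    · simp only [hu, Int.cast_zero, zero_mul, mul_zero]
      exact memLocalIdeal_zero hM.ne_top
    · have h3 := hB u (hs u hu)
      have h4 : ((orbF N u).card : ℂ) * ((z.coeff u : ℂ) * (ρ.character u / d - 1)) =
          (z.coeff u : ℂ) * (((orbF N u).card : ℂ) * (ρ.character u / d - 1)) := by ring
      rw [h4]
      exact memLocalIdeal_mul_left hM (memLocalRing_intCast hM.ne_top _) h3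

end alg

end Cfsg.Agent.Lib.helper22.PBExt
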