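import Mathlib
import Cfsg.Agent.Lib.helper22.PBExtA

set_option autoImplicit false

namespace Cfsg.Agent.Lib.helper22.PBExt

open Cfsg Cfsg.Agent.Lib.helper23

universe u

section red

variable {M : Ideal Cfsg.AlgInt}

open Classical in
noncomputable def red (M : Ideal Cfsg.AlgInt) (z : ℂ) : Cfsg.AlgInt ⧸ M :=
  if h : IsIntegral ℤ z then Ideal.Quotient.mk M ⟨z, h⟩ else 0

theorem red_of_int {z : ℂ} (h : IsIntegral ℤ z) : red M z = Ideal.Quotient.mk M ⟨z, h⟩ := by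
  unfold red
  rw [dif_pos h]

theorem red_mul {a b : ℂ} (ha : IsIntegral ℤ a) (hb : IsIntegral ℤ b) :
    red M (a * b) = red M a * red M b := by
  rw [red_of_int ha, red_of_int hb, red_of_int (ha.mul hb), ← map_mul]
  rfl

theorem red_add {a b : ℂ} (ha : IsIntegral ℤ a) (hb : IsIntegral ℤ b) :
    red M (a + b) = red M a + red M b := by
  rw [red_of_int ha, red_of_int hb, red_of_int (ha.add hb), ← map_add]
  rfl

theorem isIntegral_natCast' (n : ℕ) : IsIntegral ℤ (n : ℂ) := by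
  have h : ((n : Cfsg.AlgInt) : ℂ) = (n : ℂ) := by simp
  rw [← h]
  exact (n : Cfsg.AlgInt).2

theorem isIntegral_intCast' (n : ℤ) : IsIntegral ℤ (n : ℂ) := by
  have h : ((n : Cfsg.AlgInt) : ℂ) = (n : ℂ) := by simp
  rw [← h]
  exact (n : Cfsg.AlgInt).2

theorem red_natCast (n : ℕ) : red M (n : ℂ) = (n : Cfsg.AlgInt ⧸ M) := by
  rw [red_of_int (isIntegral_natCast' n)]
  have : (⟨(n : ℂ), isIntegral_natCast' n⟩ : Cfsg.AlgInt) = (n : Cfsg.AlgInt) :=
    Subtype.ext (by simp)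
  rw [this, map_natCast]

theorem red_intCast (n : ℤ) : red M (n : ℂ) = (n : Cfsg.AlgInt ⧸ M) := by
  rw [red_of_int (isIntegral_intCast' n)]
  have : (⟨(n : ℂ), isIntegral_intCast' n⟩ : Cfsg.AlgInt) = (n : Cfsg.AlgInt) :=
    Subtype.ext (by simp)
  rw [this, map_intCast]

theorem red_one : red M 1 = 1 := by
  have := red_natCast (M := M) 1
  simpa using this

theorem red_pow {a : ℂ} (ha : IsIntegral ℤ a) (k : ℕ) : red M (a ^ k) = red M a ^ k := by
  induction k with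
  | zero => simpa using red_one
  | succ k ih => rw [pow_succ, red_mul (ha.pow k) ha, ih, pow_succ]

theorem red_eq_iff (hM : M.IsPrime) {a b : ℂ} (ha : IsIntegral ℤ a) (hb : IsIntegral ℤ b) :
    red M a = red M b ↔ Cfsg.MemLocalIdeal M (a - b) := by
  rw [red_of_int ha, red_of_int hb, Ideal.Quotient.eq, ← memLocalIdeal_algInt_iff hM]
  rfl

theorem natCast_ne_zero_iff {p : ℕ} (hMp : Cfsg.IsPModular p M) (n : ℕ) :
    ((n : Cfsg.AlgInt ⧸ M) ≠ 0) ↔ ¬ p ∣ n := by
  rw [← natCast_mem_iff hMp n, ← Ideal.Quotient.eq_zero_iff_mem, map_natCast]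

end red

section supp

variable {G : Type u} [Group G] [Fintype G] (N : Subgroup G)

def Supp (z : MonoidAlgebra ℤ G) (t : G) : Prop :=
  ∀ g, z.coeff g ≠ 0 → ∃ n ∈ N, g = n * t

theorem supp_mul [hN : N.Normal] (z z' : MonoidAlgebra ℤ G) (t t' : G) (h : Supp N z t)
    (h' : Supp N z' t') : Supp N (z * z') (t * t') := by
  classical
  intro g hg
  have hmem : g ∈ (z * z').coeff.support := Finsupp.mem_support_iff.mpr hg
  have h2 := MonoidAlgebra.support_coeff_mul_subset z z' hmem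
  obtain ⟨x, hx, y, hy, rfl⟩ := Finset.mem_mul.mp h2
  obtain ⟨n, hn, rfl⟩ := h x (Finsupp.mem_support_iff.mp hx)
  obtain ⟨n', hn', rfl⟩ := h' y (Finsupp.mem_support_iff.mp hy)
  exact ⟨n * (t * n' * t⁻¹), N.mul_mem hn (hN.conj_mem n' hn' t), by group⟩

theorem supp_zO_orb [hN : N.Normal] (g : G) : Supp N (zO (orbF N g)) g := by
  classical
  intro u hu
  rw [zO_coeff] at hu
  have hu' : u ∈ orbF N g := by
    by_contra hc
    simp [hc] at hu
  obtain ⟨h, hh, rfl⟩ := (mem_orbF N g u).mp hu'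
  exact ⟨h * (g * h⁻¹ * g⁻¹), N.mul_mem hh (hN.conj_mem h⁻¹ (N.inv_mem hh) g), by group⟩

theorem supp_of_coset (z : MonoidAlgebra ℤ G) (t t' : G) (h : Supp N z t)
    (ht : ∃ n ∈ N, t = n * t') : Supp N z t' := by
  obtain ⟨m, hm, rfl⟩ := ht
  intro g hg
  obtain ⟨n, hn, rfl⟩ := h g hg
  exact ⟨n * m, N.mul_mem hn hm, by group⟩

end supp

section main

variable {G : Type u} [Group G] [Fintype G] {d : ℕ} (ρ : Representation ℂ G (Fin d → ℂ))
  (N : Subgroup G) [hN : N.Normal] {M : Ideal Cfsg.AlgInt} {p : ℕ}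

theorem e1 (hMp : Cfsg.IsPModular p M)
    (hSch : ∀ T : Module.End ℂ (Fin d → ℂ), (∀ n ∈ N, T ∘ₗ ρ n = ρ n ∘ₗ T) →
      ∃ c : ℂ, T = c • LinearMap.id) (hd : d ≠ 0)
    (hB : ∀ g ∈ N, Cfsg.MemLocalIdeal M (((orbF N g).card : ℂ) * (ρ.character g / d - 1)))
    (c : G) (hc : ¬ p ∣ (orbF N c).card) (hc' : ¬ p ∣ (orbF N c⁻¹).card) :
    ∃ k : Cfsg.AlgInt ⧸ M, k ≠ 0 ∧ ∀ z, Inv N z → Supp N z c →
      red M (om ρ z) = k * ((eps z : ℤ) : Cfsg.AlgInt ⧸ M) := by
  classical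
  haveI : M.IsMaximal := hMp.2.1
  have hMprime : M.IsPrime := isPModular_isPrime hMp
  letI : Field (Cfsg.AlgInt ⧸ M) := Ideal.Quotient.field M
  have hI' : Inv N (zO (orbF N c⁻¹)) :=
    zO_inv N _ (fun n hn u hu => conj_mem_orbF N _ u n hn hu)
  have hI : Inv N (zO (orbF N c)) :=
    zO_inv N _ (fun n hn u hu => conj_mem_orbF N _ u n hn hu)
  have key : ∀ z, Inv N z → Supp N z c →
      red M (om ρ z) * red M (om ρ (zO (orbF N c⁻¹))) =
        ((eps z : ℤ) : Cfsg.AlgInt ⧸ M) * (((orbF N c⁻¹).card : ℕ) : Cfsg.AlgInt ⧸ M) := by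
    intro z hz hs
    have hI2 := inv_mul N z _ hz hI'
    have hS2 : Supp N (z * zO (orbF N c⁻¹)) (c * c⁻¹) :=
      supp_mul N _ _ _ _ hs (supp_zO_orb N c⁻¹)
    have hs2 : ∀ g, (z * zO (orbF N c⁻¹)).coeff g ≠ 0 → g ∈ N := by
      intro g hg
      obtain ⟨n, hn, rfl⟩ := hS2 g hg
      simpa using hn
    have h1 := g1 ρ N hMprime hB _ hI2 hs2
    have hint := om_integral ρ N hSch hd _ hI2
    have h2 := (red_eq_iff hMprime hint (isIntegral_intCast' _)).mpr h1
    rw [om_mul ρ N hSch hd z _ hz hI',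
      red_mul (om_integral ρ N hSch hd z hz) (om_integral ρ N hSch hd _ hI'), red_intCast,
      map_mul, eps_zO] at h2
    rw [h2]
    push_cast
    rfl
  set a := red M (om ρ (zO (orbF N c))) with ha
  set b := red M (om ρ (zO (orbF N c⁻¹))) with hb
  set qc : Cfsg.AlgInt ⧸ M := (((orbF N c).card : ℕ) : Cfsg.AlgInt ⧸ M) with hqc
  set qc' : Cfsg.AlgInt ⧸ M := (((orbF N c⁻¹).card : ℕ) : Cfsg.AlgInt ⧸ M) with hqc'
  have hqc0 : qc ≠ 0 := (natCast_ne_zero_iff hMp _).mpr hc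
  have hqc0' : qc' ≠ 0 := (natCast_ne_zero_iff hMp _).mpr hc'
  have hab : a * b = qc * qc' := by
    have := key _ hI (supp_zO_orb N c)
    rw [eps_zO] at this
    rw [this]
    push_cast
    rfl
  have ha0 : a ≠ 0 := by
    intro h0
    rw [h0, zero_mul] at hab
    exact mul_ne_zero hqc0 hqc0' hab.symm
  have hb0 : b ≠ 0 := by
    intro h0
    rw [h0, mul_zero] at hab
    exact mul_ne_zero hqc0 hqc0' hab.symm
  refine ⟨a * qc⁻¹, mul_ne_zero ha0 (inv_ne_zero hqc0), ?_⟩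
  intro z hz hs
  have hz2 := key z hz hs
  have hk : a * qc⁻¹ * qc = a := inv_mul_cancel_right₀ hqc0 a
  apply mul_right_cancel₀ (mul_ne_zero hb0 hqc0)
  linear_combination qc * hz2 - ((eps z : ℤ) : Cfsg.AlgInt ⧸ M) * hab -
    ((eps z : ℤ) : Cfsg.AlgInt ⧸ M) * b * hk

theorem exists_K (hMp : Cfsg.IsPModular p M)
    (hSch : ∀ T : Module.End ℂ (Fin d → ℂ), (∀ n ∈ N, T ∘ₗ ρ n = ρ n ∘ₗ T) →
      ∃ c : ℂ, T = c • LinearMap.id) (hd : d ≠ 0)
    (hB : ∀ g ∈ N, Cfsg.MemLocalIdeal M (((orbF N g).card : ℂ) * (ρ.character g / d - 1)))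
    (hC : ∀ g : G, ∃ n ∈ N, ∃ c : G, g = n * c ∧ ¬ p ∣ (orbF N c).card ∧
      ¬ p ∣ (orbF N c⁻¹).card) :
    ∃ K : G → Cfsg.AlgInt ⧸ M, (∀ g, K g ≠ 0) ∧ (∀ g g', K (g * g') = K g * K g') ∧
      (∀ n ∈ N, K n = 1) ∧
      ∀ g, red M (om ρ (zO (orbF N g))) =
        K g * (((orbF N g).card : ℕ) : Cfsg.AlgInt ⧸ M) := by
  classical
  haveI : M.IsMaximal := hMp.2.1
  haveI hMprime : M.IsPrime := isPModular_isPrime hMp
  have hE : ∀ g : G, ∃ k : Cfsg.AlgInt ⧸ M, k ≠ 0 ∧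
      (∀ z, Inv N z → Supp N z g → red M (om ρ z) = k * ((eps z : ℤ) : Cfsg.AlgInt ⧸ M)) ∧
      ∃ z, Inv N z ∧ Supp N z g ∧ ((eps z : ℤ) : Cfsg.AlgInt ⧸ M) ≠ 0 := by
    intro g
    obtain ⟨n, hn, c, rfl, hc, hc'⟩ := hC g
    obtain ⟨k, hk0, hk⟩ := e1 ρ N hMp hSch hd hB c hc hc'
    refine ⟨k, hk0, fun z hz hs => hk z hz (supp_of_coset N z _ _ hs ⟨n, hn, rfl⟩),
      zO (orbF N c), zO_inv N _ (fun n hn u hu => conj_mem_orbF N _ u n hn hu), ?_, ?_⟩
    · exact supp_of_coset N _ c (n * c) (supp_zO_orb N c) ⟨n⁻¹, N.inv_mem hn, by group⟩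
    · rw [eps_zO]
      push_cast
      exact (natCast_ne_zero_iff hMp _).mpr hc
  choose K hK0 hK hKz using hE
  refine ⟨K, hK0, ?_, ?_, ?_⟩
  · intro g g'
    obtain ⟨z, hz, hs, he⟩ := hKz g
    obtain ⟨z', hz', hs', he'⟩ := hKz g'
    have h1 := hK (g * g') (z * z') (inv_mul N z z' hz hz') (supp_mul N z z' g g' hs hs')
    rw [om_mul ρ N hSch hd z z' hz hz',
      red_mul (om_integral ρ N hSch hd z hz) (om_integral ρ N hSch hd z' hz'),
      hK g z hz hs, hK g' z' hz' hs', map_mul] at h1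
    push_cast at h1
    apply mul_right_cancel₀ (mul_ne_zero he he')
    linear_combination -h1
  · intro n hn
    have hI1 : Inv N (zO ({1} : Finset G)) := by
      apply zO_inv
      intro m _ u hu
      rw [Finset.mem_singleton] at hu ⊢
      rw [hu]
      group
    have hS1 : Supp N (zO ({1} : Finset G)) n := by
      intro u hu
      rw [zO_coeff] at hu
      have hu' : u = 1 := by
        by_contra hc
        simp [hc] at hu
      exact ⟨n⁻¹, N.inv_mem hn, by rw [hu']; group⟩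
    have h1 := hK n _ hI1 hS1
    have hd' : (d : ℂ) ≠ 0 := by exact_mod_cast hd
    have h2 : om ρ (zO ({1} : Finset G)) = 1 := by
      rw [om_zO, Finset.sum_singleton, rep_char_one]
      field_simp
    rw [h2, red_one, eps_zO] at h1
    simpa using h1.symm
  · intro g
    have h1 := hK g (zO (orbF N g))
      (zO_inv N _ (fun n hn u hu => conj_mem_orbF N _ u n hn hu)) (supp_zO_orb N g)
    rw [eps_zO] at h1
    push_cast at h1
    exact h1

end main

section lift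

variable {G : Type u} [Group G] [Finite G] {M : Ideal Cfsg.AlgInt} {p : ℕ}

theorem root_eq_one (hMp : Cfsg.IsPModular p M) (m : ℕ) (hm : ¬ p ∣ m) (η : ℂ) (hη : η ^ m = 1)
    (hr : red M η = 1) : η = 1 := by
  by_contra hne
  have hm0 : m ≠ 0 := by
    rintro rfl
    exact hm (dvd_zero p)
  have hint : IsIntegral ℤ η := by
    apply IsIntegral.of_pow (Nat.pos_of_ne_zero hm0)
    rw [hη]
    exact isIntegral_one
  have hgeom : ∑ i ∈ Finset.range m, η ^ i = 0 := by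
    have h := mul_geom_sum η m
    rw [hη, sub_self] at h
    exact (mul_eq_zero.mp h).resolve_left (sub_ne_zero.mpr hne)
  have hsum : ∀ k : ℕ, IsIntegral ℤ (∑ i ∈ Finset.range k, η ^ i) ∧
      red M (∑ i ∈ Finset.range k, η ^ i) = (k : Cfsg.AlgInt ⧸ M) := by
    intro k
    induction k with
    | zero =>
      refine ⟨by simpa using isIntegral_zero, ?_⟩
      have := red_natCast (M := M) 0
      simpa using this
    | succ k ih =>
      rw [Finset.sum_range_succ]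
      refine ⟨ih.1.add (hint.pow k), ?_⟩
      rw [red_add ih.1 (hint.pow k), ih.2, red_pow hint, hr, one_pow]
      push_cast
      rfl
  have h1 := (hsum m).2
  rw [hgeom] at h1
  have h0 : red M 0 = 0 := by
    have := red_natCast (M := M) 0
    simpa using this
  rw [h0] at h1
  exact (natCast_ne_zero_iff hMp m).mpr hm h1.symm

theorem exists_lift (hMp : Cfsg.IsPModular p M) (K : G → Cfsg.AlgInt ⧸ M)
    (hK0 : ∀ g, K g ≠ 0) (hKm : ∀ g g', K (g * g') = K g * K g') :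
    ∃ lam : G →* ℂˣ, (∀ g, IsIntegral ℤ ((lam g : ℂˣ) : ℂ)) ∧
      (∀ g, red M ((lam g : ℂˣ) : ℂ) * K g = 1) ∧ (∀ g, K g = 1 → lam g = 1) := by
  classical
  haveI : M.IsMaximal := hMp.2.1
  have hMprime : M.IsPrime := isPModular_isPrime hMp
  letI : Field (Cfsg.AlgInt ⧸ M) := Ideal.Quotient.field M
  have hp : p.Prime := hMp.1
  haveI : Fact p.Prime := ⟨hp⟩
  have hp0 : ((p : ℕ) : Cfsg.AlgInt ⧸ M) = 0 := by
    by_contra hne
    exact (natCast_ne_zero_iff hMp p).mp hne (dvd_refl p)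
  haveI : CharP (Cfsg.AlgInt ⧸ M) p := (CharP.charP_iff_prime_eq_zero hp).mpr hp0
  have hK1 : K 1 = 1 := by
    have h := hKm 1 1
    rw [mul_one] at h
    have h2 : 1 * K 1 = K 1 * K 1 := by rw [one_mul]; exact h
    exact (mul_right_cancel₀ (hK0 1) h2).symm
  have hKpow : ∀ g (k : ℕ), K (g ^ k) = K g ^ k := by
    intro g k
    induction k with
    | zero => simpa using hK1
    | succ k ih => rw [pow_succ, hKm, ih, pow_succ]
  obtain ⟨a, m, hm, hcard⟩ :=
    Nat.exists_eq_pow_mul_and_not_dvd (Nat.card_pos (α := G)).ne' p hp.ne_one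
  have hm0 : m ≠ 0 := by
    rintro rfl
    exact hm (dvd_zero p)
  haveI : NeZero m := ⟨hm0⟩
  have hKm1 : ∀ g, K g ^ m = 1 := by
    intro g
    have h1 : K g ^ Nat.card G = 1 := by rw [← hKpow, pow_card_eq_one', hK1]
    rw [hcard, mul_comm, pow_mul] at h1
    apply iterateFrobenius_inj (Cfsg.AlgInt ⧸ M) p a
    simp only [iterateFrobenius_def, one_pow]
    exact h1
  obtain ⟨ζ, hprim⟩ : ∃ ζ : ℂ, IsPrimitiveRoot ζ m := ⟨_, Complex.isPrimitiveRoot_exp m hm0⟩
  have hζint : IsIntegral ℤ ζ := hprim.isIntegral (Nat.pos_of_ne_zero hm0)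
  have hpowm : ∀ i : ℕ, (ζ ^ i) ^ m = 1 := by
    intro i
    rw [← pow_mul, mul_comm, pow_mul, hprim.pow_eq_one, one_pow]
  have hprimF : IsPrimitiveRoot (red M ζ) m := by
    rw [IsPrimitiveRoot.iff_def]
    refine ⟨by rw [← red_pow hζint, hprim.pow_eq_one, red_one], ?_⟩
    intro l hl
    rw [← red_pow hζint] at hl
    have h1 : ζ ^ l = 1 := root_eq_one hMp m hm (ζ ^ l) (hpowm l) hl
    exact hprim.dvd_of_pow_eq_one l h1
  have hex : ∀ g, ∃ i : ℕ, red M (ζ ^ i) * K g = 1 := by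
    intro g
    have h1 : (K g)⁻¹ ^ m = 1 := by rw [inv_pow, hKm1, inv_one]
    obtain ⟨i, -, hi⟩ := hprimF.eq_pow_of_pow_eq_one h1
    refine ⟨i, ?_⟩
    rw [red_pow hζint, hi, inv_mul_cancel₀ (hK0 g)]
  choose e he using hex
  have hmul : ∀ g h, ζ ^ e (g * h) = ζ ^ e g * ζ ^ e h := by
    intro g h
    have hη : ζ ^ e g * ζ ^ e h * (ζ ^ e (g * h)) ^ (m - 1) = 1 := by
      apply root_eq_one hMp m hm
      · rw [mul_pow, mul_pow, hpowm, hpowm, ← pow_mul, mul_comm (m - 1) m, pow_mul, hpowm]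
        simp
      · rw [red_mul ((hζint.pow _).mul (hζint.pow _)) ((hζint.pow _).pow _),
          red_mul (hζint.pow _) (hζint.pow _), red_pow (hζint.pow _)]
        have hA := he g
        have hB := he h
        have hC := he (g * h)
        rw [hKm] at hC
        have hAB : red M (ζ ^ e g) * red M (ζ ^ e h) = red M (ζ ^ e (g * h)) := by
          apply mul_right_cancel₀ (mul_ne_zero (hK0 g) (hK0 h))
          rw [hC]
          linear_combination red M (ζ ^ e h) * K h * hA + hB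
        rw [hAB, mul_pow_sub_one hm0, ← red_pow (hζint.pow _), hpowm, red_one]
    calc ζ ^ e (g * h) = ζ ^ e (g * h) * (ζ ^ e g * ζ ^ e h * (ζ ^ e (g * h)) ^ (m - 1)) := by
          rw [hη, mul_one]
      _ = ζ ^ e g * ζ ^ e h * (ζ ^ e (g * h) * (ζ ^ e (g * h)) ^ (m - 1)) := by ring
      _ = ζ ^ e g * ζ ^ e h := by rw [mul_pow_sub_one hm0, hpowm, mul_one]
  have hζ0 : ζ ≠ 0 := hprim.ne_zero hm0
  let lam : G →* ℂˣ := MonoidHom.mk' (fun g => Units.mk0 (ζ ^ e g) (pow_ne_zero _ hζ0)) (by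
    intro g h
    apply Units.ext
    simp only [Units.val_mk0, Units.val_mul]
    exact hmul g h)
  have hlam : ∀ g, ((lam g : ℂˣ) : ℂ) = ζ ^ e g := fun g => rfl
  refine ⟨lam, ?_, ?_, ?_⟩
  · intro g
    rw [hlam]
    exact hζint.pow _
  · intro g
    rw [hlam]
    exact he g
  · intro g hg
    apply Units.ext
    rw [hlam]
    have h1 := he g
    rw [hg, mul_one] at h1
    exact root_eq_one hMp m hm _ (hpowm _) h1

end lift

section fin

variable {G : Type u} [Group G] [Fintype G] {d : ℕ} (ρ : Representation ℂ G (Fin d → ℂ))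
  (N : Subgroup G) {M : Ideal Cfsg.AlgInt} {p : ℕ}

theorem block_aux (hMp : Cfsg.IsPModular p M)
    (hSch : ∀ T : Module.End ℂ (Fin d → ℂ), (∀ n ∈ N, T ∘ₗ ρ n = ρ n ∘ₗ T) →
      ∃ c : ℂ, T = c • LinearMap.id) (hd : d ≠ 0)
    (K : G → Cfsg.AlgInt ⧸ M) (lam : G →* ℂˣ)
    (hlint : ∀ g, IsIntegral ℤ ((lam g : ℂˣ) : ℂ))
    (hlK : ∀ g, red M ((lam g : ℂˣ) : ℂ) * K g = 1)
    (hKq : ∀ g, red M (om ρ (zO (orbF N g))) =
      K g * (((orbF N g).card : ℕ) : Cfsg.AlgInt ⧸ M))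
    (S : Finset G) (hS : ∀ n ∈ N, ∀ u ∈ S, n * u * n⁻¹ ∈ S) (y : G)
    (hconst : ∀ u ∈ S, ρ.character u * ((lam u : ℂˣ) : ℂ) = ρ.character y * ((lam y : ℂˣ) : ℂ)) :
    Cfsg.MemLocalIdeal M ((S.card : ℂ) * (ρ.character y * ((lam y : ℂˣ) : ℂ) / d - 1)) := by
  classical
  have hMprime : M.IsPrime := isPModular_isPrime hMp
  have hd' : (d : ℂ) ≠ 0 := by exact_mod_cast hd
  have h1 : (S.card : ℂ) * (ρ.character y * ((lam y : ℂˣ) : ℂ) / d - 1) =
      ∑ u ∈ S, (ρ.character u * ((lam u : ℂˣ) : ℂ) / d - 1) := by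
    rw [Finset.sum_eq_card_nsmul (b := ρ.character y * ((lam y : ℂˣ) : ℂ) / d - 1)]
    · simp
    · intro u hu
      rw [hconst u hu]
  rw [h1]
  refine od_lemma hMprime N (fun u => ρ.character u * ((lam u : ℂˣ) : ℂ) / d - 1) ?_ ?_ S hS
  · intro n hn u
    show ρ.character (n * u * n⁻¹) * ((lam (n * u * n⁻¹) : ℂˣ) : ℂ) / d - 1 = _
    rw [Representation.char_conj ρ u n]
    have : lam (n * u * n⁻¹) = lam u := by
      rw [map_mul, map_mul, map_inv, mul_comm (lam n), mul_assoc, mul_inv_cancel, mul_one]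
    rw [this]
  · intro u
    have hI : Inv N (zO (orbF N u)) :=
      zO_inv N _ (fun n hn v hv => conj_mem_orbF N _ v n hn hv)
    have hint := om_integral ρ N hSch hd _ hI
    have h2 : red M (((lam u : ℂˣ) : ℂ) * om ρ (zO (orbF N u))) =
        red M (((orbF N u).card : ℕ) : ℂ) := by
      rw [red_mul (hlint u) hint, hKq u, red_natCast, ← mul_assoc, hlK u, one_mul]
    have h3 := (red_eq_iff hMprime ((hlint u).mul hint) (isIntegral_natCast' _)).mp h2
    have h4 : ((orbF N u).card : ℂ) * (ρ.character u * ((lam u : ℂˣ) : ℂ) / d - 1) =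
        ((lam u : ℂˣ) : ℂ) * om ρ (zO (orbF N u)) - (((orbF N u).card : ℕ) : ℂ) := by
      rw [om_zO_orb]
      field_simp
    rw [h4]
    exact h3

theorem card_isConj_eq_orbF (H : Subgroup G) [Fintype H] [DecidableEq H] (x : H) :
    (Finset.univ.filter (fun y : H => IsConj x y)).card = (orbF H (x : G)).card := by
  classical
  have h : orbF H (x : G) = (Finset.univ.filter (fun y : H => IsConj x y)).image Subtype.val := by
    ext u
    rw [mem_orbF, Finset.mem_image]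
    constructor
    · rintro ⟨h, hh, rfl⟩
      refine ⟨⟨h, hh⟩ * x * ⟨h, hh⟩⁻¹, ?_, rfl⟩
      rw [Finset.mem_filter]
      exact ⟨Finset.mem_univ _, isConj_iff.mpr ⟨⟨h, hh⟩, rfl⟩⟩
    · rintro ⟨y, hy, rfl⟩
      rw [Finset.mem_filter] at hy
      obtain ⟨c, hc⟩ := isConj_iff.mp hy.2
      refine ⟨c, c.2, ?_⟩
      rw [← hc]
      rfl
  rw [h, Finset.card_image_of_injective _ Subtype.val_injective]

theorem orb_not_dvd [Fact p.Prime] (P : Sylow p N) (c : G)
    (hc : c ∈ Subgroup.centralizer (((P : Subgroup N).map N.subtype : Subgroup G) : Set G)) :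
    ¬ p ∣ (orbF N c).card := by
  classical
  letI act : MulAction N G :=
    MulAction.compHom G ((MulAut.conj : G →* MulAut G).comp N.subtype)
  have hsmul : ∀ (n : N) (g : G), n • g = (n : G) * g * (n : G)⁻¹ := fun n g => rfl
  have horb : MulAction.orbit N c = ((orbF N c : Finset G) : Set G) := by
    ext u
    rw [MulAction.mem_orbit_iff, Finset.mem_coe, mem_orbF]
    constructor
    · rintro ⟨n, rfl⟩
      exact ⟨n, n.2, (hsmul n c).symm⟩
    · rintro ⟨h, hh, rfl⟩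
      exact ⟨⟨h, hh⟩, hsmul _ _⟩
  have hidx : (MulAction.stabilizer N c).index = (orbF N c).card := by
    rw [MulAction.index_stabilizer, horb, Set.ncard_coe_finset]
  have hP : (P : Subgroup N) ≤ MulAction.stabilizer N c := by
    intro x hx
    rw [MulAction.mem_stabilizer_iff, hsmul]
    have h1 := (Subgroup.mem_centralizer_iff.mp hc) (x : G) ⟨x, hx, rfl⟩
    rw [h1]
    group
  have hdvd := Subgroup.index_dvd_of_le hP
  rw [hidx] at hdvd
  intro h
  exact P.not_dvd_index (h.trans hdvd)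

end fin

end Cfsg.Agent.Lib.helper22.PBExt
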