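import Mathlib
import Cfsg.Agent.Lib.helper5.BlockSecond5
import Cfsg.Agent.Lib.helper23.BlockRankTrace

set_option autoImplicit false

namespace Cfsg.Agent.Lib.helper22

open Cfsg Cfsg.Agent.Lib.helper24 Cfsg.Agent.Lib.helper23 Cfsg.Agent.Lib.helper5
open scoped ComplexConjugate

universe u

section general

variable {K : Type u} [Group K] [Fintype K] [Fintype (IrrCharacter K)]

theorem blockPart_eq_ind (B : Set (IrrCharacter K)) (F : K → ℂ) (y : K) :
    blockPart B F y = ∑ ψ : IrrCharacter K,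
      B.indicator (fun _ => (1 : ℂ)) ψ * (classInner F ψ.1 * ψ.1 y) := by
  classical
  rw [blockPart_apply, finsum_mem_def, finsum_eq_sum_of_fintype]
  apply Finset.sum_congr rfl
  intro χ _
  by_cases hχ : χ ∈ B
  · rw [Set.indicator_of_mem hχ, Set.indicator_of_mem hχ, one_mul]
  · rw [Set.indicator_of_notMem hχ, Set.indicator_of_notMem hχ, zero_mul]

theorem blockPart_sum_smul (B : Set (IrrCharacter K)) {ι : Type*} (t : Finset ι) (w : ι → ℂ)
    (f : ι → K → ℂ) (y : K) :
    blockPart B (∑ i ∈ t, w i • f i) y = ∑ i ∈ t, w i * blockPart B (f i) y := by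
  classical
  rw [blockPart_eq_ind]
  simp only [blockPart_eq_ind, classInner_sum_left, classInner_smul_left, Finset.sum_mul,
    Finset.mul_sum]
  rw [Finset.sum_comm]
  apply Finset.sum_congr rfl
  intro i _
  apply Finset.sum_congr rfl
  intro ψ _
  ring

theorem blockPart_sub' (B : Set (IrrCharacter K)) (f g : K → ℂ) (y : K) :
    blockPart B (f - g) y = blockPart B f y - blockPart B g y := by
  classical
  simp only [blockPart_eq_ind, classInner_sub_left, ← Finset.sum_sub_distrib]
  apply Finset.sum_congr rfl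
  intro ψ _
  ring

theorem isPPart_one_of_regular {p : ℕ} (s : K) (hs : ¬ p ∣ orderOf s) : IsPPart p s 1 :=
  ⟨s, one_mul s, Commute.one_left s, ⟨0, by simp⟩, hs⟩

theorem regular_of_isPPart_one {p : ℕ} {s : K} (h : IsPPart p s 1) : ¬ p ∣ orderOf s := by
  obtain ⟨y, hy, -, -, hy2⟩ := h
  rw [one_mul] at hy
  rw [← hy]
  exact hy2

theorem block_delta_vanish {M : Ideal AlgInt} {p : ℕ} [Fact p.Prime] (hM : IsPModular p M)
    (e : Set (IrrCharacter K)) (he : IsPBlock M e) (s' c' : K) (hs' : ¬ p ∣ orderOf s')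
    (hc' : p ∣ orderOf c') :
    ∑ ψ : IrrCharacter K, e.indicator (fun _ => (1 : ℂ)) ψ * (conj (ψ.1 s') * ψ.1 c') = 0 := by
  classical
  obtain ⟨x, hx⟩ := exists_isPPart p c'
  have hne : ¬ IsConj x 1 := by
    intro hc
    have hx1 : x = 1 := by
      rw [isConj_iff] at hc
      obtain ⟨c, hc⟩ := hc
      have : x = c⁻¹ * 1 * c := by rw [← hc]; group
      rw [this]; group
    rw [hx1] at hx
    exact regular_of_isPPart_one hx hc'
  have h := block_orth hM c' s' x 1 hx (isPPart_one_of_regular s' hs') hne e he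
  rw [finsum_mem_def, finsum_eq_sum_of_fintype] at h
  rw [← h]
  apply Finset.sum_congr rfl
  intro ψ _
  by_cases hψ : ψ ∈ e
  · rw [Set.indicator_of_mem hψ, Set.indicator_of_mem hψ, one_mul, irr_inv, mul_comm]
  · rw [Set.indicator_of_notMem hψ, Set.indicator_of_notMem hψ, zero_mul]

end general

section subsection

variable {G : Type u} [Group G] [Fintype G] [Fintype (IrrCharacter G)]
variable {M : Ideal AlgInt} {p : ℕ} [Fact p.Prime]
variable (H : Subgroup G) [Fintype H] [Fintype (IrrCharacter H)]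

omit [Fintype G] [Fintype (IrrCharacter G)] [Fact p.Prime] [Fintype H] [Fintype (IrrCharacter H)] in
theorem subsec_classFun (u : G) (hH1 : ∀ h : H, (h : G) * u = u * (h : G))
    (χ : IrrCharacter G) : IsClassFunction H (fun c : H => χ.1 (u * (c : G))) := by
  intro g h
  show χ.1 (u * ((h * g * h⁻¹ : H) : G)) = χ.1 (u * (g : G))
  have e : u * ((h * g * h⁻¹ : H) : G) = (h : G) * (u * (g : G)) * (h : G)⁻¹ := by
    push_cast
    rw [← mul_assoc, ← mul_assoc, ← mul_assoc, hH1 h]
  rw [e, isClassFunction_irr χ]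

theorem subsec_kernel (u : G) (hu : ∃ k : ℕ, orderOf u = p ^ k)
    (hH1 : ∀ h : H, (h : G) * u = u * (h : G))
    (hH2 : Subgroup.centralizer ({u} : Set G) ≤ H) (c c' : H) (hc : ¬ p ∣ orderOf c)
    (hc' : ¬ p ∣ orderOf c') :
    ∑ χ : IrrCharacter G, χ.1 (u * (c : G)) * conj (χ.1 (u * (c' : G)))
      = ∑ ψ : IrrCharacter H, ψ.1 c * conj (ψ.1 c') := by
  classical
  rw [second_orth_count, second_orth_count]
  congr 1
  have hcG : ¬ p ∣ orderOf (c : G) := by rw [Subgroup.orderOf_coe]; exact hc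
  have hc'G : ¬ p ∣ orderOf (c' : G) := by rw [Subgroup.orderOf_coe]; exact hc'
  have hP : IsPPart p (u * (c : G)) u := isPPart_mul (hH1 c).symm hu hcG
  have hP' : IsPPart p (u * (c' : G)) u := isPPart_mul (hH1 c').symm hu hc'G
  have key : ∀ t : G, t * (u * (c' : G)) * t⁻¹ = u * (c : G) → t * u * t⁻¹ = u := by
    intro t ht
    have h1 := isPPart_conj hP' t
    rw [ht] at h1
    exact isPPart_unique h1 hP
  have keyH : ∀ t : G, t * (u * (c' : G)) * t⁻¹ = u * (c : G) → t ∈ H := by
    intro t ht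
    apply hH2
    rw [Subgroup.mem_centralizer_singleton_iff]
    have h1 := key t ht
    show t * u = u * t
    calc t * u = t * u * t⁻¹ * t := by group
      _ = u * t := by rw [h1]
  refine Nat.card_congr ⟨fun t => ⟨⟨t.1, keyH t.1 t.2⟩, ?_⟩, fun t => ⟨(t.1 : G), ?_⟩, ?_, ?_⟩
  · have h1 := key t.1 t.2
    have h2 := t.2
    apply Subtype.ext
    push_cast
    have h3 : t.1 * (u * (c' : G)) * t.1⁻¹ = (t.1 * u * t.1⁻¹) * (t.1 * (c' : G) * t.1⁻¹) := by
      group
    rw [h3, h1] at h2
    exact mul_left_cancel h2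
  · have h2 : ((t.1 * c' * t.1⁻¹ : H) : G) = (c : G) := congrArg Subtype.val t.2
    push_cast at h2
    have h3 : (t.1 : G) * (u * (c' : G)) * (t.1 : G)⁻¹
        = ((t.1 : G) * u) * (c' : G) * (t.1 : G)⁻¹ := by group
    rw [h3, hH1 t.1, ← h2]
    group
  · intro t
    rfl
  · intro t
    rfl

theorem subsec_gram (hM : IsPModular p M) (u : G) (hu : ∃ k : ℕ, orderOf u = p ^ k)
    (hH1 : ∀ h : H, (h : G) * u = u * (h : G))
    (hH2 : Subgroup.centralizer ({u} : Set G) ≤ H)
    (e : Set (IrrCharacter H)) (he : IsPBlock M e) (s s' : H) (hs : ¬ p ∣ orderOf s)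
    (hs' : ¬ p ∣ orderOf s') :
    ∑ χ : IrrCharacter G, blockPart e (fun c : H => χ.1 (u * (c : G))) s
        * conj (blockPart e (fun c : H => χ.1 (u * (c : G))) s')
      = ∑ ψ : IrrCharacter H, e.indicator (fun _ => (1 : ℂ)) ψ * (ψ.1 s * conj (ψ.1 s')) := by
  classical
  have hne : (Nat.card H : ℂ) ≠ 0 := NeZero.ne _
  obtain ⟨ϑ, hϑ⟩ : ∃ ϑ : IrrCharacter G → H → ℂ, ϑ = fun χ c => χ.1 (u * (c : G)) := ⟨_, rfl⟩
  have hϑcf : ∀ χ, IsClassFunction H (ϑ χ) := by
    intro χ
    rw [hϑ]
    exact subsec_classFun H u hH1 χ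
  obtain ⟨w, hw⟩ : ∃ w : IrrCharacter G → ℂ, w = fun χ => conj (blockPart e (ϑ χ) s') :=
    ⟨_, rfl⟩
  obtain ⟨F, hF⟩ : ∃ F : H → ℂ, F = ∑ χ : IrrCharacter G, w χ • ϑ χ := ⟨_, rfl⟩
  obtain ⟨D, hD⟩ : ∃ D : H → ℂ, D = ∑ ψ : IrrCharacter H,
      (e.indicator (fun _ => (1 : ℂ)) ψ * conj (ψ.1 s')) • ψ.1 := ⟨_, rfl⟩
  have hDapp : ∀ c : H, D c = ∑ ψ : IrrCharacter H,
      e.indicator (fun _ => (1 : ℂ)) ψ * (conj (ψ.1 s') * ψ.1 c) := by
    intro c
    rw [hD, Finset.sum_apply]
    apply Finset.sum_congr rfl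
    intro ψ _
    simp only [Pi.smul_apply, smul_eq_mul]
    ring
  have hDcf : IsClassFunction H D := by
    rw [hD]
    apply isClassFunction_sum
    intro ψ _
    exact isClassFunction_smul _ (isClassFunction_irr ψ)
  have hFcf : IsClassFunction H F := by
    rw [hF]
    apply isClassFunction_sum
    intro χ _
    exact isClassFunction_smul _ (hϑcf χ)
  have h1 : ∑ χ : IrrCharacter G, blockPart e (fun c : H => χ.1 (u * (c : G))) s
        * conj (blockPart e (fun c : H => χ.1 (u * (c : G))) s') = blockPart e F s := by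
    rw [hF, blockPart_sum_smul]
    apply Finset.sum_congr rfl
    intro χ _
    rw [hw, hϑ]
    ring
  have hDvan : ∀ c' : H, p ∣ orderOf c' → D c' = 0 := by
    intro c' hc'
    rw [hDapp]
    exact block_delta_vanish hM e he s' c' hs' hc'
  have hwexp : ∀ χ : IrrCharacter G, w χ = (Nat.card H : ℂ)⁻¹ * ∑ c' : H,
      D c' * conj (χ.1 (u * (c' : G))) := by
    intro χ
    rw [hw]
    show conj (blockPart e (ϑ χ) s') = _
    rw [blockPart_eq_ind, map_sum, Finset.mul_sum]
    have hterm : ∀ ψ : IrrCharacter H,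
        conj (e.indicator (fun _ => (1 : ℂ)) ψ * (classInner (ϑ χ) ψ.1 * ψ.1 s'))
          = ∑ c' : H, (Nat.card H : ℂ)⁻¹ * (e.indicator (fun _ => (1 : ℂ)) ψ
            * (conj (ψ.1 s') * ψ.1 c') * conj (χ.1 (u * (c' : G)))) := by
      intro ψ
      rw [map_mul, map_mul, ← classInner_conj_symm]
      have hi : conj (e.indicator (fun _ => (1 : ℂ)) ψ) = e.indicator (fun _ => (1 : ℂ)) ψ := by
        by_cases hψ : ψ ∈ e
        · rw [Set.indicator_of_mem hψ, map_one]
        · rw [Set.indicator_of_notMem hψ, map_zero]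
      rw [hi]
      unfold classInner
      rw [Finset.mul_sum, Finset.sum_mul, Finset.mul_sum]
      apply Finset.sum_congr rfl
      intro c' _
      rw [hϑ]
      ring
    rw [Finset.sum_congr rfl (fun ψ _ => hterm ψ), Finset.sum_comm]
    apply Finset.sum_congr rfl
    intro c' _
    rw [hDapp, Finset.sum_mul, Finset.mul_sum]
  have h2 : ∀ c : H, ¬ p ∣ orderOf c → F c = D c := by
    intro c hc
    have hFc : F c = (Nat.card H : ℂ)⁻¹ * ∑ c' : H, D c' *
        ∑ χ : IrrCharacter G, χ.1 (u * (c : G)) * conj (χ.1 (u * (c' : G))) := by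
      rw [hF, Finset.sum_apply]
      simp only [Pi.smul_apply, smul_eq_mul, hwexp]
      rw [Finset.mul_sum]
      simp only [Finset.mul_sum, Finset.sum_mul]
      rw [Finset.sum_comm]
      apply Finset.sum_congr rfl
      intro c' _
      apply Finset.sum_congr rfl
      intro χ _
      rw [hϑ]
      ring
    have hDc : D c = (Nat.card H : ℂ)⁻¹ * ∑ c' : H, D c' *
        ∑ ψ : IrrCharacter H, ψ.1 c * conj (ψ.1 c') := by
      conv_lhs => rw [classFunction_expansion_apply hDcf c]
      unfold classInner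
      simp only [Finset.mul_sum, Finset.sum_mul]
      rw [Finset.sum_comm]
      apply Finset.sum_congr rfl
      intro c' _
      apply Finset.sum_congr rfl
      intro ψ _
      ring
    rw [hFc, hDc]
    congr 1
    apply Finset.sum_congr rfl
    intro c' _
    by_cases hc' : p ∣ orderOf c'
    · rw [hDvan c' hc', zero_mul, zero_mul]
    · rw [subsec_kernel H u hu hH1 hH2 c c' hc hc']
  have h3 : blockPart e F s = blockPart e D s := by
    have hvan : ∀ u' : H, IsPPart p u' 1 → (F - D) u' = 0 := by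
      intro u' hu'
      show F u' - D u' = 0
      rw [h2 u' (regular_of_isPPart_one hu'), sub_self]
    have h := block_section hM (isClassFunction_sub hFcf hDcf) 1 hvan e he s
      (isPPart_one_of_regular s hs)
    rw [blockPart_sub'] at h
    exact sub_eq_zero.mp h
  have h4 : blockPart e D s = ∑ ψ : IrrCharacter H,
      e.indicator (fun _ => (1 : ℂ)) ψ * (ψ.1 s * conj (ψ.1 s')) := by
    rw [hD, blockPart_sum_smul]
    apply Finset.sum_congr rfl
    intro ψ _
    by_cases hψ : ψ ∈ e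
    · rw [blockPart_self e hψ, Set.indicator_of_mem hψ]
      ring
    · rw [Set.indicator_of_notMem hψ, zero_mul, zero_mul, zero_mul]
  rw [h1, h3, h4]

theorem subsec_second_main (hM : IsPModular p M) (u : G) (hu : ∃ k : ℕ, orderOf u = p ^ k)
    (hH1 : ∀ h : H, (h : G) * u = u * (h : G))
    (hH2 : Subgroup.centralizer ({u} : Set G) ≤ H)
    (e : Set (IrrCharacter H)) (B : Set (IrrCharacter G)) (hind : IsInducedBlock M H e B)
    (χ : IrrCharacter G) (hχ : χ ∉ B) (s : H) (hs : ¬ p ∣ orderOf s) :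
    blockPart e (fun c : H => χ.1 (u * (c : G))) s = 0 := by
  classical
  rw [blockPart_eq_sum e (subsec_classFun H u hH1 χ) s]
  have huH : u ∈ H := hH2 (self_mem_centralizer_singleton u)
  have hxy : IsPPart p (((⟨u, huH⟩ * s : H)) : G) u := by
    have hc : Commute u (s : G) := (hH1 s).symm
    exact isPPart_mul hc hu (by rw [Subgroup.orderOf_coe]; exact hs)
  have h1 := second_main_core H hM hind (⟨u, huH⟩ * s) u hxy hH2 χ hχ
  rw [← h1]
  apply Finset.sum_congr rfl
  intro k _
  congr 1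
  show χ.1 (u * ((k * s : H) : G)) = χ.1 ((k : G) * ((⟨u, huH⟩ * s : H) : G))
  congr 1
  push_cast
  rw [← mul_assoc, ← mul_assoc, hH1 k]

theorem subsec_conj (u : G) (hH1 : ∀ h : H, (h : G) * u = u * (h : G))
    (e : Set (IrrCharacter H)) (χ : IrrCharacter G) (s : H) :
    blockPart e (fun c : H => χ.1 (u⁻¹ * (c : G))) s⁻¹
      = conj (blockPart e (fun c : H => χ.1 (u * (c : G))) s) := by
  classical
  rw [blockPart_eq_ind, blockPart_eq_ind, map_sum]
  apply Finset.sum_congr rfl
  intro ψ _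
  have hi : conj (e.indicator (fun _ => (1 : ℂ)) ψ) = e.indicator (fun _ => (1 : ℂ)) ψ := by
    by_cases hψ : ψ ∈ e
    · rw [Set.indicator_of_mem hψ, map_one]
    · rw [Set.indicator_of_notMem hψ, map_zero]
  rw [map_mul, map_mul, hi, irr_inv]
  congr 2
  unfold classInner
  rw [map_mul, map_inv₀, Complex.conj_natCast, map_sum]
  congr 1
  rw [← Equiv.sum_comp (Equiv.inv H)]
  apply Finset.sum_congr rfl
  intro c _
  have e1 : (Equiv.inv H) c = c⁻¹ := rfl
  rw [e1, irr_inv, map_mul, Complex.conj_conj]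
  congr 1
  show χ.1 (u⁻¹ * ((c⁻¹ : H) : G)) = conj (χ.1 (u * (c : G)))
  have e2 : u⁻¹ * ((c⁻¹ : H) : G) = ((c : G) * u)⁻¹ := by
    push_cast
    rw [mul_inv_rev]
  rw [e2, hH1 c, irr_inv]

theorem subsec_trace (hM : IsPModular p M) (u : G) (hu : ∃ k : ℕ, orderOf u = p ^ k)
    (hH1 : ∀ h : H, (h : G) * u = u * (h : G))
    (hH2 : Subgroup.centralizer ({u} : Set G) ≤ H)
    (e : Set (IrrCharacter H)) (he : IsPBlock M e) (B : Set (IrrCharacter G))
    (hind : IsInducedBlock M H e B) :
    ∑ χ : IrrCharacter G, B.indicator (fun _ => (1 : ℂ)) χ * ∑ s : H,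
        (if p ∣ orderOf s then (0 : ℂ) else blockPart e (fun c : H => χ.1 (u * (c : G))) s
          * conj (blockPart e (fun c : H => χ.1 (u * (c : G))) s))
      = (Nat.card H : ℂ) * (blockRank p e : ℂ) := by
  classical
  rw [blockRank_trace_formula p M hM e he]
  simp only [Finset.mul_sum]
  rw [Finset.sum_comm]
  apply Finset.sum_congr rfl
  intro s _
  by_cases hs : p ∣ orderOf s
  · simp only [hs, if_true, mul_zero, Finset.sum_const_zero]
    symm
    rw [finsum_mem_def, finsum_eq_sum_of_fintype]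
    apply Finset.sum_eq_zero
    intro ψ _
    by_cases hψ : ψ ∈ e
    · rw [Set.indicator_of_mem hψ, pRegularPart_apply]
      have : ¬ IsPRegular p s := fun h => h hs
      rw [if_neg this, zero_mul]
    · rw [Set.indicator_of_notMem hψ]
  · simp only [hs, if_false]
    have h1 : ∑ χ : IrrCharacter G, B.indicator (fun _ => (1 : ℂ)) χ
          * (blockPart e (fun c : H => χ.1 (u * (c : G))) s
            * conj (blockPart e (fun c : H => χ.1 (u * (c : G))) s))
        = ∑ χ : IrrCharacter G, blockPart e (fun c : H => χ.1 (u * (c : G))) s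
            * conj (blockPart e (fun c : H => χ.1 (u * (c : G))) s) := by
      apply Finset.sum_congr rfl
      intro χ _
      by_cases hχ : χ ∈ B
      · rw [Set.indicator_of_mem hχ, one_mul]
      · rw [Set.indicator_of_notMem hχ, zero_mul,
          subsec_second_main H hM u hu hH1 hH2 e B hind χ hχ s hs, zero_mul]
    rw [h1, subsec_gram H hM u hu hH1 hH2 e he s s hs hs, finsum_mem_def,
      finsum_eq_sum_of_fintype]
    apply Finset.sum_congr rfl
    intro ψ _
    by_cases hψ : ψ ∈ e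
    · rw [Set.indicator_of_mem hψ, Set.indicator_of_mem hψ, one_mul, pRegularPart_apply,
        if_pos (show IsPRegular p s from hs), irr_inv]
    · rw [Set.indicator_of_notMem hψ, Set.indicator_of_notMem hψ, zero_mul]

end subsection

end Cfsg.Agent.Lib.helper22
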