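import Mathlib

set_option autoImplicit false

namespace Cfsg.Agent.Lib.helper22

open scoped ComplexConjugate

noncomputable def dlt (η : ℂ) : ℤ := if η = 1 then 1 else if η = -1 then -1 else 0

theorem sum_odd_pow (n : ℕ) (η : ℂ) (hη : η ^ (2 ^ n) = 1) :
    ∑ i ∈ Finset.range (2 ^ n), η ^ (2 * i + 1) = (2 ^ n : ℂ) * (dlt η : ℂ) := by
  have h1 : ∑ i ∈ Finset.range (2 ^ n), η ^ (2 * i + 1)
      = η * ∑ i ∈ Finset.range (2 ^ n), (η ^ 2) ^ i := by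
    rw [Finset.mul_sum]
    apply Finset.sum_congr rfl
    intro i _
    rw [← pow_mul]
    ring
  rw [h1]
  by_cases h2 : η ^ 2 = 1
  · rw [h2]
    simp only [one_pow, Finset.sum_const, Finset.card_range, nsmul_eq_mul, mul_one]
    have h3 : η = 1 ∨ η = -1 := sq_eq_one_iff.mp h2
    rcases h3 with h3 | h3
    · subst h3
      simp [dlt]
    · subst h3
      have hne : (-1 : ℂ) ≠ 1 := by norm_num
      simp [dlt, hne]
  · have h3 : η ≠ 1 := fun h => h2 (by rw [h]; norm_num)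
    have h4 : η ≠ -1 := fun h => h2 (by rw [h]; norm_num)
    have hg : ∑ i ∈ Finset.range (2 ^ n), (η ^ 2) ^ i = 0 := by
      rw [geom_sum_eq h2 (2 ^ n), ← pow_mul, mul_comm, pow_mul, hη]
      simp
    rw [hg]
    simp [dlt, h3, h4]

theorem avg_norm_sq {P : Type*} [Fintype P] (n : ℕ) (K : P → ℤ) (ω : P → ℂ)
    (hω : ∀ t, ω t ^ (2 ^ n) = 1) :
    ∃ Z : ℤ, ∑ i ∈ Finset.range (2 ^ n),
        Complex.normSq (∑ t, (K t : ℂ) * ω t ^ (2 * i + 1)) = (2 ^ n : ℝ) * (Z : ℝ)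
      ∧ ((∑ t, (K t : ℂ) * ω t ^ 1) ≠ 0 → 1 ≤ Z) := by
  classical
  obtain ⟨Z, hZ⟩ : ∃ Z : ℤ, Z = ∑ t, ∑ r, K t * K r * dlt (ω t * conj (ω r)) := ⟨_, rfl⟩
  have hmain : ∑ i ∈ Finset.range (2 ^ n),
      Complex.normSq (∑ t, (K t : ℂ) * ω t ^ (2 * i + 1)) = (2 ^ n : ℝ) * (Z : ℝ) := by
    have hC : ((∑ i ∈ Finset.range (2 ^ n),
        Complex.normSq (∑ t, (K t : ℂ) * ω t ^ (2 * i + 1)) : ℝ) : ℂ)
        = (((2 ^ n : ℝ) * (Z : ℝ) : ℝ) : ℂ) := by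
      push_cast
      have e1 : ∀ i : ℕ, (Complex.normSq (∑ t, (K t : ℂ) * ω t ^ (2 * i + 1)) : ℂ)
          = ∑ t, ∑ r, ((K t : ℂ) * (K r : ℂ)) * (ω t * conj (ω r)) ^ (2 * i + 1) := by
        intro i
        rw [← Complex.mul_conj, map_sum, Finset.sum_mul]
        apply Finset.sum_congr rfl
        intro t _
        rw [Finset.mul_sum]
        apply Finset.sum_congr rfl
        intro r _
        have hk : conj (K r : ℂ) = (K r : ℂ) := Complex.conj_eq_iff_re.mpr rfl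
        rw [map_mul, map_pow, hk, mul_pow]
        ring
      simp only [e1]
      rw [Finset.sum_comm]
      rw [hZ]
      push_cast
      rw [Finset.mul_sum]
      apply Finset.sum_congr rfl
      intro t _
      rw [Finset.sum_comm, Finset.mul_sum]
      apply Finset.sum_congr rfl
      intro r _
      rw [← Finset.mul_sum, sum_odd_pow n]
      · ring
      · rw [mul_pow, ← map_pow, hω, hω, map_one, one_mul]
    exact_mod_cast hC
  refine ⟨Z, hmain, ?_⟩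
  intro hne
  have hpos : 0 < Complex.normSq (∑ t, (K t : ℂ) * ω t ^ 1) := Complex.normSq_pos.mpr hne
  have hle : Complex.normSq (∑ t, (K t : ℂ) * ω t ^ 1)
      ≤ ∑ i ∈ Finset.range (2 ^ n), Complex.normSq (∑ t, (K t : ℂ) * ω t ^ (2 * i + 1)) := by
    have h0 : (0 : ℕ) ∈ Finset.range (2 ^ n) := Finset.mem_range.mpr (by positivity)
    have := Finset.single_le_sum (f := fun i : ℕ =>
      Complex.normSq (∑ t, (K t : ℂ) * ω t ^ (2 * i + 1)))
      (fun i _ => Complex.normSq_nonneg _) h0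
    simpa using this
  rw [hmain] at hle
  have h2 : (0 : ℝ) < (2 ^ n : ℝ) * (Z : ℝ) := lt_of_lt_of_le hpos hle
  have h3 : (0 : ℝ) < (Z : ℝ) := by
    have h4 : (0 : ℝ) < (2 ^ n : ℝ) := by positivity
    exact (mul_pos_iff_of_pos_left h4).mp h2
  have h5 : 0 < Z := by exact_mod_cast h3
  omega

theorem avg_diag {P : Type*} [Fintype P] (n : ℕ) (K : P → ℤ) (ω : P → ℂ)
    (hω : ∀ t, ω t ^ (2 ^ n) = 1) (τ : P → P) (hτ : ∀ t, τ (τ t) = t)
    (hK : ∀ t, K (τ t) = K t) (hωτ : ∀ t, ω (τ t) = conj (ω t))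
    (hfix : ∀ t, τ t = t → ω t = 1) :
    ∃ A : ℤ, ∑ i ∈ Finset.range (2 ^ n), (∑ t, (K t : ℂ) * ω t ^ (2 * i + 1))
        = (2 ^ n : ℂ) * (A : ℂ)
      ∧ Even (A - ∑ t, K t) := by
  classical
  refine ⟨∑ t, K t * dlt (ω t), ?_, ?_⟩
  · rw [Finset.sum_comm]
    push_cast
    rw [Finset.mul_sum]
    apply Finset.sum_congr rfl
    intro t _
    rw [← Finset.mul_sum, sum_odd_pow n _ (hω t)]
    ring
  · rw [← ZMod.intCast_eq_zero_iff_even]
    push_cast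
    rw [← Finset.sum_sub_distrib]
    have hconj1 : ∀ z : ℂ, conj z = 1 ↔ z = 1 := by
      intro z
      constructor
      · intro h
        have := congrArg conj h
        rwa [Complex.conj_conj, map_one] at this
      · intro h
        rw [h, map_one]
    have hconjm1 : ∀ z : ℂ, conj z = -1 ↔ z = -1 := by
      intro z
      constructor
      · intro h
        have := congrArg conj h
        rwa [Complex.conj_conj, map_neg, map_one] at this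
      · intro h
        rw [h, map_neg, map_one]
    have h2 : ∀ z : ZMod 2, z + z = 0 := by decide
    have e : ∀ t, ((K t : ZMod 2) * (dlt (ω t) : ZMod 2) - (K t : ZMod 2))
        = if ω t ≠ 1 ∧ ω t ≠ -1 then (K t : ZMod 2) else 0 := by
      intro t
      by_cases h1 : ω t = 1
      · simp [dlt, h1]
      · by_cases h3 : ω t = -1
        · have hne : (-1 : ℂ) ≠ 1 := by norm_num
          simp only [dlt, h3, hne, if_false, if_true, ne_eq, not_true_eq_false, and_false]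
          push_cast
          have := h2 (K t : ZMod 2)
          linear_combination -this
        · simp only [dlt, h1, h3, if_false, ne_eq, not_false_eq_true, and_self, if_true]
          push_cast
          have := h2 (K t : ZMod 2)
          linear_combination -this
    simp only [e]
    rw [← Finset.sum_filter]
    apply Finset.sum_involution (fun t _ => τ t)
    · intro t _
      rw [hK]
      exact h2 _
    · intro t ht _ hfx
      rw [Finset.mem_filter] at ht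
      exact ht.2.1 (hfix t hfx)
    · intro t ht
      rw [Finset.mem_filter] at ht ⊢
      refine ⟨Finset.mem_univ _, ?_, ?_⟩
      · rw [hωτ, ne_eq, hconj1]
        exact ht.2.1
      · rw [hωτ, ne_eq, hconjm1]
        exact ht.2.2
    · intro t _
      exact hτ t

theorem k0_arith (k a Q l s : ℤ) (hk : 0 ≤ k) (hs0 : 0 ≤ s) (hQ : 0 < Q) (ha : Odd a)
    (ha1 : 1 ≤ a) (h1 : k ≤ Q * a) (h2 : k * a ≤ Q * l) (hs1 : s ^ 2 ≤ l)
    (hs2 : l < (s + 1) ^ 2) :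
    (Odd s → k ≤ s * Q) ∧ (¬ Odd s → (s + 1) * k ≤ l * Q) ∧ (l ≤ 3 → k ≤ Q) := by
  have part1 : Odd s → k ≤ s * Q := by
    intro hs
    by_cases has : a ≤ s
    · nlinarith
    · have has2 : s + 2 ≤ a := by
        obtain ⟨i, hi⟩ := ha
        obtain ⟨j, hj⟩ := hs
        omega
      have e1 : k * (s + 2) ≤ k * a := mul_le_mul_of_nonneg_left has2 hk
      have e2 : Q * l ≤ Q * (s ^ 2 + 2 * s) := by
        apply mul_le_mul_of_nonneg_left _ hQ.le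
        nlinarith
      have e3 : k * (s + 2) ≤ (s * Q) * (s + 2) := by nlinarith
      exact le_of_mul_le_mul_right e3 (by omega)
  refine ⟨part1, ?_, ?_⟩
  · intro hs
    rw [Int.not_odd_iff_even] at hs
    by_cases has : s + 1 ≤ a
    · have e1 : (s + 1) * k ≤ a * k := mul_le_mul_of_nonneg_right has hk
      nlinarith
    · have has2 : a ≤ s - 1 := by
        obtain ⟨i, hi⟩ := ha
        obtain ⟨j, hj⟩ := hs
        omega
      have e1 : k ≤ Q * (s - 1) := by nlinarith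
      have e2 : (s + 1) * k ≤ (s + 1) * (Q * (s - 1)) :=
        mul_le_mul_of_nonneg_left e1 (by omega)
      nlinarith
  · intro hl
    have hs1' : s ≤ 1 := by nlinarith
    rcases (by omega : s = 0 ∨ s = 1) with h0 | h0
    · subst h0
      have hl0 : l ≤ 0 := by nlinarith
      have : k * a ≤ 0 := by nlinarith
      nlinarith
    · subst h0
      have := part1 (by decide)
      linarith

theorem k0_bound {X : Type*} [Fintype X] (n q l : ℕ) (c : ℕ → X → X → ℂ)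
    (B I₀ : Finset X) (hI : I₀ ⊆ B)
    (h1 : ∀ χ ψ, ∃ Z : ℤ, ∑ i ∈ Finset.range (2 ^ n), Complex.normSq (c (2 * i + 1) χ ψ)
        = (2 ^ n : ℝ) * (Z : ℝ) ∧ (c 1 χ ψ ≠ 0 → 1 ≤ Z))
    (h2 : ∀ χ ∈ I₀, ∃ A : ℤ, ∑ i ∈ Finset.range (2 ^ n), c (2 * i + 1) χ χ
        = (2 ^ n : ℂ) * (A : ℂ) ∧ Odd A)
    (h3 : ∀ i χ, ∑ ψ, (Complex.normSq (c (2 * i + 1) χ ψ) : ℂ)
        = (2 ^ q : ℂ) * c (2 * i + 1) χ χ)
    (h4 : ∀ i, ∑ χ ∈ B, c (2 * i + 1) χ χ = (2 ^ q : ℂ) * (l : ℂ))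
    (h5 : ∀ χ ∈ I₀, ∀ ψ ∈ I₀, c 1 χ ψ ≠ 0) :
    (Odd (Nat.sqrt l) → I₀.card ≤ Nat.sqrt l * 2 ^ q) ∧
    (¬ Odd (Nat.sqrt l) → (Nat.sqrt l + 1) * I₀.card ≤ l * 2 ^ q) ∧
    (l ≤ 3 → I₀.card ≤ 2 ^ q) := by
  classical
  obtain ⟨r, hr⟩ : ∃ r : ℕ → X → ℝ,
      r = fun i χ => (∑ ψ, Complex.normSq (c (2 * i + 1) χ ψ)) / 2 ^ q := ⟨_, rfl⟩
  have h2q : (2 ^ q : ℂ) ≠ 0 := pow_ne_zero _ two_ne_zero
  have h2q' : (2 ^ q : ℝ) ≠ 0 := by positivity
  have h2n : (0 : ℝ) < (2 ^ n : ℝ) := by positivity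
  have hc : ∀ i χ, c (2 * i + 1) χ χ = (r i χ : ℂ) := by
    intro i χ
    have h := h3 i χ
    rw [hr]
    push_cast
    rw [h]
    field_simp
  have hr0 : ∀ i χ, 0 ≤ r i χ := by
    intro i χ
    rw [hr]
    exact div_nonneg (Finset.sum_nonneg (fun _ _ => Complex.normSq_nonneg _)) (by positivity)
  have hr3 : ∀ i χ, ∑ ψ, Complex.normSq (c (2 * i + 1) χ ψ) = 2 ^ q * r i χ := by
    intro i χ
    rw [hr]
    field_simp
  have hA : ∀ χ ∈ I₀, ∃ A : ℤ,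
      ∑ i ∈ Finset.range (2 ^ n), r i χ = (2 ^ n : ℝ) * (A : ℝ) ∧ Odd A := by
    intro χ hχ
    obtain ⟨A, hA1, hA2⟩ := h2 χ hχ
    refine ⟨A, ?_, hA2⟩
    have : ((∑ i ∈ Finset.range (2 ^ n), r i χ : ℝ) : ℂ)
        = (((2 ^ n : ℝ) * (A : ℝ) : ℝ) : ℂ) := by
      push_cast
      rw [← hA1]
      apply Finset.sum_congr rfl
      intro i _
      rw [hc]
    exact_mod_cast this
  choose! A hA1 hA2 using hA
  have hApos : ∀ χ ∈ I₀, 1 ≤ A χ := by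
    intro χ hχ
    have h0 : (0 : ℝ) ≤ (2 ^ n : ℝ) * (A χ : ℝ) := by
      rw [← hA1 χ hχ]
      exact Finset.sum_nonneg (fun i _ => hr0 i χ)
    have h1' : (0 : ℝ) ≤ (A χ : ℝ) := (mul_nonneg_iff_of_pos_left h2n).mp h0
    have h2' : 0 ≤ A χ := by exact_mod_cast h1'
    obtain ⟨k, hk⟩ := hA2 χ hχ
    omega
  have ha : ∀ χ ∈ I₀, (I₀.card : ℤ) ≤ 2 ^ q * A χ := by
    intro χ hχ
    choose Z hZ1 hZ2 using h1 χ
    have hZ : ∀ ψ ∈ I₀, 1 ≤ Z ψ := fun ψ hψ => hZ2 ψ (h5 χ hχ ψ hψ)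
    have hZ0 : ∀ ψ, 0 ≤ Z ψ := by
      intro ψ
      have h0 : (0 : ℝ) ≤ (2 ^ n : ℝ) * (Z ψ : ℝ) := by
        rw [← hZ1 ψ]
        exact Finset.sum_nonneg (fun i _ => Complex.normSq_nonneg _)
      have := (mul_nonneg_iff_of_pos_left h2n).mp h0
      exact_mod_cast this
    have e1 : (2 ^ n : ℝ) * (I₀.card : ℝ) ≤ ∑ ψ ∈ I₀, (2 ^ n : ℝ) * (Z ψ : ℝ) := by
      rw [← Finset.mul_sum]
      apply mul_le_mul_of_nonneg_left _ h2n.le
      have : (I₀.card : ℝ) = ∑ ψ ∈ I₀, (1 : ℝ) := by simp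
      rw [this]
      apply Finset.sum_le_sum
      intro ψ hψ
      exact_mod_cast hZ ψ hψ
    have e2 : ∑ ψ ∈ I₀, (2 ^ n : ℝ) * (Z ψ : ℝ) ≤ ∑ ψ, (2 ^ n : ℝ) * (Z ψ : ℝ) := by
      apply Finset.sum_le_sum_of_subset_of_nonneg (Finset.subset_univ _)
      intro ψ _ _
      have h0 : (0 : ℝ) ≤ (Z ψ : ℝ) := by exact_mod_cast hZ0 ψ
      positivity
    have e3 : ∑ ψ, (2 ^ n : ℝ) * (Z ψ : ℝ) = (2 ^ q : ℝ) * ((2 ^ n : ℝ) * (A χ : ℝ)) := by
      simp only [← hZ1]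
      rw [Finset.sum_comm, ← hA1 χ hχ, Finset.mul_sum]
      apply Finset.sum_congr rfl
      intro i _
      exact hr3 i χ
    have e4 : (2 ^ n : ℝ) * (I₀.card : ℝ) ≤ (2 ^ n : ℝ) * ((2 ^ q : ℝ) * (A χ : ℝ)) := by
      calc (2 ^ n : ℝ) * (I₀.card : ℝ) ≤ ∑ ψ ∈ I₀, (2 ^ n : ℝ) * (Z ψ : ℝ) := e1
        _ ≤ ∑ ψ, (2 ^ n : ℝ) * (Z ψ : ℝ) := e2
        _ = (2 ^ q : ℝ) * ((2 ^ n : ℝ) * (A χ : ℝ)) := e3
        _ = (2 ^ n : ℝ) * ((2 ^ q : ℝ) * (A χ : ℝ)) := by ring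
    have e5 : (I₀.card : ℝ) ≤ (2 ^ q : ℝ) * (A χ : ℝ) := le_of_mul_le_mul_left e4 h2n
    exact_mod_cast e5
  have hb : ∑ χ ∈ I₀, A χ ≤ 2 ^ q * (l : ℤ) := by
    have hB : ∀ i, ∑ χ ∈ B, r i χ = (2 ^ q : ℝ) * (l : ℝ) := by
      intro i
      have : ((∑ χ ∈ B, r i χ : ℝ) : ℂ) = (((2 ^ q : ℝ) * (l : ℝ) : ℝ) : ℂ) := by
        push_cast
        rw [← h4 i]
        apply Finset.sum_congr rfl
        intro χ _
        rw [hc]
      exact_mod_cast this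
    have e1 : (2 ^ n : ℝ) * ∑ χ ∈ I₀, (A χ : ℝ)
        = ∑ i ∈ Finset.range (2 ^ n), ∑ χ ∈ I₀, r i χ := by
      rw [Finset.sum_comm, Finset.mul_sum]
      apply Finset.sum_congr rfl
      intro χ hχ
      rw [hA1 χ hχ]
    have e2 : ∑ i ∈ Finset.range (2 ^ n), ∑ χ ∈ I₀, r i χ
        ≤ ∑ i ∈ Finset.range (2 ^ n), (2 ^ q : ℝ) * (l : ℝ) := by
      apply Finset.sum_le_sum
      intro i _
      rw [← hB i]
      exact Finset.sum_le_sum_of_subset_of_nonneg hI (fun χ _ _ => hr0 i χ)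
    have e3 : ∑ i ∈ Finset.range (2 ^ n), (2 ^ q : ℝ) * (l : ℝ)
        = (2 ^ n : ℝ) * ((2 ^ q : ℝ) * (l : ℝ)) := by
      rw [Finset.sum_const, Finset.card_range, nsmul_eq_mul]
      push_cast
      ring
    have e5 : ∑ χ ∈ I₀, (A χ : ℝ) ≤ (2 ^ q : ℝ) * (l : ℝ) := by
      apply le_of_mul_le_mul_left _ h2n
      rw [e1, ← e3]
      exact e2
    exact_mod_cast e5
  by_cases hne : I₀.Nonempty
  · obtain ⟨χ₀, hχ₀, hmin⟩ := Finset.exists_min_image I₀ A hne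
    have hka : (I₀.card : ℤ) * A χ₀ ≤ 2 ^ q * (l : ℤ) := by
      have h := Finset.card_nsmul_le_sum I₀ A (A χ₀) hmin
      rw [nsmul_eq_mul] at h
      exact h.trans hb
    have hs1 : ((Nat.sqrt l : ℕ) : ℤ) ^ 2 ≤ (l : ℤ) := by exact_mod_cast Nat.sqrt_le' l
    have hs2 : (l : ℤ) < (((Nat.sqrt l : ℕ) : ℤ) + 1) ^ 2 := by
      exact_mod_cast Nat.lt_succ_sqrt' l
    have hk0 : (0 : ℤ) ≤ (I₀.card : ℤ) := Int.natCast_nonneg _
    have hs0 : (0 : ℤ) ≤ ((Nat.sqrt l : ℕ) : ℤ) := Int.natCast_nonneg _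
    have hQ : (0 : ℤ) < 2 ^ q := by positivity
    obtain ⟨p1, p2, p3⟩ := k0_arith (I₀.card : ℤ) (A χ₀) (2 ^ q) (l : ℤ) ((Nat.sqrt l : ℕ) : ℤ)
      hk0 hs0 hQ (hA2 χ₀ hχ₀) (hApos χ₀ hχ₀) (ha χ₀ hχ₀) hka hs1 hs2
    refine ⟨?_, ?_, ?_⟩
    · intro hs
      have := p1 ((Int.odd_coe_nat _).mpr hs)
      exact_mod_cast this
    · intro hs
      have := p2 (fun h => hs ((Int.odd_coe_nat _).mp h))
      exact_mod_cast this
    · intro hl
      have := p3 (by exact_mod_cast hl)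
      exact_mod_cast this
  · rw [Finset.not_nonempty_iff_eq_empty] at hne
    rw [hne]
    simp

end Cfsg.Agent.Lib.helper22
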